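import Cfsg.Agent.Lib.Helper12.PGV.T7

set_option autoImplicit false
set_option linter.unusedSectionVars false

namespace Cfsg.Agent.Lib.Helper12.PGV

variable {G V : Type*} [Group G] [Finite G] [AddCommGroup V] [Finite V] {p : ℕ} [Fact p.Prime]
  [Module (ZMod p) V] {ρ : Representation (ZMod p) G V} {K : Subgroup G}

theorem t1_inv_apply (g : G) (v : V) : ρ g (ρ g⁻¹ v) = v := by
  rw [← Module.End.mul_apply, ← map_mul, mul_inv_cancel, map_one, Module.End.one_apply]

theorem t1_inv_apply' (g : G) (v : V) : ρ g⁻¹ (ρ g v) = v := by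
  rw [← Module.End.mul_apply, ← map_mul, inv_mul_cancel, map_one, Module.End.one_apply]

/-- [T1] K perfect; if ρ(K) is commutative on the K-invariant subspace W, K fixes W pointwise. -/
theorem t1 (hK : Cfsg.IsQuasisimple K) (W : Submodule (ZMod p) V)
    (hinv : ∀ k ∈ K, ∀ w ∈ W, ρ k w ∈ W)
    (hc : ∀ k ∈ K, ∀ h ∈ K, ∀ w ∈ W, ρ k (ρ h w) = ρ h (ρ k w)) :
    ∀ k ∈ K, ∀ w ∈ W, ρ k w = w := by
  have h1 : K ≤ Fixer ρ W := by
    apply t7 hK
    intro k hk h hh w hw
    rw [map_mul, map_mul, map_mul, Module.End.mul_apply, Module.End.mul_apply,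
      Module.End.mul_apply]
    rw [hc k hk h hh _ (hinv _ (K.inv_mem hk) _ (hinv _ (K.inv_mem hh) _ hw)), t1_inv_apply,
      t1_inv_apply]
  intro k hk w hw
  exact h1 hk w hw

end Cfsg.Agent.Lib.Helper12.PGV
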