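import Cfsg.Agent.Lib.Helper12.PGV.Defs
import Cfsg.Agent.Lib.Helper12.PGV.T1

set_option autoImplicit false

namespace Cfsg.Agent.Lib.Helper12.PGV

variable {G V : Type*} [Group G] [Finite G] [AddCommGroup V] [Finite V] {p : ℕ} [Fact p.Prime]
  [Module (ZMod p) V] {ρ : Representation (ZMod p) G V} {A K : Subgroup G}

/-- [AZN] elements of A acting trivially on V normalise K (else ρ K is commutative, t1). -/
theorem azn (d : Dat ρ A K) {b : G} (hb : b ∈ A) (h1 : ρ b = 1) : cj K b = K := by
  rcases d.dich b hb with h | h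
  · exact h
  · exfalso
    obtain ⟨k, hk, hk1⟩ := d.nt
    apply hk1
    have hinv1 : ρ b⁻¹ = 1 := by
      have : ρ b⁻¹ * ρ b = 1 := by rw [← map_mul]; simp
      rwa [h1, mul_one] at this
    have hcomm : ∀ k ∈ K, ∀ h ∈ K, ρ k * ρ h = ρ h * ρ k := by
      intro k hk x hx
      have h2 := h k hk (b * x * b⁻¹) ⟨x, hx, by simp⟩
      have h3 := congrArg ρ h2
      simpa [map_mul, h1, hinv1] using h3
    have h2 := t1 (ρ := ρ) d.qs ⊤ (fun _ _ _ _ => trivial) (by
      intro k hk x hx w _
      have := hcomm k hk x hx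
      rw [← Module.End.mul_apply, ← Module.End.mul_apply, this])
    ext v
    exact h2 k hk v trivial

end Cfsg.Agent.Lib.Helper12.PGV
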