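import Cfsg.Agent.Lib.Helper12.PGV.Defs

set_option autoImplicit false

namespace Cfsg.Agent.Lib.Helper12.PGV

variable {G V : Type*} [Group G] [Finite G] [AddCommGroup V] [Finite V] {p : ℕ} [Fact p.Prime]
  [Module (ZMod p) V] {ρ : Representation (ZMod p) G V} {K : Subgroup G}

/-- [C1] -/
theorem c1 {x : G} (hx : Odd (orderOf x)) {u : V} (h : ρ x (ρ x u) = u) : ρ x u = u := by
  obtain ⟨m, hm⟩ := hx
  have h2 : ∀ j : ℕ, ρ (x ^ (2 * j)) u = u := by
    intro j
    induction j with
    | zero => simp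
    | succ j ih =>
      have e : x ^ (2 * (j + 1)) = x ^ (2 * j) * (x * x) := by
        rw [← pow_two, ← pow_add, mul_add, mul_one]
      rw [e, map_mul, map_mul, Module.End.mul_apply, Module.End.mul_apply, h, ih]
  have h3 : ρ (x ^ (2 * m + 1)) u = u := by
    rw [← hm, pow_orderOf_eq_one, map_one, Module.End.one_apply]
  rw [pow_succ', map_mul, Module.End.mul_apply, h2 m] at h3
  exact h3

end Cfsg.Agent.Lib.Helper12.PGV
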