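import Cfsg.Agent.Lib.Helper12.PGV.Defs

set_option autoImplicit false

namespace Cfsg.Agent.Lib.Helper12.PGV

variable {G V : Type*} [Group G] [Finite G] [AddCommGroup V] [Finite V] {p : ℕ} [Fact p.Prime]
  [Module (ZMod p) V] {ρ : Representation (ZMod p) G V} {K : Subgroup G}

/-- the trace map `∑ ρ (x ^ i)` -/
noncomputable def c2T (ρ : Representation (ZMod p) G V) (x : G) : Module.End (ZMod p) V :=
  ∑ i ∈ Finset.range (orderOf x), ρ (x ^ i)

theorem c2_shift (x : G) : ∑ i ∈ Finset.range (orderOf x), ρ (x ^ (i + 1)) = c2T ρ x := by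
  have h1 := Finset.sum_range_succ' (fun i => ρ (x ^ i)) (orderOf x)
  have h2 := Finset.sum_range_succ (fun i => ρ (x ^ i)) (orderOf x)
  rw [h1] at h2
  simp only [pow_zero, pow_orderOf_eq_one] at h2
  exact add_right_cancel h2

theorem c2_left (x : G) : ρ x * c2T ρ x = c2T ρ x := by
  conv_rhs => rw [← c2_shift]
  rw [c2T, Finset.mul_sum]
  refine Finset.sum_congr rfl fun i _ => ?_
  rw [← map_mul, pow_succ']

theorem c2_right (x : G) : c2T ρ x * ρ x = c2T ρ x := by
  conv_rhs => rw [← c2_shift]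
  rw [c2T, Finset.sum_mul]
  refine Finset.sum_congr rfl fun i _ => ?_
  rw [← map_mul, pow_succ]

theorem c2_pow_mem (x : G) (v : V) (i : ℕ) : ρ (x ^ i) v - v ∈ Cm ρ {x} := by
  induction i with
  | zero => simp
  | succ i ih =>
    have e : ρ (x ^ (i + 1)) v - v = (ρ x (ρ (x ^ i) v) - ρ (x ^ i) v) + (ρ (x ^ i) v - v) := by
      rw [pow_succ', map_mul, Module.End.mul_apply]; abel
    rw [e]
    exact (Cm ρ {x}).add_mem (Submodule.subset_span ⟨x, rfl, _, rfl⟩) ih

theorem c2_fix (x : G) {v : V} (hv : v ∈ Fx ρ {x}) : c2T ρ x v = (orderOf x : ZMod p) • v := by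
  have h : ∀ i : ℕ, ρ (x ^ i) v = v := by
    intro i
    induction i with
    | zero => simp
    | succ i ih => rw [pow_succ', map_mul, Module.End.mul_apply, ih]; exact hv x rfl
  rw [c2T, LinearMap.sum_apply, Finset.sum_congr rfl (fun i _ => h i), Finset.sum_const, Finset.card_range,
    Nat.cast_smul_eq_nsmul]

theorem c2_kill (x : G) {w : V} (hw : w ∈ Cm ρ {x}) : c2T ρ x w = 0 := by
  have hle : Cm ρ {x} ≤ LinearMap.ker (c2T ρ x) := by
    apply Submodule.span_le.2
    rintro _ ⟨y, hy, v, rfl⟩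
    rw [Set.mem_singleton_iff] at hy
    subst hy
    rw [SetLike.mem_coe, LinearMap.mem_ker, map_sub, ← Module.End.mul_apply, c2_right, sub_self]
  exact hle hw

/-- [C2] V = C_V(x) ⊕ [V,x] for a p'-element x. -/
theorem c2 {x : G} (hx : (orderOf x).Coprime p) :
    Fx ρ {x} ⊔ Cm ρ {x} = ⊤ ∧ Fx ρ {x} ⊓ Cm ρ {x} = ⊥ := by
  have hn : (orderOf x : ZMod p) * (orderOf x : ZMod p)⁻¹ = 1 := ZMod.coe_mul_inv_eq_one _ hx
  set c : ZMod p := (orderOf x : ZMod p)⁻¹ with hc
  constructor
  · rw [eq_top_iff]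
    intro v _
    have h1 : c • c2T ρ x v ∈ Fx ρ {x} := by
      intro y hy
      rw [Set.mem_singleton_iff] at hy
      subst hy
      rw [map_smul, ← Module.End.mul_apply, c2_left]
    have h2 : v - c • c2T ρ x v ∈ Cm ρ {x} := by
      have e : v - c • c2T ρ x v = - (c • ∑ i ∈ Finset.range (orderOf x), (ρ (x ^ i) v - v)) := by
        rw [Finset.sum_sub_distrib, Finset.sum_const, Finset.card_range, smul_sub,
          ← Nat.cast_smul_eq_nsmul (ZMod p), smul_smul, mul_comm c, hn, one_smul, c2T, LinearMap.sum_apply]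
        abel
      rw [e]
      exact (Cm ρ {x}).neg_mem ((Cm ρ {x}).smul_mem _ ((Cm ρ {x}).sum_mem fun i _ => c2_pow_mem x v i))
    have e : v = c • c2T ρ x v + (v - c • c2T ρ x v) := by abel
    rw [e]
    exact Submodule.add_mem_sup h1 h2
  · rw [eq_bot_iff]
    intro w hw
    have h1 := c2_fix x hw.1
    rw [c2_kill x hw.2] at h1
    have : w = (c * (orderOf x : ZMod p)) • w := by rw [mul_comm, hn, one_smul]
    rw [Submodule.mem_bot, this, mul_smul, ← h1, smul_zero]

end Cfsg.Agent.Lib.Helper12.PGV
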