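import Cfsg.Agent.Lib.Helper12.PGV.Defs

set_option autoImplicit false

namespace Cfsg.Agent.Lib.Helper12.PGV

variable {G V : Type*} [Group G] [Finite G] [AddCommGroup V] [Finite V] {p : ℕ} [Fact p.Prime]
  [Module (ZMod p) V] {ρ : Representation (ZMod p) G V} {K : Subgroup G}

/-- [C5] a p-group has nonzero fixed points on every nonzero invariant subspace. -/
theorem c5 (T : Subgroup G) (hT : IsPGroup p T) (U : Submodule (ZMod p) V) (hU : U ≠ ⊥)
    (hinv : ∀ t ∈ T, ∀ u ∈ U, ρ t u ∈ U) : Fx ρ (T : Set G) ⊓ U ≠ ⊥ := by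
  classical
  have hp : p.Prime := Fact.out
  let _ : MulAction T U :=
    { smul := fun t u => ⟨ρ t u, hinv t t.2 u u.2⟩
      one_smul := fun u => Subtype.ext (by show ρ ((1 : T) : G) (u : V) = u; simp)
      mul_smul := fun s t u => Subtype.ext (by
        show ρ ((s * t : T) : G) (u : V) = ρ s (ρ t (u : V)); simp) }
  have hpd : p ∣ Nat.card U := by
    obtain ⟨u, hu, hu0⟩ := (Submodule.ne_bot_iff U).mp hU
    have h1 : addOrderOf (⟨u, hu⟩ : U) = p := by
      apply addOrderOf_eq_prime
      · apply Subtype.ext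
        show p • u = 0
        have : (p : ZMod p) • u = 0 := by simp
        rwa [Nat.cast_smul_eq_nsmul] at this
      · intro h
        exact hu0 (congrArg Subtype.val h)
    have h2 := addOrderOf_dvd_natCard (⟨u, hu⟩ : U)
    rwa [h1] at h2
  have h0 : (0 : U) ∈ MulAction.fixedPoints T U := by
    intro t
    apply Subtype.ext
    show ρ t (0 : V) = 0
    simp
  obtain ⟨b, hb, hne⟩ := hT.exists_fixed_point_of_prime_dvd_card_of_fixed_point U hpd h0
  intro hbot
  have hmem : (b : V) ∈ Fx ρ (T : Set G) ⊓ U :=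
    ⟨fun t ht => congrArg Subtype.val (hb ⟨t, ht⟩), b.2⟩
  rw [hbot, Submodule.mem_bot] at hmem
  exact hne (Subtype.ext hmem.symm)

end Cfsg.Agent.Lib.Helper12.PGV
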