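import Cfsg.Agent.Lib.Helper12.PGV.Defs
import Cfsg.Agent.Lib.Helper12.PGV.C2
import Cfsg.Agent.Lib.Helper12.PGV.C5

set_option autoImplicit false

namespace Cfsg.Agent.Lib.Helper12.PGV

variable {G V : Type*} [Group G] [Finite G] [AddCommGroup V] [Finite V] {p : ℕ} [Fact p.Prime]
  [Module (ZMod p) V] {ρ : Representation (ZMod p) G V} {K : Subgroup G}

/-- [C3] Thompson A×B for modules. -/
theorem c3 (X : Subgroup G) (hX : IsPGroup p X) {y : G} (hy : (orderOf y).Coprime p)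
    (hc : ∀ x ∈ X, ρ x * ρ y = ρ y * ρ x) (hf : ∀ v ∈ Fx ρ (X : Set G), ρ y v = v) : ρ y = 1 := by
  classical
  have hinv : ∀ t ∈ X, ∀ u ∈ Cm ρ {y}, ρ t u ∈ Cm ρ {y} := by
    intro t ht u hu
    have hle : Cm ρ {y} ≤ (Cm ρ {y}).comap (ρ t) := by
      conv_lhs => unfold Cm
      rw [Submodule.span_le]
      rintro _ ⟨z, hz, v, rfl⟩
      rw [Set.mem_singleton_iff] at hz
      subst hz
      show ρ t (ρ z v - v) ∈ Cm ρ {z}
      have h1 : ρ t (ρ z v) = ρ z (ρ t v) := by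
        have := congrArg (fun f : Module.End (ZMod p) V => f v) (hc t ht)
        exact this
      rw [map_sub, h1]
      exact Submodule.subset_span ⟨z, rfl, ρ t v, rfl⟩
    exact hle hu
  have hbot : Cm ρ {y} = ⊥ := by
    by_contra hne
    apply c5 X hX (Cm ρ {y}) hne hinv
    rw [eq_bot_iff]
    rintro w ⟨hw1, hw2⟩
    have h1 : w ∈ Fx ρ {y} ⊓ Cm ρ {y} := by
      refine ⟨?_, hw2⟩
      intro z hz
      rw [Set.mem_singleton_iff] at hz
      subst hz
      exact hf w hw1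
    rw [(c2 hy).2] at h1
    exact h1
  ext v
  have h1 : ρ y v - v ∈ Cm ρ {y} := Submodule.subset_span ⟨y, rfl, v, rfl⟩
  rw [hbot, Submodule.mem_bot] at h1
  exact sub_eq_zero.mp h1

end Cfsg.Agent.Lib.Helper12.PGV
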