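import Cfsg.Agent.Lib.Helper12.PGV.Defs
import Cfsg.Agent.Lib.Helper12.PGV.C5

set_option autoImplicit false

namespace Cfsg.Agent.Lib.Helper12.PGV

variable {G V : Type*} [Group G] [Finite G] [AddCommGroup V] [Finite V] {p : ℕ} [Fact p.Prime]
  [Module (ZMod p) V] {ρ : Representation (ZMod p) G V} {K : Subgroup G}

/-- [C6] dual of C5: if `[V,A] + W = V` for a `p`-group `A` and an invariant `W`, then `W = V`. -/
theorem c6 (A : Subgroup G) (hA : IsPGroup p A) (W : Submodule (ZMod p) V)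
    (hinv : ∀ a ∈ A, ∀ w ∈ W, ρ a w ∈ W) (h : Cm ρ (A : Set G) ⊔ W = ⊤) : W = ⊤ := by
  classical
  by_contra hW
  have hfin : Finite (Module.Dual (ZMod p) V) := DFunLike.finite _
  have hU : W.dualAnnihilator ≠ ⊥ := by
    intro hb
    apply hW
    apply Subspace.dualAnnihilator_inj.mp
    rw [hb, Submodule.dualAnnihilator_top]
  have hinvU : ∀ t ∈ A, ∀ u ∈ W.dualAnnihilator, ρ.dual t u ∈ W.dualAnnihilator := by
    intro t ht u hu
    rw [Submodule.mem_dualAnnihilator] at hu ⊢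
    intro w hw
    rw [Representation.dual_apply]
    show u (ρ t⁻¹ w) = 0
    exact hu _ (hinv _ (A.inv_mem ht) w hw)
  have h5 := c5 (ρ := ρ.dual) A hA W.dualAnnihilator hU hinvU
  obtain ⟨φ, hφ, hφ0⟩ := (Submodule.ne_bot_iff _).mp h5
  obtain ⟨hφ1, hφ2⟩ := hφ
  rw [SetLike.mem_coe, Submodule.mem_dualAnnihilator] at hφ2
  apply hφ0
  have hker : (⊤ : Submodule (ZMod p) V) ≤ LinearMap.ker φ := by
    rw [← h]
    apply sup_le
    · apply Submodule.span_le.mpr
      rintro w ⟨x, hx, v, rfl⟩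
      show φ (ρ x v - v) = 0
      have h1 := hφ1 x⁻¹ (A.inv_mem hx)
      have h2 : (ρ.dual x⁻¹ φ) v = φ v := by rw [h1]
      rw [Representation.dual_apply] at h2
      have h3 : φ (ρ x v) = φ v := by
        have : (Module.Dual.transpose (R := ZMod p) (ρ x⁻¹⁻¹) φ) v = φ (ρ x v) := by
          rw [inv_inv]; rfl
        rw [← this]; exact h2
      rw [map_sub, h3, sub_self]
    · intro w hw
      exact hφ2 w hw
  ext v
  exact hker (Submodule.mem_top : v ∈ ⊤)

end Cfsg.Agent.Lib.Helper12.PGV
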