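import Cfsg.Agent.Lib.Helper12.PGV.Defs

set_option autoImplicit false

namespace Cfsg.Agent.Lib.Helper12.PGV

variable {G V : Type*} [Group G] [Finite G] [AddCommGroup V] [Finite V] {p : ℕ} [Fact p.Prime]
  [Module (ZMod p) V] {ρ : Representation (ZMod p) G V} {A K : Subgroup G}

/-- [QQC] conjugation: QQ (g b g⁻¹) (g a g⁻¹). -/
theorem qqc {a b : G} (g : G) (h : QQ ρ b a) : QQ ρ (g * b * g⁻¹) (g * a * g⁻¹) := by
  intro v
  have h1 := h (ρ g⁻¹ v)
  have e : ρ (g * a * g⁻¹) v - v = ρ g (ρ a (ρ g⁻¹ v) - ρ g⁻¹ v) := by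
    rw [map_sub, ρ.self_inv_apply]
    simp only [map_mul, Module.End.mul_apply]
  rw [e]
  simp only [map_mul, Module.End.mul_apply]
  rw [ρ.inv_self_apply, h1]

end Cfsg.Agent.Lib.Helper12.PGV
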