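import Cfsg.Agent.Lib.Helper12.PGV.Defs
import Cfsg.Agent.Lib.Helper28.Components

set_option autoImplicit false

namespace Cfsg.Agent.Lib.Helper12.PGV

variable {G V : Type*} [Group G] [Finite G] [AddCommGroup V] [Finite V] {p : ℕ} [Fact p.Prime]
  [Module (ZMod p) V] {ρ : Representation (ZMod p) G V} {K : Subgroup G}

/-- [QSC] conjugates are quasisimple and act nontrivially. -/
theorem qsc (hK : Cfsg.IsQuasisimple K) (a : G) : Cfsg.IsQuasisimple (cj K a) :=
  Cfsg.Agent.Lib.Helper28.isQuasisimple_of_equiv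
    (K.equivMapOfInjective (MulAut.conj a).toMonoidHom (MulAut.conj a).injective) hK

theorem ntc (nt : ∃ k ∈ K, ρ k ≠ 1) (a : G) : ∃ k ∈ cj K a, ρ k ≠ 1 := by
  obtain ⟨k, hk, hne⟩ := nt
  refine ⟨a * k * a⁻¹, ⟨k, hk, by simp⟩, ?_⟩
  intro h
  apply hne
  have h1 : ρ k = ρ a⁻¹ * ρ (a * k * a⁻¹) * ρ a := by
    rw [← map_mul, ← map_mul]
    congr 1
    group
  rw [h1, h, mul_one, ← map_mul, inv_mul_cancel, map_one]

end Cfsg.Agent.Lib.Helper12.PGV
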