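import Cfsg.Agent.Lib.Helper12.PGV.Defs
import Cfsg.Agent.Lib.Helper12.PGV.QSC

set_option autoImplicit false

namespace Cfsg.Agent.Lib.Helper12.PGV

variable {G V : Type*} [Group G] [Finite G] [AddCommGroup V] [Finite V] {p : ℕ} [Fact p.Prime]
  [Module (ZMod p) V] {ρ : Representation (ZMod p) G V} {A K : Subgroup G}

theorem sym_mem_cj {K : Subgroup G} {a y : G} : y ∈ cj K a ↔ ∃ k ∈ K, a * k * a⁻¹ = y := by
  simp [cj, Subgroup.mem_map]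

/-- [SYM] -/
theorem pair2_symm {a : G} (P : Pair2 ρ K a) : Pair2 ρ (cj K a) a := by
  have hinv : a⁻¹ = a := inv_eq_of_mul_eq_one_left P.a2
  have haa : ∀ k : G, a * (a * k * a⁻¹) * a⁻¹ = k := by
    intro k
    rw [hinv]
    calc a * (a * k * a) * a = (a * a) * k * (a * a) := by group
      _ = k := by rw [P.a2]; simp
  refine ⟨qsc P.qs a, ntc P.nt a, P.a2, ?_, ?_⟩
  · intro x hx y hy
    obtain ⟨k, hk, rfl⟩ := sym_mem_cj.1 hx
    obtain ⟨z, hz, rfl⟩ := sym_mem_cj.1 hy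
    obtain ⟨k', hk', rfl⟩ := sym_mem_cj.1 hz
    rw [haa]
    exact (P.cm k' hk' _ (sym_mem_cj.2 ⟨k, hk, rfl⟩)).symm
  · intro x hx
    obtain ⟨k, hk, rfl⟩ := sym_mem_cj.1 hx
    rw [haa, ← P.cm k hk _ (sym_mem_cj.2 ⟨k, hk, rfl⟩)]
    exact P.dc k hk

end Cfsg.Agent.Lib.Helper12.PGV
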