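import Cfsg.Agent.Lib.Helper12.PGV.Defs
import Cfsg.Agent.Lib.Helper12.PGV.QSC
import Cfsg.Agent.Lib.Helper12.PGV.QQC
import Cfsg.Agent.Lib.Helper12.PGV.SYM

set_option autoImplicit false

namespace Cfsg.Agent.Lib.Helper12.PGV

variable {G V : Type*} [Group G] [Finite G] [AddCommGroup V] [Finite V] {p : ℕ} [Fact p.Prime]
  [Module (ZMod p) V] {ρ : Representation (ZMod p) G V} {A K : Subgroup G}

/-- [CONJ] -/
theorem pair2_conj {a c : G} (P : Pair2 ρ K a) (hac : a * c = c * a) : Pair2 ρ (cj K c) a := by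
  have hca : c * a * c⁻¹ = a := by rw [← hac]; group
  have hmv : ∀ k : G, a * (c * k * c⁻¹) * a⁻¹ = c * (a * k * a⁻¹) * c⁻¹ := by
    intro k
    have h1 : a⁻¹ = c * a⁻¹ * c⁻¹ := by
      have := congrArg (·⁻¹) hca
      simp only [mul_inv_rev, inv_inv] at this
      rw [← mul_assoc] at this
      exact this.symm
    calc a * (c * k * c⁻¹) * a⁻¹ = (a * c) * k * c⁻¹ * a⁻¹ := by group
      _ = (c * a) * k * c⁻¹ * (c * a⁻¹ * c⁻¹) := by rw [hac, ← h1]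
      _ = c * (a * k * a⁻¹) * c⁻¹ := by group
  refine ⟨qsc P.qs c, ntc P.nt c, P.a2, ?_, ?_⟩
  · intro x hx y hy
    obtain ⟨k, hk, rfl⟩ := sym_mem_cj.1 hx
    obtain ⟨z, hz, rfl⟩ := sym_mem_cj.1 hy
    obtain ⟨k', hk', rfl⟩ := sym_mem_cj.1 hz
    rw [hmv]
    have h1 := P.cm k hk _ (sym_mem_cj.2 ⟨k', hk', rfl⟩)
    calc c * k * c⁻¹ * (c * (a * k' * a⁻¹) * c⁻¹) = c * (k * (a * k' * a⁻¹)) * c⁻¹ := by group
      _ = c * ((a * k' * a⁻¹) * k) * c⁻¹ := by rw [h1]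
      _ = c * (a * k' * a⁻¹) * c⁻¹ * (c * k * c⁻¹) := by group
  · intro x hx
    obtain ⟨k, hk, rfl⟩ := sym_mem_cj.1 hx
    rw [hmv]
    have h1 := qqc (ρ := ρ) c (P.dc k hk)
    rw [hca] at h1
    have e : c * k * c⁻¹ * (c * (a * k * a⁻¹) * c⁻¹) = c * (k * (a * k * a⁻¹)) * c⁻¹ := by group
    rw [e]
    exact h1

end Cfsg.Agent.Lib.Helper12.PGV
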