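import Cfsg.Agent.Lib.Helper12.PGV.T7
import Cfsg.Agent.Lib.Helper28.Components

set_option autoImplicit false
set_option linter.unusedSectionVars false

namespace Cfsg.Agent.Lib.Helper12.PGV

variable {G V : Type*} [Group G] [Finite G] [AddCommGroup V] [Finite V] {p : ℕ} [Fact p.Prime]
  [Module (ZMod p) V] {ρ : Representation (ZMod p) G V} {K : Subgroup G}

theorem t5_comm (k h z w : G) (hzh : z * h = h * z) (hwk : w * k = k * w) (hzw : z * w = w * z) :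
    (k * z) * (h * w) * (k * z)⁻¹ * (h * w)⁻¹ = k * h * k⁻¹ * h⁻¹ := by
  have h1 : (k * z) * (h * w) = (k * h) * (z * w) := by
    rw [mul_assoc k z, ← mul_assoc z h, hzh, mul_assoc h z, ← mul_assoc k h]
  have h2 : (h * w) * (k * z) = (h * k) * (z * w) := by
    rw [mul_assoc h w, ← mul_assoc w k, hwk, mul_assoc k w, ← mul_assoc h k, hzw]
  have h3 : (k * z) * (h * w) * (k * z)⁻¹ * (h * w)⁻¹ = (k * z) * (h * w) * ((h * w) * (k * z))⁻¹ := by
    rw [mul_inv_rev (h * w), mul_assoc, mul_assoc, mul_assoc]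
  rw [h3, h1, h2]
  group

/-- if b normalises the perfect group K and all k⁻¹ (b k b⁻¹) are central in K then b
centralises K. -/
theorem t5_central (hK : Cfsg.IsQuasisimple K) {b : G} (hb : ∀ k ∈ K, b * k * b⁻¹ ∈ K)
    (hc : ∀ k ∈ K, ∀ h ∈ K, (k⁻¹ * (b * k * b⁻¹)) * h = h * (k⁻¹ * (b * k * b⁻¹))) :
    ∀ k ∈ K, b * k = k * b := by
  have h1 : K ≤ Subgroup.centralizer {b} := by
    apply t7 hK
    intro k hk h hh
    rw [Subgroup.mem_centralizer_singleton_iff]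
    have hz : k⁻¹ * (b * k * b⁻¹) ∈ K := K.mul_mem (K.inv_mem hk) (hb k hk)
    have hw : h⁻¹ * (b * h * b⁻¹) ∈ K := K.mul_mem (K.inv_mem hh) (hb h hh)
    have h2 := t5_comm k h (k⁻¹ * (b * k * b⁻¹)) (h⁻¹ * (b * h * b⁻¹)) (hc k hk h hh)
      (hc h hh k hk) (hc k hk _ hw)
    have h3 : k * (k⁻¹ * (b * k * b⁻¹)) = b * k * b⁻¹ := by group
    have h4 : h * (h⁻¹ * (b * h * b⁻¹)) = b * h * b⁻¹ := by group
    rw [h3, h4] at h2
    have h5 : b * k * b⁻¹ * (b * h * b⁻¹) * (b * k * b⁻¹)⁻¹ * (b * h * b⁻¹)⁻¹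
        = b * (k * h * k⁻¹ * h⁻¹) * b⁻¹ := by group
    rw [h5] at h2
    exact (mul_inv_eq_iff_eq_mul.mp h2).symm
  intro k hk
  have := Subgroup.mem_centralizer_singleton_iff.mp (h1 hk)
  exact this.symm

theorem t5_dich (hK : Cfsg.IsQuasisimple K) (M : Subgroup G)
    (hn : ∀ k ∈ K, ∀ m ∈ M, m ∈ K → k * m * k⁻¹ ∈ M) :
    K ≤ M ∨ ∀ m ∈ M, m ∈ K → ∀ h ∈ K, m * h = h * m := by
  have hnorm : (M.subgroupOf K).Normal := by
    refine ⟨fun n hn' g => ?_⟩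
    rw [Subgroup.mem_subgroupOf] at hn' ⊢
    exact hn g g.2 n hn' n.2
  rcases Cfsg.Agent.Lib.Helper28.IsQuasisimple.normal_eq_top_or_le_center hK (M.subgroupOf K)
    with h1 | h1
  · left
    exact Subgroup.subgroupOf_eq_top.mp h1
  · right
    intro m hm hmK h hh
    have h2 : (⟨m, hmK⟩ : K) ∈ Subgroup.center K := h1 (Subgroup.mem_subgroupOf.mpr hm)
    have h3 := Subgroup.mem_center_iff.mp h2 ⟨h, hh⟩
    exact (congrArg Subtype.val h3).symm

/-- [T5] b normalises K, ρ b does not commute with ρ(K); a subgroup M with M ∩ K normal in K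
containing all k⁻¹ (b k b⁻¹) contains K. -/
theorem t5 (hK : Cfsg.IsQuasisimple K) {b : G} (hb : cj K b = K) (hnc : ¬ RC ρ K b)
    (M : Subgroup G) (hn : ∀ k ∈ K, ∀ m ∈ M, m ∈ K → k * m * k⁻¹ ∈ M)
    (hm : ∀ k ∈ K, k⁻¹ * (b * k * b⁻¹) ∈ M) : K ≤ M := by
  have hb' : ∀ k ∈ K, b * k * b⁻¹ ∈ K := by
    intro k hk
    rw [← hb]
    exact ⟨k, hk, rfl⟩
  rcases t5_dich hK M hn with h1 | h1
  · exact h1
  · exfalso
    apply hnc
    have h2 := t5_central hK hb' (fun k hk h hh =>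
      h1 _ (hm k hk) (K.mul_mem (K.inv_mem hk) (hb' k hk)) h hh)
    intro k hk
    rw [← map_mul, ← map_mul, h2 k hk]

end Cfsg.Agent.Lib.Helper12.PGV
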