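import Cfsg.Agent.Lib.Helper12.PGV.Defs

set_option autoImplicit false
set_option linter.unusedSectionVars false

namespace Cfsg.Agent.Lib.Helper12.PGV

variable {G V : Type*} [Group G] [Finite G] [AddCommGroup V] [Finite V] {p : ℕ} [Fact p.Prime]
  [Module (ZMod p) V] {ρ : Representation (ZMod p) G V} {K : Subgroup G}

/-- [T7] M ∩ K normal in K containing all commutators of K contains K (K perfect). -/
theorem t7 (hK : Cfsg.IsQuasisimple K) (M : Subgroup G)
    (hm : ∀ k ∈ K, ∀ h ∈ K, k * h * k⁻¹ * h⁻¹ ∈ M) : K ≤ M := by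
  intro k hk
  have h1 : commutator K ≤ M.subgroupOf K := by
    rw [commutator_def, Subgroup.commutator_le]
    intro a _ b _
    rw [Subgroup.mem_subgroupOf]
    exact hm a a.2 b b.2
  have h2 : (⟨k, hk⟩ : K) ∈ commutator K := by
    rw [hK.1.commutator_eq_top]
    exact Subgroup.mem_top _
  exact h1 h2

end Cfsg.Agent.Lib.Helper12.PGV
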