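import Cfsg.Agent.Lib.Helper12.PGV.Defs
import Cfsg.Agent.Lib.Helper12.PGV.T5
import Cfsg.Agent.Lib.Helper12.PGV.T7

set_option autoImplicit false
set_option linter.unusedSectionVars false

namespace Cfsg.Agent.Lib.Helper12.PGV

variable {G V : Type*} [Group G] [Finite G] [AddCommGroup V] [Finite V] {p : ℕ} [Fact p.Prime]
  [Module (ZMod p) V] {ρ : Representation (ZMod p) G V} {A K : Subgroup G}

theorem dc2b_mem_cj {a k : G} (hk : k ∈ K) : a * k * a⁻¹ ∈ cj K a :=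
  Subgroup.mem_map.2 ⟨k, hk, rfl⟩

theorem dc2b_rho_mul (g h : G) (v : V) : ρ (g * h) v = ρ g (ρ h v) := by
  rw [map_mul, Module.End.mul_apply]

theorem dc2b_rho_inv (g : G) (v : V) : ρ g⁻¹ (ρ g v) = v := by
  rw [← dc2b_rho_mul, inv_mul_cancel, map_one, Module.End.one_apply]

theorem dc2b_inv_eq {a : G} (ha2 : a * a = 1) : a⁻¹ = a := inv_eq_of_mul_eq_one_left ha2

/-- `δ` is multiplicative on `K` -/
theorem dc2b_mul {a : G} (hcm : CC K (cj K a)) {k h : G} (hk : k ∈ K) (hh : h ∈ K) :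
    (k * h) * (a * (k * h) * a⁻¹) = (k * (a * k * a⁻¹)) * (h * (a * h * a⁻¹)) := by
  have h1 : h * (a * k * a⁻¹) = (a * k * a⁻¹) * h := hcm h hh _ (dc2b_mem_cj hk)
  calc (k * h) * (a * (k * h) * a⁻¹) = k * (h * (a * k * a⁻¹)) * (a * h * a⁻¹) := by group
    _ = k * ((a * k * a⁻¹) * h) * (a * h * a⁻¹) := by rw [h1]
    _ = (k * (a * k * a⁻¹)) * (h * (a * h * a⁻¹)) := by group

theorem dc2b_aux (a k k' : G) (e1 : a * k = k' * a) (e2 : a * k' = k * a)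
    (hc : k * k' = k' * k) : a * (k * k') = (k * k') * a := by
  calc a * (k * k') = (a * k) * k' := by rw [mul_assoc]
    _ = k' * (a * k') := by rw [e1, mul_assoc]
    _ = k' * k * a := by rw [e2, mul_assoc]
    _ = (k * k') * a := by rw [hc]

/-- `δ k` commutes with `a` -/
theorem dc2b_comm_a {a : G} (ha2 : a * a = 1) (hcm : CC K (cj K a)) {k : G} (hk : k ∈ K) :
    a * (k * (a * k * a⁻¹)) = (k * (a * k * a⁻¹)) * a := by
  apply dc2b_aux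
  · group
  · calc a * (a * k * a⁻¹) = (a * a) * k * a⁻¹ := by group
      _ = k * a := by rw [ha2, one_mul, dc2b_inv_eq ha2]
  · exact hcm k hk _ (dc2b_mem_cj hk)

/-- an element commuting with `a` maps `[V,a]` to `[V,a]` -/
theorem dc2b_pres {a g : G} (h : a * g = g * a) (v : V) :
    ρ g (ρ a v - v) = ρ a (ρ g v) - ρ g v := by
  rw [map_sub, ← dc2b_rho_mul, ← h, dc2b_rho_mul]

theorem dc2b_QQ_mul {a g h : G} (hg : QQ ρ g a) (hh : QQ ρ h a) : QQ ρ (g * h) a := by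
  intro v
  rw [dc2b_rho_mul, hh v, hg v]

theorem dc2b_QQ_inv {a g : G} (hg : QQ ρ g a) : QQ ρ g⁻¹ a := by
  intro v
  conv_lhs => rw [← hg v]
  exact dc2b_rho_inv g _

theorem dc2b_QQ_one (a : G) : QQ ρ 1 a := by
  intro v
  rw [map_one, Module.End.one_apply]

/-- the subgroup of all `m ∈ K` such that `δ m` fixes `[V,a]` pointwise -/
def dc2bM (ρ : Representation (ZMod p) G V) (K : Subgroup G) (a : G) (hcm : CC K (cj K a)) :
    Subgroup G where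
  carrier := {m | m ∈ K ∧ QQ ρ (m * (a * m * a⁻¹)) a}
  one_mem' := ⟨K.one_mem, by
    have : (1 : G) * (a * 1 * a⁻¹) = 1 := by group
    rw [this]; exact dc2b_QQ_one a⟩
  mul_mem' := by
    rintro x y ⟨hx, hx'⟩ ⟨hy, hy'⟩
    refine ⟨K.mul_mem hx hy, ?_⟩
    rw [dc2b_mul hcm hx hy]
    exact dc2b_QQ_mul hx' hy'
  inv_mem' := by
    rintro x ⟨hx, hx'⟩
    refine ⟨K.inv_mem hx, ?_⟩
    have h1 := dc2b_mul hcm (K.inv_mem hx) hx
    have h2 : x⁻¹ * (a * x⁻¹ * a⁻¹) = (x * (a * x * a⁻¹))⁻¹ := by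
      apply eq_inv_of_mul_eq_one_left
      rw [← h1]; group
    rw [h2]
    exact dc2b_QQ_inv hx'

theorem dc2b_mem_M {a : G} {hcm : CC K (cj K a)} {m : G} :
    m ∈ dc2bM ρ K a hcm ↔ m ∈ K ∧ QQ ρ (m * (a * m * a⁻¹)) a := Iff.rfl

/-- `M` is normalised by `K` -/
theorem dc2b_M_conj {a : G} (ha2 : a * a = 1) (hcm : CC K (cj K a)) :
    ∀ k ∈ K, ∀ m ∈ dc2bM ρ K a hcm, m ∈ K → k * m * k⁻¹ ∈ dc2bM ρ K a hcm := by
  intro k hk m hm _
  refine ⟨K.mul_mem (K.mul_mem hk hm.1) (K.inv_mem hk), ?_⟩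
  rw [dc2b_mul hcm (K.mul_mem hk hm.1) (K.inv_mem hk), dc2b_mul hcm hk hm.1]
  intro v
  have hki := dc2b_comm_a ha2 hcm (K.inv_mem hk)
  rw [dc2b_rho_mul, dc2b_rho_mul, dc2b_pres hki, hm.2, ← dc2b_pres hki, ← dc2b_rho_mul,
    ← dc2b_mul hcm hk (K.inv_mem hk)]
  have : k * k⁻¹ * (a * (k * k⁻¹) * a⁻¹) = 1 := by group
  rw [this, map_one, Module.End.one_apply]

/-- [DC2B] -/
theorem dc2b (hK : Cfsg.IsQuasisimple K) {a b : G} (ha2 : a * a = 1) (hcm : CC K (cj K a))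
    (hb : cj K b = K) (hab : a * b = b * a) (hnc : ¬ RC ρ K b) (hq : QQ ρ b a) :
    ∀ k ∈ K, QQ ρ (k * (a * k * a⁻¹)) a := by
  have hbK : ∀ k ∈ K, b * k * b⁻¹ ∈ K := by
    intro k hk
    have := dc2b_mem_cj (a := b) hk
    rwa [hb] at this
  have hle : K ≤ dc2bM ρ K a hcm := by
    apply t5 hK hb hnc _ (dc2b_M_conj ha2 hcm)
    intro k hk
    refine ⟨K.mul_mem (K.inv_mem hk) (hbK k hk), ?_⟩
    rw [dc2b_mul hcm (K.inv_mem hk) (hbK k hk)]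
    intro v
    have e1 : b * k * b⁻¹ * (a * (b * k * b⁻¹) * a⁻¹) = b * (k * (a * k * a⁻¹)) * b⁻¹ := by
      have hab' : a * b⁻¹ = b⁻¹ * a := by
        calc a * b⁻¹ = b⁻¹ * (b * a) * b⁻¹ := by group
          _ = b⁻¹ * (a * b) * b⁻¹ := by rw [hab]
          _ = b⁻¹ * a := by group
      have hab'' : b⁻¹ * a⁻¹ = a⁻¹ * b⁻¹ := by
        rw [← mul_inv_rev, ← mul_inv_rev, hab]
      calc b * k * b⁻¹ * (a * (b * k * b⁻¹) * a⁻¹)
          = b * k * b⁻¹ * ((a * b) * k * (b⁻¹ * a⁻¹)) := by group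
        _ = b * k * b⁻¹ * ((b * a) * k * (a⁻¹ * b⁻¹)) := by rw [hab, hab'']
        _ = b * (k * (a * k * a⁻¹)) * b⁻¹ := by group
    have hk' := dc2b_comm_a ha2 hcm hk
    have s1 : ρ (b * (k * (a * k * a⁻¹)) * b⁻¹) (ρ a v - v) = ρ (k * (a * k * a⁻¹)) (ρ a v - v) := by
      calc ρ (b * (k * (a * k * a⁻¹)) * b⁻¹) (ρ a v - v)
          = ρ b (ρ (k * (a * k * a⁻¹)) (ρ b⁻¹ (ρ a v - v))) := by
            rw [dc2b_rho_mul (b * (k * (a * k * a⁻¹))) b⁻¹, dc2b_rho_mul b]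
        _ = ρ b (ρ (k * (a * k * a⁻¹)) (ρ a v - v)) := by rw [dc2b_QQ_inv hq v]
        _ = ρ (k * (a * k * a⁻¹)) (ρ a v - v) := by rw [dc2b_pres hk', hq]
    rw [e1, dc2b_rho_mul (k⁻¹ * (a * k⁻¹ * a⁻¹)), s1, ← dc2b_rho_mul,
      ← dc2b_mul hcm (K.inv_mem hk) hk]
    have : k⁻¹ * k * (a * (k⁻¹ * k) * a⁻¹) = 1 := by group
    rw [this, map_one, Module.End.one_apply]
  intro k hk
  exact (hle hk).2

end Cfsg.Agent.Lib.Helper12.PGV
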