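import Cfsg.Agent.Lib.Helper12.PGV.Defs
import Cfsg.Agent.Lib.Helper12.PGV.T7
import Cfsg.Agent.Lib.Helper12.PGV.DC2B

set_option autoImplicit false
set_option linter.unusedSectionVars false

namespace Cfsg.Agent.Lib.Helper12.PGV

variable {G V : Type*} [Group G] [Finite G] [AddCommGroup V] [Finite V] {p : ℕ} [Fact p.Prime]
  [Module (ZMod p) V] {ρ : Representation (ZMod p) G V} {A K : Subgroup G}

/-- four pairwise commutations give commutation of the products -/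
theorem dc2c_comm4 (x y u w : G) (h1 : x * u = u * x) (h2 : x * w = w * x) (h3 : y * u = u * y)
    (h4 : y * w = w * y) : (x * y) * (u * w) = (u * w) * (x * y) := by
  calc (x * y) * (u * w) = x * (y * u) * w := by group
    _ = x * (u * y) * w := by rw [h3]
    _ = (x * u) * (y * w) := by group
    _ = (u * x) * (w * y) := by rw [h1, h4]
    _ = u * (x * w) * y := by group
    _ = u * (w * x) * y := by rw [h2]
    _ = (u * w) * (x * y) := by group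

/-- [DC2C] c moves the pair {K, aKa⁻¹} off itself and fixes [V,a] pointwise. -/
theorem dc2c (hK : Cfsg.IsQuasisimple K) {a c : G} (ha2 : a * a = 1) (hcm : CC K (cj K a))
    (hac : a * c = c * a) (h1 : CC K (cj K c)) (h2 : CC K (cj K (a * c))) (hq : QQ ρ c a) :
    ∀ k ∈ K, QQ ρ (k * (a * k * a⁻¹)) a := by
  have hi := dc2b_inv_eq ha2
  -- `c δ(k) c⁻¹` commutes with `δ(h)`
  have hcomm : ∀ k ∈ K, ∀ h ∈ K,
      (c * (k * (a * k * a⁻¹)) * c⁻¹) * (h * (a * h * a⁻¹)) =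
        (h * (a * h * a⁻¹)) * (c * (k * (a * k * a⁻¹)) * c⁻¹) := by
    intro k hk h hh
    have e : c * (k * (a * k * a⁻¹)) * c⁻¹ = (c * k * c⁻¹) * ((a * c) * k * (a * c)⁻¹) := by
      calc c * (k * (a * k * a⁻¹)) * c⁻¹ = (c * k * c⁻¹) * ((c * a) * k * (c * a)⁻¹) := by group
        _ = (c * k * c⁻¹) * ((a * c) * k * (a * c)⁻¹) := by rw [hac]
    rw [e]
    apply dc2c_comm4
    · exact (h1 h hh _ (dc2b_mem_cj hk)).symm
    · -- `K_c` commutes with `K_a` : conjugate `h2` by `a`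
      have := h2 h hh _ (dc2b_mem_cj (a := a * c) hk)
      have e2 : c * k * c⁻¹ = a * ((a * c) * k * (a * c)⁻¹) * a⁻¹ := by
        calc c * k * c⁻¹ = (a * a) * c * k * c⁻¹ * (a * a)⁻¹ := by rw [ha2]; group
          _ = a * ((a * c) * k * (a * c)⁻¹) * a⁻¹ := by group
      rw [e2]
      calc a * ((a * c) * k * (a * c)⁻¹) * a⁻¹ * (a * h * a⁻¹)
          = a * (((a * c) * k * (a * c)⁻¹) * h) * a⁻¹ := by group
        _ = a * (h * ((a * c) * k * (a * c)⁻¹)) * a⁻¹ := by rw [this]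
        _ = a * h * a⁻¹ * (a * ((a * c) * k * (a * c)⁻¹) * a⁻¹) := by group
    · exact (h2 h hh _ (dc2b_mem_cj (a := a * c) hk)).symm
    · -- `K_{ac}` commutes with `K_a` : conjugate `h1` by `a`
      have := h1 h hh _ (dc2b_mem_cj (a := c) hk)
      calc (a * c) * k * (a * c)⁻¹ * (a * h * a⁻¹)
          = a * ((c * k * c⁻¹) * h) * a⁻¹ := by group
        _ = a * (h * (c * k * c⁻¹)) * a⁻¹ := by rw [this]
        _ = a * h * a⁻¹ * ((a * c) * k * (a * c)⁻¹) := by group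
  -- on `[V,a]`, `δ k` acts as `c δ(k) c⁻¹`
  have hsame : ∀ k ∈ K, ∀ v : V,
      ρ (c * (k * (a * k * a⁻¹)) * c⁻¹) (ρ a v - v) = ρ (k * (a * k * a⁻¹)) (ρ a v - v) := by
    intro k hk v
    have hk' := dc2b_comm_a ha2 hcm hk
    calc ρ (c * (k * (a * k * a⁻¹)) * c⁻¹) (ρ a v - v)
        = ρ c (ρ (k * (a * k * a⁻¹)) (ρ c⁻¹ (ρ a v - v))) := by
          rw [dc2b_rho_mul (c * (k * (a * k * a⁻¹))) c⁻¹, dc2b_rho_mul c]
      _ = ρ c (ρ (k * (a * k * a⁻¹)) (ρ a v - v)) := by rw [dc2b_QQ_inv hq v]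
      _ = ρ (k * (a * k * a⁻¹)) (ρ a v - v) := by rw [dc2b_pres hk', hq]
  -- the `δ k` commute on `[V,a]`
  have hcw : ∀ k ∈ K, ∀ h ∈ K, ∀ v : V,
      ρ (k * (a * k * a⁻¹)) (ρ (h * (a * h * a⁻¹)) (ρ a v - v)) =
        ρ (h * (a * h * a⁻¹)) (ρ (k * (a * k * a⁻¹)) (ρ a v - v)) := by
    intro k hk h hh v
    have hh' := dc2b_comm_a ha2 hcm hh
    calc ρ (k * (a * k * a⁻¹)) (ρ (h * (a * h * a⁻¹)) (ρ a v - v))
        = ρ (k * (a * k * a⁻¹)) (ρ a (ρ (h * (a * h * a⁻¹)) v) - ρ (h * (a * h * a⁻¹)) v) := by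
          rw [dc2b_pres hh']
      _ = ρ (c * (k * (a * k * a⁻¹)) * c⁻¹)
            (ρ a (ρ (h * (a * h * a⁻¹)) v) - ρ (h * (a * h * a⁻¹)) v) := by
          rw [hsame k hk]
      _ = ρ (c * (k * (a * k * a⁻¹)) * c⁻¹) (ρ (h * (a * h * a⁻¹)) (ρ a v - v)) := by
          rw [dc2b_pres hh']
      _ = ρ (h * (a * h * a⁻¹)) (ρ (c * (k * (a * k * a⁻¹)) * c⁻¹) (ρ a v - v)) := by
          rw [← dc2b_rho_mul, hcomm k hk h hh, dc2b_rho_mul]
      _ = ρ (h * (a * h * a⁻¹)) (ρ (k * (a * k * a⁻¹)) (ρ a v - v)) := by rw [hsame k hk]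
  have hle : K ≤ dc2bM ρ K a hcm := by
    apply t7 hK
    intro k hk h hh
    have hki := K.inv_mem hk
    have hhi := K.inv_mem hh
    refine ⟨K.mul_mem (K.mul_mem (K.mul_mem hk hh) hki) hhi, ?_⟩
    rw [dc2b_mul hcm (K.mul_mem (K.mul_mem hk hh) hki) hhi,
      dc2b_mul hcm (K.mul_mem hk hh) hki, dc2b_mul hcm hk hh]
    intro v
    rw [dc2b_rho_mul (k * (a * k * a⁻¹) * (h * (a * h * a⁻¹)) * (k⁻¹ * (a * k⁻¹ * a⁻¹))),
      dc2b_rho_mul (k * (a * k * a⁻¹) * (h * (a * h * a⁻¹))),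
      dc2b_rho_mul (k * (a * k * a⁻¹)),
      hcw k⁻¹ hki h⁻¹ hhi v, ← dc2b_rho_mul (h * (a * h * a⁻¹)), ← dc2b_mul hcm hh hhi]
    have e1 : h * h⁻¹ * (a * (h * h⁻¹) * a⁻¹) = 1 := by group
    rw [e1, map_one, Module.End.one_apply, ← dc2b_rho_mul, ← dc2b_mul hcm hk hki]
    have e2 : k * k⁻¹ * (a * (k * k⁻¹) * a⁻¹) = 1 := by group
    rw [e2, map_one, Module.End.one_apply]
  intro k hk
  exact (hle hk).2

end Cfsg.Agent.Lib.Helper12.PGV
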