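import Cfsg.Agent.Lib.Helper12.PGV.NORM
import Cfsg.Agent.Lib.Helper12.PGV.DC2B

set_option autoImplicit false
set_option linter.unusedSectionVars false
set_option linter.unusedVariables false

namespace Cfsg.Agent.Lib.Helper12.PGV

variable {G V : Type*} [Group G] [Finite G] [AddCommGroup V] [Finite V] {p : ℕ} [Fact p.Prime]
  [Module (ZMod p) V] {ρ : Representation (ZMod p) G V} {A K : Subgroup G}

theorem dcp_nr_one (a : G) (n : ℕ) : nr a 1 n = 1 := by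
  induction n with
  | zero => rfl
  | succ n ih =>
    change nr a 1 n * (a ^ n * 1 * (a ^ n)⁻¹) = 1
    rw [ih]; group

theorem dcp_nr_inv {a : G} (hcc : ∀ i : ℕ, ¬ p ∣ i → CC K (cj K (a ^ i))) {k : G} (hk : k ∈ K) :
    nr a k⁻¹ p = (nr a k p)⁻¹ := by
  apply eq_inv_of_mul_eq_one_left
  rw [← nr_mul hcc (K.inv_mem hk) hk p le_rfl, inv_mul_cancel, dcp_nr_one]

theorem dcp_comm_a {a : G} (hap : a ^ p = 1) (hcc : ∀ i : ℕ, ¬ p ∣ i → CC K (cj K (a ^ i))) {k : G}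
    (hk : k ∈ K) : a * nr a k p = nr a k p * a :=
  mul_inv_eq_iff_eq_mul.mp (nr_conj_a hap hcc hk)

/-- the subgroup of all `m ∈ K` such that `nr a m p` fixes `[V,a]` pointwise -/
def dcpM (ρ : Representation (ZMod p) G V) (K : Subgroup G) (a : G)
    (hcc : ∀ i : ℕ, ¬ p ∣ i → CC K (cj K (a ^ i))) : Subgroup G where
  carrier := {m | m ∈ K ∧ QQ ρ (nr a m p) a}
  one_mem' := ⟨K.one_mem, by rw [dcp_nr_one]; exact dc2b_QQ_one a⟩
  mul_mem' := by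
    rintro x y ⟨hx, hx'⟩ ⟨hy, hy'⟩
    refine ⟨K.mul_mem hx hy, ?_⟩
    rw [nr_mul hcc hx hy p le_rfl]
    exact dc2b_QQ_mul hx' hy'
  inv_mem' := by
    rintro x ⟨hx, hx'⟩
    refine ⟨K.inv_mem hx, ?_⟩
    rw [dcp_nr_inv hcc hx]
    exact dc2b_QQ_inv hx'

theorem dcp_M_conj {a : G} (hap : a ^ p = 1) (hcc : ∀ i : ℕ, ¬ p ∣ i → CC K (cj K (a ^ i))) :
    ∀ k ∈ K, ∀ m ∈ dcpM ρ K a hcc, m ∈ K → k * m * k⁻¹ ∈ dcpM ρ K a hcc := by
  intro k hk m hm _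
  refine ⟨K.mul_mem (K.mul_mem hk hm.1) (K.inv_mem hk), ?_⟩
  rw [nr_mul hcc (K.mul_mem hk hm.1) (K.inv_mem hk) p le_rfl, nr_mul hcc hk hm.1 p le_rfl]
  intro v
  have hki := dcp_comm_a hap hcc (K.inv_mem hk)
  rw [dc2b_rho_mul, dc2b_rho_mul, dc2b_pres hki, hm.2, ← dc2b_pres hki, ← dc2b_rho_mul,
    ← nr_mul hcc hk (K.inv_mem hk) p le_rfl, mul_inv_cancel, dcp_nr_one, map_one,
    Module.End.one_apply]

/-- [DCP] D-condition. -/
theorem dcp (hK : Cfsg.IsQuasisimple K) {a b : G} (hap : a ^ p = 1)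
    (hcc : ∀ i : ℕ, ¬ p ∣ i → CC K (cj K (a ^ i))) (hb : cj K b = K) (hab : a * b = b * a)
    (hnc : ¬ RC ρ K b) (hq : QQ ρ b a) : ∀ k ∈ K, QQ ρ (nr a k p) a := by
  have hbK : ∀ k ∈ K, b * k * b⁻¹ ∈ K := by
    intro k hk
    have := dc2b_mem_cj (a := b) hk
    rwa [hb] at this
  have hle : K ≤ dcpM ρ K a hcc := by
    apply t5 hK hb hnc _ (dcp_M_conj hap hcc)
    intro k hk
    refine ⟨K.mul_mem (K.inv_mem hk) (hbK k hk), ?_⟩
    rw [nr_mul hcc (K.inv_mem hk) (hbK k hk) p le_rfl, ← nr_conj_b hab]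
    intro v
    have hk' := dcp_comm_a hap hcc hk
    have s1 : ρ (b * nr a k p * b⁻¹) (ρ a v - v) = ρ (nr a k p) (ρ a v - v) := by
      calc ρ (b * nr a k p * b⁻¹) (ρ a v - v)
          = ρ b (ρ (nr a k p) (ρ b⁻¹ (ρ a v - v))) := by
            rw [dc2b_rho_mul (b * nr a k p) b⁻¹, dc2b_rho_mul b]
        _ = ρ b (ρ (nr a k p) (ρ a v - v)) := by rw [dc2b_QQ_inv hq v]
        _ = ρ (nr a k p) (ρ a v - v) := by rw [dc2b_pres hk', hq]
    rw [dc2b_rho_mul (nr a k⁻¹ p), s1, ← dc2b_rho_mul, ← nr_mul hcc (K.inv_mem hk) hk p le_rfl,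
      inv_mul_cancel, dcp_nr_one, map_one, Module.End.one_apply]
  intro k hk
  exact (hle hk).2

end Cfsg.Agent.Lib.Helper12.PGV
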