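import Mathlib
import Cfsg.Prelude.Def_CaseTheorems
import Cfsg.Prelude.Def_Local
import Cfsg.Prelude.Def_Transfer

/-! Definitions for the ladder PGV (S3086: best offenders normalise components). -/

set_option autoImplicit false

namespace Cfsg.Agent.Lib.Helper12.PGV

variable {G V : Type*} [Group G] [AddCommGroup V] {p : ℕ} [Module (ZMod p) V]

/-- fixed points `C_V(X)` -/
def Fx (ρ : Representation (ZMod p) G V) (X : Set G) : Submodule (ZMod p) V where
  carrier := {v | ∀ x ∈ X, ρ x v = v}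
  zero_mem' := by intro x _; simp
  add_mem' := by
    intro a b ha hb x hx
    simp [ha x hx, hb x hx]
  smul_mem' := by
    intro c v hv x hx
    simp [hv x hx]

/-- commutator space `[V,X]` -/
def Cm (ρ : Representation (ZMod p) G V) (X : Set G) : Submodule (ZMod p) V :=
  Submodule.span (ZMod p) {w | ∃ x ∈ X, ∃ v : V, w = ρ x v - v}

/-- pointwise fixer of a subspace -/
def Fixer (ρ : Representation (ZMod p) G V) (W : Submodule (ZMod p) V) : Subgroup G where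
  carrier := {g | ∀ w ∈ W, ρ g w = w}
  one_mem' := by intro w _; simp
  mul_mem' := by
    intro a b ha hb w hw
    simp [hb w hw, ha w hw]
  inv_mem' := by
    intro a ha w hw
    have h := ha w hw
    calc ρ a⁻¹ w = ρ a⁻¹ (ρ a w) := by rw [h]
      _ = w := by rw [← Module.End.mul_apply, ← map_mul]; simp

theorem mem_Fx {ρ : Representation (ZMod p) G V} {X : Set G} {v : V} :
    v ∈ Fx ρ X ↔ ∀ x ∈ X, ρ x v = v := Iff.rfl

theorem mem_Fixer {ρ : Representation (ZMod p) G V} {W : Submodule (ZMod p) V} {g : G} :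
    g ∈ Fixer ρ W ↔ ∀ w ∈ W, ρ g w = w := Iff.rfl

/-- the conjugate `a K a⁻¹` -/
abbrev cj (K : Subgroup G) (a : G) : Subgroup G := K.map (MulAut.conj a).toMonoidHom

/-- `x` centralises `K` -/
def Cen (K : Subgroup G) (x : G) : Prop := ∀ k ∈ K, x * k = k * x

/-- `K` and `L` commute elementwise -/
def CC (K L : Subgroup G) : Prop := ∀ x ∈ K, ∀ y ∈ L, x * y = y * x

/-- `ρ b` commutes with `ρ K` -/
def RC (ρ : Representation (ZMod p) G V) (K : Subgroup G) (b : G) : Prop :=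
  ∀ k ∈ K, ρ b * ρ k = ρ k * ρ b

/-- `b` fixes `[V,a]` pointwise, i.e. `(ρ b - 1)(ρ a - 1) = 0` -/
def QQ (ρ : Representation (ZMod p) G V) (b a : G) : Prop :=
  ∀ v : V, ρ b (ρ a v - v) = ρ a v - v

/-- Timmesfeld's `A^* = C_A([V,A])` -/
def Ast (ρ : Representation (ZMod p) G V) (A : Subgroup G) : Subgroup G :=
  A ⊓ Fixer ρ (Cm ρ A)

/-- `A_0 = C_A(V)` -/
def Az (ρ : Representation (ZMod p) G V) (A : Subgroup G) : Subgroup G :=
  A ⊓ Fixer ρ ⊤

/-- relative best offender condition -/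
def BO (ρ : Representation (ZMod p) G V) (A : Subgroup G) : Prop :=
  ∀ B : Subgroup G, B ≤ A → Az ρ A ≤ B →
    Nat.card B * Nat.card (Fx ρ (B : Set G)) ≤ Nat.card A * Nat.card (Fx ρ (A : Set G))

/-- the data of a minimal situation -/
structure Dat (ρ : Representation (ZMod p) G V) (A K : Subgroup G) : Prop where
  comm : ∀ a ∈ A, ∀ b ∈ A, a * b = b * a
  exp : ∀ a ∈ A, a ^ p = 1
  qs : Cfsg.IsQuasisimple K
  dich : ∀ a ∈ A, cj K a = K ∨ CC K (cj K a)
  bo : BO ρ A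
  gen : Subgroup.closure ((K : Set G) ∪ (A : Set G)) = ⊤
  nt : ∃ k ∈ K, ρ k ≠ 1
  alpha : ∀ U : Submodule (ZMod p) V, (∀ g : G, ∀ u ∈ U, ρ g u ∈ U) → U ≠ ⊤ →
    ∀ k ∈ K, ∀ u ∈ U, ρ k u = u

/-- the `a`-norm `k (a k a⁻¹) (a² k a⁻²) ⋯ (a^{n-1} k a^{-(n-1)})` -/
def nr (a k : G) : ℕ → G
  | 0 => 1
  | n + 1 => nr a k n * (a ^ n * k * (a ^ n)⁻¹)

/-- the D-condition for `p = 2` -/
structure Pair2 (ρ : Representation (ZMod p) G V) (K : Subgroup G) (a : G) : Prop where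
  qs : Cfsg.IsQuasisimple K
  nt : ∃ k ∈ K, ρ k ≠ 1
  a2 : a * a = 1
  cm : CC K (cj K a)
  dc : ∀ k ∈ K, QQ ρ (k * (a * k * a⁻¹)) a

end Cfsg.Agent.Lib.Helper12.PGV
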