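import Cfsg.Agent.Lib.Helper12.PGV.Defs

set_option autoImplicit false

namespace Cfsg.Agent.Lib.Helper12.PGV

variable {G V : Type*} [Group G] [Finite G] [AddCommGroup V] [Finite V] {p : ℕ} [Fact p.Prime]
  [Module (ZMod p) V] {ρ : Representation (ZMod p) G V} {A K : Subgroup G}

/-- [QQS] (ρ a - 1)(ρ b - 1) = 0 is symmetric for commuting a, b. -/
theorem qqs {a b : G} (hab : a * b = b * a) (h : QQ ρ a b) : QQ ρ b a := by
  intro v
  have h1 := h v
  have h2 : ρ b (ρ a v) = ρ a (ρ b v) := by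
    rw [← Module.End.mul_apply, ← Module.End.mul_apply, ← map_mul, ← map_mul, hab]
  rw [map_sub] at h1 ⊢
  rw [h2]
  have h3 : ρ a (ρ b v) = ρ b v - v + ρ a v := by rw [← h1]; abel
  rw [h3]
  abel

end Cfsg.Agent.Lib.Helper12.PGV
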