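import Cfsg.Agent.Lib.Helper12.PGV.Defs
import Cfsg.Agent.Lib.Helper12.PGV.QQS
import Cfsg.Agent.Lib.Helper12.PGV.QQC
import Cfsg.Agent.Lib.Helper12.PGV.SYM

set_option autoImplicit false

namespace Cfsg.Agent.Lib.Helper12.PGV

variable {G V : Type*} [Group G] [Finite G] [AddCommGroup V] [Finite V] {p : ℕ} [Fact p.Prime]
  [Module (ZMod p) V] {ρ : Representation (ZMod p) G V} {A K : Subgroup G}

/-- [F2] -/
theorem f2 {a : G} (P : Pair2 ρ K a) {x : G} (hx : x ∈ K) {g : G} (hg : g ∈ cj K a) :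
    QQ ρ (x⁻¹ * (g * (a * x * a⁻¹) * g⁻¹)) (x * (g * (a * x * a⁻¹) * g⁻¹)) := by
  have hinv : a⁻¹ = a := inv_eq_of_mul_eq_one_left P.a2
  have hx1 : a * x * a⁻¹ ∈ cj K a := sym_mem_cj.2 ⟨x, hx, rfl⟩
  have hxg : x * g = g * x := P.cm x hx g hg
  have hxg' : x * g⁻¹ = g⁻¹ * x := P.cm x hx _ (inv_mem hg)
  obtain ⟨x₁, hx₁⟩ : ∃ x₁, x₁ = g * (a * x * a⁻¹) * g⁻¹ := ⟨_, rfl⟩
  have hx₁m : x₁ ∈ cj K a := by
    rw [hx₁]
    exact mul_mem (mul_mem hg hx1) (inv_mem hg)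
  have hxx₁ : x * x₁ = x₁ * x := P.cm x hx x₁ hx₁m
  obtain ⟨a', ha'⟩ : ∃ a', a' = g * a * g⁻¹ := ⟨_, rfl⟩
  -- `d' = g δ g⁻¹`
  have hd : x * x₁ = g * (x * (a * x * a⁻¹)) * g⁻¹ := by
    rw [hx₁]
    calc x * (g * (a * x * a⁻¹) * g⁻¹) = (x * g) * (a * x * a⁻¹) * g⁻¹ := by group
      _ = g * (x * (a * x * a⁻¹)) * g⁻¹ := by rw [hxg]; group
  have hq1 : QQ ρ (x * x₁) a' := by
    rw [hd, ha']
    exact qqc g (P.dc x hx)
  -- `a` commutes with `δ`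
  have haδ : a * (x * (a * x * a⁻¹)) = (x * (a * x * a⁻¹)) * a := by
    have h1 : x * (a * x * a) = a * x * a * x := by
      have := P.cm x hx _ hx1
      rwa [hinv] at this
    rw [hinv]
    calc a * (x * (a * x * a)) = a * (a * x * a * x) := by rw [h1]
      _ = (a * a) * x * a * x := by group
      _ = x * a * x * (a * a) := by rw [P.a2]; group
      _ = x * (a * x * a) * a := by group
  have hcomm : (x * x₁) * a' = a' * (x * x₁) := by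
    rw [hd, ha']
    calc g * (x * (a * x * a⁻¹)) * g⁻¹ * (g * a * g⁻¹)
        = g * ((x * (a * x * a⁻¹)) * a) * g⁻¹ := by group
      _ = g * (a * (x * (a * x * a⁻¹))) * g⁻¹ := by rw [haδ]
      _ = g * a * g⁻¹ * (g * (x * (a * x * a⁻¹)) * g⁻¹) := by group
  have hq2 : QQ ρ a' (x * x₁) := qqs hcomm hq1
  -- `a' x a'⁻¹ = x₁`
  have hconj : a' * x = x₁ * a' := by
    rw [ha', hx₁]
    calc g * a * g⁻¹ * x = g * a * (x * g⁻¹) := by rw [hxg']; group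
      _ = g * (a * x * a⁻¹) * g⁻¹ * (g * a * g⁻¹) := by group
  rw [← hx₁]
  intro v
  obtain ⟨u, hu⟩ : ∃ u, u = ρ (x * x₁) v - v := ⟨_, rfl⟩
  rw [← hu]
  have h1 : ρ a' u = u := by rw [hu]; exact hq2 v
  have h2 : ρ x u = ρ (x * x₁) (ρ x v) - ρ x v := by
    rw [hu, map_sub, ← Module.End.mul_apply, ← Module.End.mul_apply, ← map_mul, ← map_mul]
    congr 3
    rw [mul_assoc, ← hxx₁]
  have h3 : ρ a' (ρ x u) = ρ x u := by rw [h2]; exact hq2 _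
  have h4 : ρ x₁ u = ρ x u := by
    have h5 : ρ x₁ (ρ a' u) = ρ a' (ρ x u) := by
      rw [← Module.End.mul_apply, ← Module.End.mul_apply, ← map_mul, ← map_mul, hconj]
    rw [h1, h3] at h5
    exact h5
  rw [map_mul, Module.End.mul_apply, h4, ρ.inv_self_apply]

end Cfsg.Agent.Lib.Helper12.PGV
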