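import Cfsg.Agent.Lib.Helper12.PGV.Defs
import Cfsg.Agent.Lib.Helper55.FF1

set_option autoImplicit false

namespace Cfsg.Agent.Lib.Helper12.PGV

variable {G V : Type*} [Group G] [Finite G] [AddCommGroup V] [Finite V] {p : ℕ} [Fact p.Prime]
  [Module (ZMod p) V] {ρ : Representation (ZMod p) G V} {A K : Subgroup G}

/-- the stabiliser of a subspace -/
def fourStab (ρ : Representation (ZMod p) G V) (P : Submodule (ZMod p) V) : Subgroup G where
  carrier := {g | ∀ u, u ∈ P ↔ ρ g u ∈ P}
  one_mem' := by intro u; simp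
  mul_mem' := by
    intro a b ha hb u
    rw [map_mul, Module.End.mul_apply, ← ha, ← hb]
  inv_mem' := by
    intro a ha u
    have := ha (ρ a⁻¹ u)
    rw [← Module.End.mul_apply, ← map_mul, mul_inv_cancel, map_one, Module.End.one_apply] at this
    exact this.symm

theorem four_mem_closure {b b' : G} (hb2 : b * b = 1) (hb'2 : b' * b' = 1)
    (hbb' : b * b' = b' * b) {x : G} (hx : x ∈ Subgroup.closure ({b, b'} : Set G)) :
    x = 1 ∨ x = b ∨ x = b' ∨ x = b * b' := by
  have hbi : b⁻¹ = b := inv_eq_of_mul_eq_one_left hb2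
  have hbi' : b'⁻¹ = b' := inv_eq_of_mul_eq_one_left hb'2
  have key : ∀ x : G, (x = 1 ∨ x = b ∨ x = b' ∨ x = b * b') → ∀ y ∈ ({b, b'} : Set G),
      (x * y = 1 ∨ x * y = b ∨ x * y = b' ∨ x * y = b * b') := by
    intro x hx y hy
    rcases hy with rfl | hy
    · rcases hx with rfl | rfl | rfl | rfl
      · right; left; simp
      · left; exact hb2
      · right; right; right; exact hbb'.symm
      · right; right; left
        rw [hbb', mul_assoc, hb2, mul_one]
    · rw [Set.mem_singleton_iff] at hy
      subst hy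
      rcases hx with rfl | rfl | rfl | rfl
      · right; right; left; simp
      · right; right; right; rfl
      · left; exact hb'2
      · right; left
        rw [mul_assoc, hb'2, mul_one]
  induction hx using Subgroup.closure_induction_right with
  | one => left; rfl
  | mul_right x _ y hy ih => exact key x ih y hy
  | mul_inv_cancel x _ y hy ih =>
    have : y⁻¹ = y := by
      rcases hy with rfl | hy
      · exact hbi
      · rw [Set.mem_singleton_iff] at hy
        subst hy; exact hbi'
    rw [this]
    exact key x ih y hy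

/-- [FOUR] -/
theorem four (hoddK : Odd (Nat.card K)) {b b' : G} (hb2 : b * b = 1) (hb'2 : b' * b' = 1)
    (hbb' : b * b' = b' * b) (hn : cj K b = K) (hn' : cj K b' = K)
    (h2 : Fx ρ {b'} = Fx ρ {b}) (h3 : Fx ρ {b * b'} = Fx ρ {b}) :
    ∀ k ∈ K, ∀ u ∈ Fx ρ {b}, ρ k u ∈ Fx ρ {b} := by
  classical
  by_cases htop : Fx ρ {b} = ⊤
  · intro k _ u _
    rw [htop]; exact Submodule.mem_top
  have hFx1 : Fx ρ ({1} : Set G) = ⊤ := by
    rw [eq_top_iff]
    intro v _ x hx
    rw [Set.mem_singleton_iff.1 hx]; simp
  have hb1 : b ≠ 1 := by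
    rintro rfl
    exact htop hFx1
  have hb'1 : b' ≠ 1 := by
    rintro rfl
    exact htop (h2 ▸ hFx1)
  have hbb'1 : b ≠ b' := by
    rintro rfl
    rw [hb2] at h3
    exact htop (h3 ▸ hFx1)
  set A₀ : Subgroup G := Subgroup.closure ({b, b'} : Set G) with hA₀
  have hbA : b ∈ A₀ := Subgroup.subset_closure (by simp)
  have hb'A : b' ∈ A₀ := Subgroup.subset_closure (by simp)
  have hmem : ∀ x ∈ A₀, x = 1 ∨ x = b ∨ x = b' ∨ x = b * b' :=
    fun x hx => four_mem_closure hb2 hb'2 hbb' hx
  have hsq : ∀ x ∈ A₀, x * x = 1 := by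
    intro x hx
    rcases hmem x hx with rfl | rfl | rfl | rfl
    · simp
    · exact hb2
    · exact hb'2
    · calc b * b' * (b * b') = b * b' * (b' * b) := by rw [hbb']
        _ = b * (b' * b') * b := by simp only [mul_assoc]
        _ = 1 := by rw [hb'2, mul_one, hb2]
  have hEA : Cfsg.IsElementaryAbelian 2 A₀ := by
    refine ⟨Subgroup.isMulCommutative_closure ?_, fun a ha => by rw [pow_two]; exact hsq a ha⟩
    intro x hx y hy
    rcases hx with rfl | hx <;> rcases hy with rfl | hy
    · rfl
    · rw [Set.mem_singleton_iff] at hy; subst hy; exact hbb'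
    · rw [Set.mem_singleton_iff] at hx; subst hx; exact hbb'.symm
    · rw [Set.mem_singleton_iff] at hx hy; subst hx; subst hy; rfl
  have hnormb : ∀ c : G, cj K c = K → c ∈ Subgroup.normalizer (K : Set G) := by
    intro c hc
    rw [Subgroup.mem_normalizer_iff]
    intro k
    constructor
    · intro hk
      rw [← hc]
      exact ⟨k, hk, rfl⟩
    · intro hk
      rw [← hc] at hk
      obtain ⟨k', hk', he⟩ := hk
      have : k' = k := by simpa using he
      rwa [← this]
  have hAK : A₀ ≤ Subgroup.normalizer (K : Set G) := by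
    rw [hA₀, Subgroup.closure_le]
    intro x hx
    rcases hx with rfl | hx
    · exact hnormb _ hn
    · rw [Set.mem_singleton_iff] at hx; subst hx; exact hnormb _ hn'
  have : Fact (Nat.Prime 2) := ⟨Nat.prime_two⟩
  have hgen := Cfsg.Agent.Lib.Helper55.hyperplane_generation hEA (Nat.card K) K rfl hAK
    (Nat.coprime_two_right.2 hoddK)
  have hle : K ≤ fourStab ρ (Fx ρ {b}) := by
    refine hgen.trans (iSup₂_le ?_)
    rintro B ⟨hBA, a, ha, hBa⟩ k hk
    -- `B` contains a nontrivial element
    have hBne : ∃ e ∈ B, e ≠ 1 := by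
      by_contra hcon
      push Not at hcon
      have hBbot : B = ⊥ := by
        rw [eq_bot_iff]
        intro e he
        exact hcon e he
      rw [hBbot, bot_sup_eq] at hBa
      have hz : ∀ x ∈ A₀, x = 1 ∨ x = a := by
        intro x hx
        rw [← hBa] at hx
        obtain ⟨n, rfl⟩ := Subgroup.mem_zpowers_iff.1 hx
        have ha2 : a ^ (2 : ℤ) = 1 := by
          rw [zpow_two]; exact hsq a ha
        rcases Int.even_or_odd' n with ⟨m, rfl | rfl⟩
        · left; rw [zpow_mul, ha2, one_zpow]
        · right; rw [zpow_add, zpow_mul, ha2, one_zpow, one_mul, zpow_one]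
      rcases hz b hbA with h | h
      · exact hb1 h
      · rcases hz b' hb'A with h' | h'
        · exact hb'1 h'
        · exact hbb'1 (h.trans h'.symm)
    obtain ⟨e, heB, he1⟩ := hBne
    have hFe : Fx ρ {e} = Fx ρ {b} := by
      rcases hmem e (hBA heB) with rfl | rfl | rfl | rfl
      · exact absurd rfl he1
      · rfl
      · exact h2
      · exact h3
    have hcomm : e * k = k * e := (Subgroup.mem_centralizer_iff.1 hk.2 e heB)
    intro u
    rw [← hFe]
    constructor
    · intro hu x hx
      rw [Set.mem_singleton_iff.1 hx, ← Module.End.mul_apply, ← map_mul, hcomm, map_mul,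
        Module.End.mul_apply, hu e rfl]
    · intro hu x hx
      rw [Set.mem_singleton_iff.1 hx]
      have h1 := hu e rfl
      rw [← Module.End.mul_apply, ← map_mul, hcomm, map_mul, Module.End.mul_apply] at h1
      have hc' : ∀ w : V, ρ k⁻¹ (ρ k w) = w := by
        intro w
        rw [← Module.End.mul_apply, ← map_mul, inv_mul_cancel, map_one, Module.End.one_apply]
      have h4 := congrArg (ρ k⁻¹) h1
      rwa [hc', hc'] at h4
  intro k hk u hu
  exact (hle hk u).1 hu

end Cfsg.Agent.Lib.Helper12.PGV
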