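import Cfsg.Agent.Lib.Helper12.PGV.Defs
import Cfsg.Agent.Lib.Helper12.Card

set_option autoImplicit false

namespace Cfsg.Agent.Lib.Helper12.PGV

variable {G V : Type*} [Group G] [Finite G] [AddCommGroup V] [Finite V] {p : ℕ} [Fact p.Prime]
  [Module (ZMod p) V] {ρ : Representation (ZMod p) G V} {K : Subgroup G}

theorem tim_card_sup_inf (U W : Submodule (ZMod p) V) :
    Nat.card ↥(U ⊔ W) * Nat.card ↥(U ⊓ W) = Nat.card U * Nat.card W := by
  have h := Submodule.finrank_sup_add_finrank_inf_eq U W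
  rw [Module.natCard_eq_pow_finrank (K := ZMod p) (V := ↥(U ⊔ W)),
    Module.natCard_eq_pow_finrank (K := ZMod p) (V := ↥(U ⊓ W)),
    Module.natCard_eq_pow_finrank (K := ZMod p) (V := ↥U),
    Module.natCard_eq_pow_finrank (K := ZMod p) (V := ↥W), ← pow_add, ← pow_add, h]

theorem tim_card_le {U W : Submodule (ZMod p) V} (h : U ≤ W) : Nat.card U ≤ Nat.card W :=
  Nat.card_le_card_of_injective (Submodule.inclusion h) (Submodule.inclusion_injective h)

theorem tim_eq_of_card {U W : Submodule (ZMod p) V} (h : U ≤ W) (hc : Nat.card U = Nat.card W) : U = W := by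
  apply SetLike.coe_injective
  exact Set.eq_of_subset_of_ncard_le h (by
    rw [← Nat.card_coe_set_eq, ← Nat.card_coe_set_eq]; exact hc.ge) (Set.toFinite _)

theorem tim_Fx_anti {X Y : Set G} (h : X ⊆ Y) : Fx ρ Y ≤ Fx ρ X := fun _ hv x hx => hv x (h hx)

theorem tim_Fixer_anti {U W : Submodule (ZMod p) V} (h : U ≤ W) : Fixer ρ W ≤ Fixer ρ U :=
  fun _ hg w hw => hg w (h hw)

theorem tim_Fx_sup (X Y : Subgroup G) :
    Fx ρ (X : Set G) ⊓ Fx ρ (Y : Set G) ≤ Fx ρ ((X ⊔ Y : Subgroup G) : Set G) := by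
  have h : X ⊔ Y ≤ Fixer ρ (Fx ρ (X : Set G) ⊓ Fx ρ (Y : Set G)) := by
    refine sup_le ?_ ?_
    · intro x hx w hw; exact hw.1 x hx
    · intro y hy w hw; exact hw.2 y hy
  intro w hw g hg
  exact h hg w hw

/-- the space `[x, A]` -/
def timC (ρ : Representation (ZMod p) G V) (A : Subgroup G) (x : V) : Submodule (ZMod p) V :=
  Submodule.span (ZMod p) {w | ∃ a ∈ A, w = ρ a x - x}

/-- the subgroup `A_x = C_A([x, A])` -/
def timA (ρ : Representation (ZMod p) G V) (A : Subgroup G) (x : V) : Subgroup G :=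
  A ⊓ Fixer ρ (timC ρ A x)

theorem timC_le (A : Subgroup G) (x : V) : timC ρ A x ≤ Cm ρ (A : Set G) := by
  apply Submodule.span_mono
  rintro w ⟨a, ha, rfl⟩
  exact ⟨a, ha, x, rfl⟩

/-- the good subgroups -/
structure TimGood (ρ : Representation (ZMod p) G V) (A X : Subgroup G) : Prop where
  le : X ≤ A
  ge : Az ρ A ≤ X
  card : Nat.card X * Nat.card (Fx ρ (X : Set G)) = Nat.card A * Nat.card (Fx ρ (A : Set G))
  sub : Fx ρ (X : Set G) ≤ Cm ρ (A : Set G) ⊔ Fx ρ (A : Set G)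

theorem timGood_self (A : Subgroup G) : TimGood ρ A A :=
  ⟨le_rfl, inf_le_left, rfl, le_sup_right⟩

theorem timGood_inf {A X Y : Subgroup G} (hc : ∀ a ∈ A, ∀ b ∈ A, a * b = b * a) (hbo : BO ρ A)
    (hX : TimGood ρ A X) (hY : TimGood ρ A Y) : TimGood ρ A (X ⊓ Y) := by
  have hn : X ≤ Subgroup.normalizer (Y : Set G) := by
    intro x hx
    rw [Subgroup.mem_normalizer_iff]
    intro y
    constructor
    · intro hy
      have : x * y * x⁻¹ = y := by rw [hc x (hX.le hx) y (hY.le hy)]; group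
      rwa [this]
    · intro hy
      have h1 := hc x⁻¹ (inv_mem (hX.le hx)) _ (hY.le hy)
      have : y = x * y * x⁻¹ := by
        calc y = x⁻¹ * (x * y * x⁻¹) * x := by group
          _ = (x * y * x⁻¹) * x⁻¹ * x := by rw [h1]
          _ = x * y * x⁻¹ := by group
      rwa [this]
  have h1 := Cfsg.Agent.Lib.Helper12.card_sup_mul_card_inf' X Y hn
  have h2 := tim_card_sup_inf (Fx ρ (X : Set G)) (Fx ρ (Y : Set G))
  have h3 := tim_card_le (tim_Fx_sup (ρ := ρ) X Y)
  have hle4 : Fx ρ (X : Set G) ⊔ Fx ρ (Y : Set G) ≤ Fx ρ ((X ⊓ Y : Subgroup G) : Set G) :=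
    sup_le (tim_Fx_anti (fun _ h => h.1)) (tim_Fx_anti (fun _ h => h.2))
  have h4 := tim_card_le hle4
  have h5 := hbo (X ⊔ Y) (sup_le hX.le hY.le) (hX.ge.trans le_sup_left)
  have h6 := hbo (X ⊓ Y) (inf_le_left.trans hX.le) (le_inf hX.ge hY.ge)
  have hXc := hX.card
  have hYc := hY.card
  set M := Nat.card A * Nat.card (Fx ρ (A : Set G)) with hM
  have hMpos : 0 < M := Nat.mul_pos Nat.card_pos Nat.card_pos
  set a := Nat.card ↥(X ⊔ Y)
  set b := Nat.card ↥(X ⊓ Y)
  set c := Nat.card ↥(Fx ρ (X : Set G) ⊔ Fx ρ (Y : Set G))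
  set d := Nat.card ↥(Fx ρ (X : Set G) ⊓ Fx ρ (Y : Set G))
  set d' := Nat.card ↥(Fx ρ ((X ⊔ Y : Subgroup G) : Set G))
  set c' := Nat.card ↥(Fx ρ ((X ⊓ Y : Subgroup G) : Set G))
  have hbpos : 0 < b := Nat.card_pos
  have hMM : M * M = (a * d) * (b * c) := by
    calc M * M = (Nat.card X * Nat.card (Fx ρ (X : Set G))) * (Nat.card Y * Nat.card (Fx ρ (Y : Set G))) := by
          rw [hXc, hYc]
      _ = (Nat.card X * Nat.card Y) * (Nat.card (Fx ρ (X : Set G)) * Nat.card (Fx ρ (Y : Set G))) := by ring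
      _ = (a * b) * (c * d) := by rw [← h1, ← h2]
      _ = (a * d) * (b * c) := by ring
  have had : a * d ≤ M := le_trans (Nat.mul_le_mul_left a h3) h5
  have hbc : M ≤ b * c := by
    have : M * M ≤ M * (b * c) := by rw [hMM]; exact Nat.mul_le_mul_right _ had
    exact Nat.le_of_mul_le_mul_left this hMpos
  have hbc' : b * c ≤ b * c' := Nat.mul_le_mul_left b h4
  have e1 : b * c' = M := le_antisymm h6 (hbc.trans hbc')
  have e2 : b * c = b * c' := le_antisymm hbc' (e1 ▸ hbc)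
  have e3 : c = c' := Nat.eq_of_mul_eq_mul_left hbpos e2
  have e4 := tim_eq_of_card hle4 e3
  refine ⟨inf_le_left.trans hX.le, le_inf hX.ge hY.ge, e1, ?_⟩
  rw [← e4]
  exact sup_le hX.sub hY.sub

/-- the key computation -/
theorem tim_key {A : Subgroup G} (hc : ∀ a ∈ A, ∀ b ∈ A, a * b = b * a) (x : V) {a b : G} (ha : a ∈ A)
    (hb : b ∈ A) (h : ρ a x - ρ b x ∈ Fx ρ (A : Set G)) : a⁻¹ * b ∈ timA ρ A x := by
  refine Subgroup.mem_inf.2 ⟨mul_mem (inv_mem ha) hb, ?_⟩
  set c := a⁻¹ * b with hcdef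
  have hcA : c ∈ A := mul_mem (inv_mem ha) hb
  set u := ρ b x - ρ a x with hu
  have huF : u ∈ Fx ρ (A : Set G) := by
    have := (Fx ρ (A : Set G)).neg_mem h
    rwa [neg_sub] at this
  have hcx : ρ c x = x + u := by
    have h1 : ρ c x - x = ρ a⁻¹ u := by
      rw [hu, map_sub, hcdef, map_mul, Module.End.mul_apply, ← Module.End.mul_apply (ρ a⁻¹) (ρ a), ← map_mul]
      simp
    rw [huF a⁻¹ (inv_mem ha)] at h1
    rw [← h1]; abel
  have hle : timC ρ A x ≤ Fx ρ {c} := by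
    apply Submodule.span_le.2
    rintro w ⟨d, hd, rfl⟩ g hg
    rw [Set.mem_singleton_iff] at hg
    subst hg
    have hcd : ρ c (ρ d x) = ρ d (ρ c x) := by
      rw [← Module.End.mul_apply, ← Module.End.mul_apply, ← map_mul, ← map_mul, hc c hcA d hd]
    rw [map_sub, hcd, hcx, map_add, huF d hd]
    abel
  intro w hw
  exact hle hw c rfl

theorem timGood_timA {A : Subgroup G} (hc : ∀ a ∈ A, ∀ b ∈ A, a * b = b * a) (hbo : BO ρ A) (x : V) :
    TimGood ρ A (timA ρ A x) := by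
  set X := timA ρ A x with hX
  have hXA : X ≤ A := inf_le_left
  have hge : Az ρ A ≤ X := inf_le_inf_left A (tim_Fixer_anti le_top)
  set W := timC ρ A x ⊔ Fx ρ (A : Set G) with hW
  have hWle : W ≤ Fx ρ (X : Set G) := by
    refine sup_le ?_ (tim_Fx_anti hXA)
    intro w hw g hg
    exact hg.2 w hw
  -- the injection
  let f : (↥A ⧸ X.subgroupOf A) × ↥(Fx ρ (A : Set G)) → ↥W := fun q =>
    ⟨(ρ ((q.1.out : ↥A) : G) x - x) + q.2.1, by
      refine W.add_mem (Submodule.mem_sup_left (Submodule.subset_span ⟨_, (q.1.out : ↥A).2, rfl⟩))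
        (Submodule.mem_sup_right q.2.2)⟩
  have hf : Function.Injective f := by
    rintro ⟨q, w⟩ ⟨q', w'⟩ h
    have h0 : (ρ ((q.out : ↥A) : G) x - x) + w.1 = (ρ ((q'.out : ↥A) : G) x - x) + w'.1 :=
      congrArg Subtype.val h
    have h1 : ρ ((q.out : ↥A) : G) x - ρ ((q'.out : ↥A) : G) x = w'.1 - w.1 := by
      have e : ρ ((q.out : ↥A) : G) x - ρ ((q'.out : ↥A) : G) x =
          ((ρ ((q.out : ↥A) : G) x - x) + w.1) - ((ρ ((q'.out : ↥A) : G) x - x) + w'.1) + (w'.1 - w.1) := by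
        abel
      rw [e, h0]; abel
    have h2 : ρ ((q.out : ↥A) : G) x - ρ ((q'.out : ↥A) : G) x ∈ Fx ρ (A : Set G) := by
      rw [h1]; exact (Fx ρ (A : Set G)).sub_mem w'.2 w.2
    have h3 := tim_key hc x (q.out : ↥A).2 (q'.out : ↥A).2 h2
    have h4 : q = q' := by
      rw [← QuotientGroup.out_eq' q, ← QuotientGroup.out_eq' q']
      rw [QuotientGroup.eq]
      exact Subgroup.mem_subgroupOf.2 h3
    subst h4
    have h5 : w.1 = w'.1 := add_left_cancel h0
    rw [Subtype.ext h5]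
  have hcard := Nat.card_le_card_of_injective f hf
  rw [Nat.card_prod] at hcard
  have hidx : Nat.card (↥A ⧸ X.subgroupOf A) * Nat.card X = Nat.card A :=
    Cfsg.Agent.Lib.Helper12.relIndex_mul_card' hXA
  have h6 := hbo X hXA hge
  have h7 := tim_card_le hWle
  set M := Nat.card A * Nat.card (Fx ρ (A : Set G)) with hM
  have hXpos : 0 < Nat.card X := Nat.card_pos
  have h8 : M ≤ Nat.card X * Nat.card W := by
    calc M = Nat.card X * (Nat.card (↥A ⧸ X.subgroupOf A) * Nat.card (Fx ρ (A : Set G))) := by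
          rw [hM, ← hidx]; ring
      _ ≤ Nat.card X * Nat.card W := Nat.mul_le_mul_left _ hcard
  have h9 : Nat.card X * Nat.card W ≤ Nat.card X * Nat.card (Fx ρ (X : Set G)) := Nat.mul_le_mul_left _ h7
  have e1 : Nat.card X * Nat.card (Fx ρ (X : Set G)) = M := le_antisymm h6 (h8.trans h9)
  have e2 : Nat.card X * Nat.card W = Nat.card X * Nat.card (Fx ρ (X : Set G)) :=
    le_antisymm h9 (e1 ▸ h8)
  have e3 := Nat.eq_of_mul_eq_mul_left hXpos e2
  have e4 := tim_eq_of_card hWle e3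
  refine ⟨hXA, hge, e1, ?_⟩
  rw [← e4]
  exact sup_le ((timC_le A x).trans le_sup_left) le_sup_right

theorem tim_Ast_eq (A : Subgroup G) [Fintype V] :
    Ast ρ A = A ⊓ (Finset.univ : Finset V).inf (timA ρ A) := by
  apply le_antisymm
  · refine le_inf inf_le_left (Finset.le_inf ?_)
    intro x _
    exact inf_le_inf_left A (tim_Fixer_anti (timC_le A x))
  · intro g hg
    refine Subgroup.mem_inf.2 ⟨hg.1, ?_⟩
    have hle : Cm ρ (A : Set G) ≤ Fx ρ {g} := by
      apply Submodule.span_le.2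
      rintro w ⟨a, ha, v, rfl⟩ g' hg'
      rw [Set.mem_singleton_iff] at hg'
      subst hg'
      have h1 : g' ∈ timA ρ A v := (Finset.inf_le (Finset.mem_univ v) : _ ≤ timA ρ A v) hg.2
      exact h1.2 _ (Submodule.subset_span ⟨a, ha, rfl⟩)
    intro w hw
    exact hle hw g rfl

/-- [TIM] Timmesfeld replacement (relative form). -/
theorem tim (A : Subgroup G) (hc : ∀ a ∈ A, ∀ b ∈ A, a * b = b * a) (hbo : BO ρ A) :
    Nat.card (Ast ρ A) * Nat.card (Fx ρ (Ast ρ A : Set G)) =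
      Nat.card A * Nat.card (Fx ρ (A : Set G)) ∧
    Fx ρ (Ast ρ A : Set G) ≤ Cm ρ (A : Set G) ⊔ Fx ρ (A : Set G) := by
  classical
  have : Fintype V := Fintype.ofFinite V
  have key : ∀ s : Finset V, TimGood ρ A (A ⊓ s.inf (timA ρ A)) := by
    intro s
    induction s using Finset.induction_on with
    | empty => simpa using (timGood_self A : TimGood ρ A A)
    | insert x s _ ih =>
      rw [Finset.inf_insert, inf_left_comm]
      exact timGood_inf hc hbo (timGood_timA hc hbo x) ih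
  have h := key Finset.univ
  rw [← tim_Ast_eq] at h
  exact ⟨h.card, h.sub⟩

end Cfsg.Agent.Lib.Helper12.PGV
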