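import Cfsg.Agent.Lib.Helper12.PGV.Defs
import Cfsg.Agent.Lib.Helper12.PGV.C1
import Cfsg.Agent.Lib.Helper12.PGV.TIM

set_option autoImplicit false

namespace Cfsg.Agent.Lib.Helper12.PGV

variable {G V : Type*} [Group G] [Finite G] [AddCommGroup V] [Finite V] {p : ℕ} [Fact p.Prime]
  [Module (ZMod p) V] {ρ : Representation (ZMod p) G V} {A K : Subgroup G}

/-- `|U| = |ker g ∩ U| |g U|`. -/
theorem half_card (g : V →ₗ[ZMod p] V) (U : Submodule (ZMod p) V) :
    Nat.card ↥(LinearMap.ker g ⊓ U) * Nat.card ↥(U.map g) = Nat.card U := by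
  have h1 := LinearMap.finrank_range_add_finrank_ker (g.domRestrict U)
  have h2 : Module.finrank (ZMod p) ↥(LinearMap.range (g.domRestrict U)) =
      Module.finrank (ZMod p) ↥(U.map g) := by
    rw [LinearMap.range_domRestrict]
  have h3 : Module.finrank (ZMod p) ↥(LinearMap.ker (g.domRestrict U)) =
      Module.finrank (ZMod p) ↥(LinearMap.ker g ⊓ U) := by
    rw [LinearMap.ker_domRestrict, inf_comm, ← Submodule.map_comap_subtype]
    exact (LinearEquiv.finrank_eq (Submodule.equivMapOfInjective U.subtype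
      U.injective_subtype _))
  rw [Module.natCard_eq_pow_finrank (K := ZMod p) (V := ↥(LinearMap.ker g ⊓ U)),
    Module.natCard_eq_pow_finrank (K := ZMod p) (V := ↥(U.map g)),
    Module.natCard_eq_pow_finrank (K := ZMod p) (V := ↥U), ← pow_add, ← h1, h2, h3, add_comm]

theorem half_ker (b : G) : LinearMap.ker (ρ b - 1 : V →ₗ[ZMod p] V) = Fx ρ {b} := by
  ext v
  simp [mem_Fx, sub_eq_zero]

theorem half_card_map (c : G) (X : Submodule (ZMod p) V) :
    Nat.card ↥(X.map (ρ c)) = Nat.card X := by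
  have hinj : Function.Injective (ρ c) := by
    intro u v h
    have := congrArg (ρ c⁻¹) h
    rwa [← Module.End.mul_apply, ← Module.End.mul_apply, ← map_mul, inv_mul_cancel, map_one,
      Module.End.one_apply, Module.End.one_apply] at this
  exact (Nat.card_congr (Submodule.equivMapOfInjective (ρ c) hinj X).toEquiv).symm

/-- [HALF] -/
theorem half (hp : p = 2) {b c : G} (hb2 : b * b = 1) (hinv : b * c * b⁻¹ = c⁻¹)
    (hodd : Odd (orderOf c)) (U : Submodule (ZMod p) V) (hUb : ∀ u ∈ U, ρ b u ∈ U)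
    (hUc : ∀ u ∈ U, ρ c u ∈ U) (hfix : Fx ρ {c} ⊓ U = ⊥) :
    Nat.card ↥(Fx ρ {b} ⊓ U) ^ 2 = Nat.card U := by
  subst hp
  have h2 : ∀ v : V, v + v = 0 := by
    intro v
    have : (2 : ZMod 2) • v = 0 := by
      have : (2 : ZMod 2) = 0 := by exact_mod_cast ZMod.natCast_self 2
      rw [this, zero_smul]
    rwa [two_smul] at this
  have hneg : ∀ v : V, -v = v := fun v => (eq_neg_of_add_eq_zero_left (h2 v)).symm
  set X := Fx ρ {b} ⊓ U with hX
  apply le_antisymm
  · -- `X ∩ c X = 0`
    have hdisj : X ⊓ X.map (ρ c) = ⊥ := by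
      rw [eq_bot_iff]
      rintro u ⟨hu, hu'⟩
      obtain ⟨u', hu'X, rfl⟩ := hu'
      have hbu' : ρ b u' = u' := hu'X.1 b rfl
      have hbu : ρ b (ρ c u') = ρ c u' := hu.1 b rfl
      have hbc : b * c = c⁻¹ * b := by
        rw [← hinv]; group
      rw [← Module.End.mul_apply, ← map_mul, hbc, map_mul, Module.End.mul_apply, hbu'] at hbu
      have hcc : ρ c (ρ c u') = u' := by
        rw [← hbu, ← Module.End.mul_apply, ← map_mul, mul_inv_cancel, map_one,
          Module.End.one_apply]
      have hc1 := c1 hodd hcc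
      have : u' ∈ Fx ρ {c} ⊓ U := ⟨by intro x hx; rw [Set.mem_singleton_iff.1 hx]; exact hc1,
        hu'X.2⟩
      rw [hfix] at this
      rw [(Submodule.mem_bot _).1 this]
      simp
    have h1 := tim_card_sup_inf X (X.map (ρ c))
    rw [hdisj, half_card_map] at h1
    have h3 : Nat.card ↥(⊥ : Submodule (ZMod 2) V) = 1 := by simp
    rw [h3, mul_one] at h1
    rw [pow_two, ← h1]
    apply tim_card_le
    apply sup_le inf_le_right
    rintro _ ⟨u, hu, rfl⟩
    exact hUc u hu.2
  · have h1 := half_card (ρ b - 1 : V →ₗ[ZMod 2] V) U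
    rw [half_ker] at h1
    rw [← h1, pow_two]
    apply Nat.mul_le_mul_left
    apply tim_card_le
    rintro _ ⟨u, hu, rfl⟩
    refine ⟨?_, ?_⟩
    · intro x hx
      rw [Set.mem_singleton_iff.1 hx]
      simp only [LinearMap.sub_apply, Module.End.one_apply, map_sub]
      rw [← Module.End.mul_apply, ← map_mul, hb2, map_one, Module.End.one_apply]
      rw [← neg_sub, hneg]
    · simp only [LinearMap.sub_apply, Module.End.one_apply]
      exact U.sub_mem (hUb u hu) hu

end Cfsg.Agent.Lib.Helper12.PGV
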