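import Cfsg.Agent.Lib.Helper12.PGV.Defs

set_option autoImplicit false

namespace Cfsg.Agent.Lib.Helper12.PGV

/-- [IDX] -/
theorem idx2 {G : Type*} [Group G] [Finite G] (S T : Subgroup G) (hTS : T ≤ S) {a : G}
    (h : ∀ c ∈ S, c ∈ T ∨ a * c ∈ T) : Nat.card S ≤ 2 * Nat.card T := by
  have hsub : (S : Set G) ⊆ (T : Set G) ∪ (fun t => a⁻¹ * t) '' (T : Set G) := by
    intro c hc
    rcases h c hc with h1 | h1
    · exact Or.inl h1
    · exact Or.inr ⟨a * c, h1, by simp⟩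
  have h1 : (S : Set G).ncard ≤ ((T : Set G) ∪ (fun t => a⁻¹ * t) '' (T : Set G)).ncard :=
    Set.ncard_le_ncard hsub (Set.toFinite _)
  have h2 := Set.ncard_union_le (T : Set G) ((fun t => a⁻¹ * t) '' (T : Set G))
  have h3 : ((fun t => a⁻¹ * t) '' (T : Set G)).ncard ≤ (T : Set G).ncard :=
    Set.ncard_image_le (Set.toFinite _)
  have h4 : Nat.card S = (S : Set G).ncard := Nat.card_coe_set_eq _
  have h5 : Nat.card T = (T : Set G).ncard := Nat.card_coe_set_eq _
  omega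

end Cfsg.Agent.Lib.Helper12.PGV
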