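import Cfsg.Agent.Lib.Helper12.PGV.Defs

set_option autoImplicit false

namespace Cfsg.Agent.Lib.Helper12.PGV

variable {G V : Type*} [Group G] [Finite G] [AddCommGroup V] [Finite V] {p : ℕ} [Fact p.Prime]
  [Module (ZMod p) V] {ρ : Representation (ZMod p) G V} {A K : Subgroup G}

/-- [INJ] -/
theorem inj (A' : Subgroup G) (hq : ∀ b ∈ A', ∀ b' ∈ A', QQ ρ b b') (U : Submodule (ZMod p) V)
    (hU : ∀ b ∈ A', ∀ u ∈ U, ρ b u ∈ U)
    (hP : ∀ b ∈ A', ρ b ≠ 1 → Fx ρ {b} = Fx ρ (A' : Set G)) {v : V} (hv : v ∈ U)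
    (hv' : v ∉ Fx ρ (A' : Set G)) :
    Nat.card A' ≤ Nat.card (Az ρ A') * Nat.card ↥(Fx ρ (A' : Set G) ⊓ U) := by
  classical
  have hmem : ∀ b : A', ρ (b : G) v - v ∈ Fx ρ (A' : Set G) ⊓ U := by
    intro b
    exact ⟨fun x hx => hq x hx b b.2 v, U.sub_mem (hU b b.2 v hv) hv⟩
  let φ : A' → ↥(Fx ρ (A' : Set G) ⊓ U) := fun b => ⟨ρ (b : G) v - v, hmem b⟩
  have hker : ∀ b b' : A', φ b = φ b' → (b' : G)⁻¹ * b ∈ Az ρ A' := by
    intro b b' h
    have h1 : ρ (b : G) v = ρ (b' : G) v := by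
      have := congrArg Subtype.val h
      exact sub_left_injective this
    have h2 : ρ ((b' : G)⁻¹ * b) v = v := by
      rw [map_mul, Module.End.mul_apply, h1, ← Module.End.mul_apply, ← map_mul, inv_mul_cancel,
        map_one, Module.End.one_apply]
    have hin : (b' : G)⁻¹ * b ∈ A' := A'.mul_mem (A'.inv_mem b'.2) b.2
    refine ⟨hin, ?_⟩
    by_contra hne
    have hne1 : ρ ((b' : G)⁻¹ * b) ≠ 1 := by
      intro h1
      apply hne
      intro w _
      rw [h1, Module.End.one_apply]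
    apply hv'
    rw [← hP _ hin hne1]
    intro x hx
    rw [Set.mem_singleton_iff.1 hx]
    exact h2
  let s : ↥(Fx ρ (A' : Set G) ⊓ U) → A' := fun w => if h : ∃ b, φ b = w then h.choose else 1
  have hs : ∀ b, φ (s (φ b)) = φ b := by
    intro b
    have h : ∃ b', φ b' = φ b := ⟨b, rfl⟩
    simp only [s, dif_pos h]
    exact h.choose_spec
  rw [← Nat.card_prod]
  apply Nat.card_le_card_of_injective
    (fun b : A' => ((⟨((s (φ b) : A') : G)⁻¹ * b, hker b _ (hs b).symm⟩ : Az ρ A'), φ b))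
  intro b b' h
  have h1 := congrArg Prod.snd h
  have h2 := congrArg (fun x => ((Prod.fst x : Az ρ A') : G)) h
  simp only at h1 h2
  rw [h1] at h2
  exact Subtype.ext (mul_left_cancel h2)

end Cfsg.Agent.Lib.Helper12.PGV
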