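import Cfsg.Agent.Lib.Helper12.PGV.T5

set_option autoImplicit false

namespace Cfsg.Agent.Lib.Helper12.PGV

variable {G V : Type*} [Group G] [Finite G] [AddCommGroup V] [Finite V] {p : ℕ} [Fact p.Prime]
  [Module (ZMod p) V] {ρ : Representation (ZMod p) G V} {A K : Subgroup G}

/-- [KILLP] if K preserves C_V(b) then K fixes it pointwise. -/
theorem killp (hK : Cfsg.IsQuasisimple K) {b : G} (hn : cj K b = K) (hnc : ¬ RC ρ K b)
    (hinv : ∀ k ∈ K, ∀ u ∈ Fx ρ {b}, ρ k u ∈ Fx ρ {b}) :
    ∀ k ∈ K, ∀ u ∈ Fx ρ {b}, ρ k u = u := by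
  have hcancel : ∀ (g : G) (u : V), ρ g (ρ g⁻¹ u) = u := by
    intro g u
    rw [← Module.End.mul_apply, ← map_mul, mul_inv_cancel, map_one, Module.End.one_apply]
  have hcancel' : ∀ (g : G) (u : V), ρ g⁻¹ (ρ g u) = u := by
    intro g u
    rw [← Module.End.mul_apply, ← map_mul, inv_mul_cancel, map_one, Module.End.one_apply]
  have hle : K ≤ Fixer ρ (Fx ρ {b}) := by
    apply t5 hK hn hnc
    · intro k hk m hm _ u hu
      rw [map_mul, map_mul, Module.End.mul_apply, Module.End.mul_apply,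
        hm _ (hinv k⁻¹ (K.inv_mem hk) u hu), hcancel]
    · intro k hk u hu
      have hbu : ρ b u = u := hu b rfl
      have hbu' : ρ b⁻¹ u = u := by
        conv_lhs => rw [← hbu]
        exact hcancel' b u
      have h1 : ρ b (ρ k u) = ρ k u := hinv k hk u hu b rfl
      rw [map_mul, map_mul, map_mul, Module.End.mul_apply, Module.End.mul_apply,
        Module.End.mul_apply, hbu', h1, hcancel']
  intro k hk u hu
  exact hle hk u hu

end Cfsg.Agent.Lib.Helper12.PGV
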