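import Cfsg.Agent.Lib.Helper12.PGV.T5

set_option autoImplicit false
set_option linter.unusedSectionVars false

namespace Cfsg.Agent.Lib.Helper12.PGV

variable {G V : Type*} [Group G] [Finite G] [AddCommGroup V] [Finite V] {p : ℕ} [Fact p.Prime]
  [Module (ZMod p) V] {ρ : Representation (ZMod p) G V} {K : Subgroup G}

/-- [T6] x ∈ K noncentral; M ∩ K normal in K containing all x⁻¹ (g x g⁻¹) ⇒ K ≤ M. -/
theorem t6 (hK : Cfsg.IsQuasisimple K) {x : G} (hx : x ∈ K) (hnc : ¬ Cen K x)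
    (M : Subgroup G) (hn : ∀ k ∈ K, ∀ m ∈ M, m ∈ K → k * m * k⁻¹ ∈ M)
    (hm : ∀ g ∈ K, x⁻¹ * (g * x * g⁻¹) ∈ M) : K ≤ M := by
  rcases t5_dich hK M hn with h1 | h1
  · exact h1
  · exfalso
    apply hnc
    have hmK : ∀ g ∈ K, x⁻¹ * (g * x * g⁻¹) ∈ K := fun g hg =>
      K.mul_mem (K.inv_mem hx) (K.mul_mem (K.mul_mem hg hx) (K.inv_mem hg))
    have hb' : ∀ k ∈ K, x⁻¹ * k * x⁻¹⁻¹ ∈ K := fun k hk =>
      K.mul_mem (K.mul_mem (K.inv_mem hx) hk) (K.inv_mem (K.inv_mem hx))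
    have heq : ∀ k ∈ K, k⁻¹ * (x⁻¹ * k * x⁻¹⁻¹) = x⁻¹ * (k * x * k⁻¹) := by
      intro k hk
      have h2 := h1 _ (hm k hk) (hmK k hk) k hk
      -- z * k = k * z  with z = x⁻¹ k x k⁻¹
      have h3 : k⁻¹ * (x⁻¹ * k * x⁻¹⁻¹) = k⁻¹ * ((x⁻¹ * (k * x * k⁻¹)) * k) := by group
      rw [h3, h2]
      group
    have h2 := t5_central hK hb' (fun k hk h hh => by
      rw [heq k hk]
      exact h1 _ (hm k hk) (hmK k hk) h hh)
    intro k hk
    have h3 := h2 k hk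
    -- x⁻¹ * k = k * x⁻¹
    calc x * k = x * (k * x⁻¹) * x := by group
      _ = x * (x⁻¹ * k) * x := by rw [h3]
      _ = k * x := by group

end Cfsg.Agent.Lib.Helper12.PGV
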