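import Cfsg.Agent.Lib.Helper12.PGV.F2
import Cfsg.Agent.Lib.Helper12.PGV.T6
import Cfsg.Agent.Lib.Helper12.PGV.T1
import Cfsg.Agent.Lib.Helper12.PGV.C1

set_option autoImplicit false
set_option linter.unusedSectionVars false

namespace Cfsg.Agent.Lib.Helper12.PGV

variable {G V : Type*} [Group G] [Finite G] [AddCommGroup V] [Finite V] {p : ℕ} [Fact p.Prime]
  [Module (ZMod p) V] {ρ : Representation (ZMod p) G V} {A K : Subgroup G}

theorem l1a_add_self (hp : p = 2) (v : V) : v + v = 0 := by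
  subst hp
  have h : (2 : ZMod 2) • v = 0 := by
    have h2 : (2 : ZMod 2) = 0 := rfl
    rw [h2, zero_smul]
  rwa [two_smul] at h

theorem l1a_sq (hp : p = 2) {T : V →ₗ[ZMod p] V} {u : V} (h : T (T u) - T u = T u - u) :
    T (T u) = u := by
  have h2 := l1a_add_self (V := V) hp (T u)
  have h3 := l1a_add_self (V := V) hp u
  have h4 : T (T u) = (T u + T u) - u := by
    calc T (T u) = (T (T u) - T u) + T u := by abel
      _ = (T u - u) + T u := by rw [h]
      _ = _ := by abel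
  rw [h4, h2, zero_sub]
  exact neg_eq_of_add_eq_zero_left h3

theorem l1a_odd_conj {x : G} (g : G) (h : Odd (orderOf x)) : Odd (orderOf (g * x * g⁻¹)) := by
  have e1 := MulEquiv.orderOf_eq (MulAut.conj g) x
  rw [MulAut.conj_apply] at e1
  rw [e1]; exact h

theorem l1a_ncen {K : Subgroup G} {x : G} (a : G) (hn : ¬ Cen K x) :
    ¬ Cen (cj K a) (a * x * a⁻¹) := by
  intro h
  apply hn
  intro k hk
  have h1 := h (a * k * a⁻¹) (sym_mem_cj.2 ⟨k, hk, rfl⟩)
  have e : a * (x * k) * a⁻¹ = a * (k * x) * a⁻¹ := by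
    calc a * (x * k) * a⁻¹ = a * x * a⁻¹ * (a * k * a⁻¹) := by group
      _ = a * k * a⁻¹ * (a * x * a⁻¹) := h1
      _ = _ := by group
  exact mul_left_cancel (mul_right_cancel e)

theorem l1a_cj_cj {K : Subgroup G} {a : G} (ha2 : a * a = 1) : cj (cj K a) a = K := by
  ext y
  rw [sym_mem_cj]
  constructor
  · rintro ⟨k, hk, rfl⟩
    obtain ⟨h, hh, rfl⟩ := sym_mem_cj.1 hk
    have e : a * (a * h * a⁻¹) * a⁻¹ = (a * a) * h * (a * a)⁻¹ := by group
    rw [e, ha2]; simpa using hh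
  · intro hy
    refine ⟨a * y * a⁻¹, sym_mem_cj.2 ⟨y, hy, rfl⟩, ?_⟩
    have e : a * (a * y * a⁻¹) * a⁻¹ = (a * a) * y * (a * a)⁻¹ := by group
    rw [e, ha2]; simp

/-- [L1A] -/
theorem l1a (hp : p = 2) {a : G} (P : Pair2 ρ K a) {x : G} (hx : x ∈ K) (hodd : Odd (orderOf x))
    (hn : ¬ Cen K x) : Fx ρ {x} ≤ Fx ρ (cj K a : Set G) := by
  have hinv : ∀ g ∈ cj K a, ∀ u ∈ Fx ρ {x}, ρ g u ∈ Fx ρ {x} := by
    intro g hg u hu y hy
    rw [Set.mem_singleton_iff] at hy; subst hy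
    have h1 : ρ y u = u := hu y rfl
    rw [← Module.End.mul_apply, ← map_mul, P.cm y hx g hg, map_mul, Module.End.mul_apply, h1]
  have hx1 : a * x * a⁻¹ ∈ cj K a := sym_mem_cj.2 ⟨x, hx, rfl⟩
  have key : ∀ g ∈ cj K a, ∀ u ∈ Fx ρ {x}, ρ (g * (a * x * a⁻¹) * g⁻¹) u = u := by
    intro g hg u hu
    have hf := f2 P hx hg u
    have hyK : g * (a * x * a⁻¹) * g⁻¹ ∈ cj K a :=
      (cj K a).mul_mem ((cj K a).mul_mem hg hx1) ((cj K a).inv_mem hg)
    have hyodd : Odd (orderOf (g * (a * x * a⁻¹) * g⁻¹)) := l1a_odd_conj g (l1a_odd_conj a hodd)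
    generalize g * (a * x * a⁻¹) * g⁻¹ = y at hf hyK hyodd ⊢
    apply c1 hyodd
    have hxu : ρ x u = u := hu x rfl
    have e1 : ρ (x * y) u = ρ y u := by
      rw [P.cm x hx y hyK, map_mul, Module.End.mul_apply, hxu]
    rw [e1] at hf
    have hw : ρ y u - u ∈ Fx ρ {x} := sub_mem (hinv y hyK u hu) hu
    have hxw : ρ x⁻¹ (ρ y u - u) = ρ y u - u := by
      have h5 := hw x rfl
      conv_lhs => rw [← h5]
      rw [t1_inv_apply']
    have e2 : ρ (x⁻¹ * y) (ρ y u - u) = ρ y (ρ y u - u) := by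
      rw [P.cm x⁻¹ (K.inv_mem hx) y hyK, map_mul, Module.End.mul_apply, hxw]
    rw [e2, map_sub] at hf
    exact l1a_sq hp hf
  have hle : cj K a ≤ Fixer ρ (Fx ρ {x}) := by
    apply t6 (qsc P.qs a) hx1 (l1a_ncen a hn)
    · intro k hk m hm _ w hw
      rw [map_mul, map_mul, Module.End.mul_apply, Module.End.mul_apply,
        hm _ (hinv _ ((cj K a).inv_mem hk) w hw), t1_inv_apply]
    · intro g hg
      apply (Fixer ρ _).mul_mem
      · apply (Fixer ρ _).inv_mem
        intro w hw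
        have h6 := key 1 (one_mem _) w hw
        simpa using h6
      · intro w hw; exact key g hg w hw
  intro u hu g hg
  exact hle hg u hu

end Cfsg.Agent.Lib.Helper12.PGV
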