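import Cfsg.Agent.Lib.Helper12.PGV.Defs
import Cfsg.Agent.Lib.Helper28.Components

set_option autoImplicit false

namespace Cfsg.Agent.Lib.Helper12.PGV

variable {G V : Type*} [Group G] [Finite G] [AddCommGroup V] [Finite V] {p : ℕ} [Fact p.Prime]
  [Module (ZMod p) V] {ρ : Representation (ZMod p) G V} {K : Subgroup G}

/-- [QS3] a noncentral element of order prime to p. -/
theorem qs3 (p : ℕ) [Fact p.Prime] (hK : Cfsg.IsQuasisimple K) :
    ∃ x ∈ K, (orderOf x).Coprime p ∧ ¬ Cen K x := by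
  by_contra hcon
  push Not at hcon
  have hp : p.Prime := Fact.out
  have hpg : IsPGroup p (K ⧸ Subgroup.center K) := by
    intro gbar
    obtain ⟨g, rfl⟩ := QuotientGroup.mk_surjective gbar
    have hpos : orderOf g ≠ 0 := (orderOf_pos g).ne'
    obtain ⟨k, m, hm, hkm⟩ := Nat.exists_eq_pow_mul_and_not_dvd hpos p hp.ne_one
    refine ⟨k, ?_⟩
    rw [← QuotientGroup.mk_pow, QuotientGroup.eq_one_iff, Subgroup.mem_center_iff]
    have ho : orderOf (g ^ p ^ k) = m := by
      rw [orderOf_pow_of_dvd (pow_ne_zero _ hp.ne_zero) (hkm ▸ Dvd.intro _ rfl), hkm,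
        Nat.mul_div_cancel_left _ (pow_pos hp.pos _)]
    have hcop : (orderOf ((g ^ p ^ k : K) : G)).Coprime p := by
      rw [Subgroup.orderOf_coe, ho]
      exact ((Nat.Prime.coprime_iff_not_dvd hp).mpr hm).symm
    have hcen := hcon _ (g ^ p ^ k : K).2 hcop
    intro h
    apply Subtype.ext
    exact (hcen h h.2).symm
  haveI := hK.1
  haveI := hK.2
  haveI : Nontrivial (K ⧸ Subgroup.center K) := IsSimpleGroup.toNontrivial
  exact Group.IsPerfect.not_isNilpotent (K ⧸ Subgroup.center K) hpg.isNilpotent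

end Cfsg.Agent.Lib.Helper12.PGV
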