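import Cfsg.Agent.Lib.Helper12.PGV.L1A
import Cfsg.Agent.Lib.Helper12.PGV.QS3

set_option autoImplicit false
set_option linter.unusedSectionVars false

namespace Cfsg.Agent.Lib.Helper12.PGV

variable {G V : Type*} [Group G] [Finite G] [AddCommGroup V] [Finite V] {p : ℕ} [Fact p.Prime]
  [Module (ZMod p) V] {ρ : Representation (ZMod p) G V} {A K : Subgroup G}

theorem l1b_odd (hp : p = 2) {n : ℕ} (h : n.Coprime p) : Odd n := by
  subst hp
  exact Nat.coprime_two_right.1 h

theorem l1b_le (hp : p = 2) {a : G} (P : Pair2 ρ K a) :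
    Fx ρ (cj K a : Set G) ≤ Fx ρ (K : Set G) := by
  have hinv : ∀ k ∈ K, ∀ u ∈ Fx ρ (cj K a : Set G), ρ k u ∈ Fx ρ (cj K a : Set G) := by
    intro k hk u hu g hg
    rw [← Module.End.mul_apply, ← map_mul, ← P.cm k hk g hg, map_mul, Module.End.mul_apply,
      hu g hg]
  have key : ∀ x ∈ K, Odd (orderOf x) → ∀ u ∈ Fx ρ (cj K a : Set G), ρ x u = u := by
    intro x hx hodd u hu
    apply c1 hodd
    have hx1 : a * x * a⁻¹ ∈ cj K a := sym_mem_cj.2 ⟨x, hx, rfl⟩
    have hf := f2 P hx (one_mem (cj K a)) u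
    simp only [one_mul, inv_one, mul_one] at hf
    have e1 : ρ (x * (a * x * a⁻¹)) u = ρ x u := by
      rw [map_mul, Module.End.mul_apply, hu _ hx1]
    rw [e1] at hf
    have hw : ρ x u - u ∈ Fx ρ (cj K a : Set G) := sub_mem (hinv x hx u hu) hu
    rw [map_mul, Module.End.mul_apply, hw _ hx1, map_sub, t1_inv_apply'] at hf
    have h4 := congrArg (ρ x) hf
    rw [map_sub, map_sub, t1_inv_apply] at h4
    exact l1a_sq hp h4.symm
  obtain ⟨x, hx, hcop, hn⟩ := qs3 p P.qs
  have hodd : Odd (orderOf x) := l1b_odd hp hcop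
  have hle : K ≤ Fixer ρ (Fx ρ (cj K a : Set G)) := by
    apply t6 P.qs hx hn
    · intro k hk m hm _ w hw
      rw [map_mul, map_mul, Module.End.mul_apply, Module.End.mul_apply,
        hm _ (hinv _ (K.inv_mem hk) w hw), t1_inv_apply]
    · intro g hg
      apply (Fixer ρ _).mul_mem
      · apply (Fixer ρ _).inv_mem
        intro w hw
        exact key x hx hodd w hw
      · intro w hw
        exact key _ (K.mul_mem (K.mul_mem hg hx) (K.inv_mem hg)) (l1a_odd_conj g hodd) w hw
  intro u hu g hg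
  exact hle hg u hu

/-- [L1B] -/
theorem l1b (hp : p = 2) {a : G} (P : Pair2 ρ K a) :
    Fx ρ (cj K a : Set G) = Fx ρ (K : Set G) := by
  apply le_antisymm (l1b_le hp P)
  have h := l1b_le hp (pair2_symm P)
  rwa [l1a_cj_cj P.a2] at h

end Cfsg.Agent.Lib.Helper12.PGV
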