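import Cfsg.Agent.Lib.Helper12.PGV.L1B
import Cfsg.Agent.Lib.Helper12.PGV.C2

set_option autoImplicit false
set_option linter.unusedSectionVars false

namespace Cfsg.Agent.Lib.Helper12.PGV

variable {G V : Type*} [Group G] [Finite G] [AddCommGroup V] [Finite V] {p : ℕ} [Fact p.Prime]
  [Module (ZMod p) V] {ρ : Representation (ZMod p) G V} {A K : Subgroup G}

theorem l1c_cop (hp : p = 2) {n : ℕ} (h : Odd n) : n.Coprime p := by
  subst hp
  exact Nat.coprime_two_right.2 h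

theorem l1c_Cm_inv {x g : G} (hxg : x * g = g * x) : ∀ w ∈ Cm ρ {x}, ρ g w ∈ Cm ρ {x} := by
  have hle : Cm ρ {x} ≤ (Cm ρ {x}).comap (ρ g) := by
    conv_lhs => unfold Cm
    rw [Submodule.span_le]
    rintro _ ⟨z, hz, v, rfl⟩
    rw [Set.mem_singleton_iff] at hz; subst hz
    show ρ g (ρ z v - v) ∈ Cm ρ {z}
    have e : ρ g (ρ z v - v) = ρ z (ρ g v) - ρ g v := by
      rw [map_sub, ← Module.End.mul_apply, ← map_mul, ← hxg, map_mul, Module.End.mul_apply]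
    rw [e]
    exact Submodule.subset_span ⟨z, rfl, _, rfl⟩
  intro w hw
  exact hle hw

theorem l1c_aux (hp : p = 2) {a : G} (P : Pair2 ρ K a) {x : G} (hx : x ∈ K)
    (hodd : Odd (orderOf x)) (hn : ¬ Cen K x) :
    Cm ρ (cj K a : Set G) ≤ Cm ρ {x} ∧ Cm ρ {x} ≤ Cm ρ (K : Set G) := by
  constructor
  · conv_lhs => unfold Cm
    rw [Submodule.span_le]
    rintro _ ⟨g, hg, v, rfl⟩
    have hv : v ∈ Fx ρ {x} ⊔ Cm ρ {x} := by
      rw [(c2 (ρ := ρ) (l1c_cop hp hodd)).1]; exact Submodule.mem_top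
    obtain ⟨u, hu, w, hw, rfl⟩ := Submodule.mem_sup.1 hv
    have hgu : ρ g u = u := l1a hp P hx hodd hn hu g hg
    have e : ρ g (u + w) - (u + w) = ρ g w - w := by
      rw [map_add, hgu]; abel
    show ρ g (u + w) - (u + w) ∈ Cm ρ {x}
    rw [e]
    exact sub_mem (l1c_Cm_inv (P.cm x hx g hg) w hw) hw
  · apply Submodule.span_mono
    rintro _ ⟨z, hz, v, rfl⟩
    rw [Set.mem_singleton_iff] at hz; subst hz
    exact ⟨z, hx, v, rfl⟩

/-- [L1C] -/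
theorem l1c (hp : p = 2) {a : G} (P : Pair2 ρ K a) {x : G} (hx : x ∈ K) (hodd : Odd (orderOf x))
    (hn : ¬ Cen K x) : Cm ρ {x} = Cm ρ (K : Set G) ∧ Cm ρ (K : Set G) = Cm ρ (cj K a : Set G) ∧
      Fx ρ {x} = Fx ρ (K : Set G) := by
  obtain ⟨h1, h2⟩ := l1c_aux hp P hx hodd hn
  obtain ⟨h3, h4⟩ := l1c_aux hp (pair2_symm P) (sym_mem_cj.2 ⟨x, hx, rfl⟩) (l1a_odd_conj a hodd)
    (l1a_ncen a hn)
  rw [l1a_cj_cj P.a2] at h3
  have h5 : Cm ρ (K : Set G) ≤ Cm ρ (cj K a : Set G) := h3.trans h4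
  refine ⟨le_antisymm h2 (h5.trans h1), le_antisymm h5 (h1.trans h2), ?_⟩
  apply le_antisymm ((l1a hp P hx hodd hn).trans (l1b hp P).le)
  intro u hu y hy
  rw [Set.mem_singleton_iff] at hy; subst hy
  exact hu _ hx

end Cfsg.Agent.Lib.Helper12.PGV
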