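import Cfsg.Agent.Lib.Helper12.PGV.T3
import Cfsg.Agent.Lib.Helper12.PGV.C1
import Cfsg.Agent.Lib.Helper12.PGV.TIM
import Cfsg.Agent.S0144

set_option autoImplicit false
set_option linter.unusedSectionVars false

namespace Cfsg.Agent.Lib.Helper12.PGV

variable {G V : Type*} [Group G] [Finite G] [AddCommGroup V] [Finite V] {p : ℕ} [Fact p.Prime]
  [Module (ZMod p) V] {ρ : Representation (ZMod p) G V} {K : Subgroup G}

theorem l5_Fx_eq_ker (g : G) : Fx ρ {g} = LinearMap.ker (ρ g - 1) := by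
  ext v
  rw [mem_Fx, LinearMap.mem_ker]
  constructor
  · intro h
    simp [h g rfl]
  · intro h x hx
    rw [Set.mem_singleton_iff] at hx
    subst hx
    simpa [sub_eq_zero] using h

/-- rank-nullity for `ρ g - 1` -/
theorem l5_card_range (g : G) :
    Nat.card (LinearMap.range (ρ g - 1)) * Nat.card (Fx ρ {g}) = Nat.card V := by
  rw [l5_Fx_eq_ker]
  have h := LinearMap.finrank_range_add_finrank_ker (ρ g - 1)
  rw [Module.natCard_eq_pow_finrank (K := ZMod p) (V := ↥(LinearMap.range (ρ g - 1))),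
    Module.natCard_eq_pow_finrank (K := ZMod p) (V := ↥(LinearMap.ker (ρ g - 1))),
    Module.natCard_eq_pow_finrank (K := ZMod p) (V := V), ← pow_add, h]

theorem l5_card_conj (a x : G) : Nat.card (Fx ρ {a}) ≤ Nat.card (Fx ρ {x⁻¹ * a * x}) := by
  refine Nat.card_le_card_of_injective
    (fun v : Fx ρ {a} => (⟨ρ x⁻¹ v.1, ?_⟩ : Fx ρ {x⁻¹ * a * x})) ?_
  · intro g hg
    rw [Set.mem_singleton_iff] at hg
    subst hg
    have h1 : ρ a v.1 = v.1 := v.2 a rfl
    calc ρ (x⁻¹ * a * x) (ρ x⁻¹ v.1) = ρ (x⁻¹ * a * x * x⁻¹) v.1 := by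
          rw [map_mul ρ (x⁻¹ * a * x) x⁻¹]; rfl
      _ = ρ (x⁻¹ * a) v.1 := by congr 2; group
      _ = ρ x⁻¹ (ρ a v.1) := by rw [map_mul]; rfl
      _ = ρ x⁻¹ v.1 := by rw [h1]
  · intro v w h
    have h1 : ρ x⁻¹ v.1 = ρ x⁻¹ w.1 := congrArg Subtype.val h
    apply Subtype.ext
    calc v.1 = ρ x (ρ x⁻¹ v.1) := (t1_inv_apply x v.1).symm
      _ = ρ x (ρ x⁻¹ w.1) := by rw [h1]
      _ = w.1 := t1_inv_apply x w.1

/-- an element of order prime to `6` fixes pointwise every invariant subspace with at most four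
elements -/
theorem l5_fix_small (g : G) (R : Submodule (ZMod p) V) (hinv : ∀ u ∈ R, ρ g u ∈ R)
    (hcard : Nat.card R ≤ 4) (hg : (orderOf g).Coprime 6) : ∀ u ∈ R, ρ g u = u := by
  classical
  have : Fintype R := Fintype.ofFinite _
  let f : R → R := fun u => ⟨ρ g u.1, hinv u.1 u.2⟩
  have hfi : Function.Injective f := by
    intro u w h
    have h1 : ρ g u.1 = ρ g w.1 := congrArg Subtype.val h
    apply Subtype.ext
    calc u.1 = ρ g⁻¹ (ρ g u.1) := (t1_inv_apply' g u.1).symm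
      _ = ρ g⁻¹ (ρ g w.1) := by rw [h1]
      _ = w.1 := t1_inv_apply' g w.1
  let σ : Equiv.Perm R := Equiv.ofBijective f (Finite.injective_iff_bijective.1 hfi)
  have hpow : ∀ (n : ℕ) (u : R), (((σ ^ n) u : R) : V) = ρ (g ^ n) u.1 := by
    intro n
    induction n with
    | zero => intro u; simp
    | succ n ih =>
      intro u
      rw [pow_succ', Equiv.Perm.mul_apply]
      show ρ g (((σ ^ n) u : R) : V) = _
      rw [ih, pow_succ', map_mul]
      rfl
  have h1 : σ ^ orderOf g = 1 := by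
    ext u
    rw [hpow, pow_orderOf_eq_one]
    simp
  have h2 : σ ^ 24 = 1 := by
    have h3 : σ ^ Fintype.card (Equiv.Perm R) = 1 := pow_card_eq_one
    rw [Fintype.card_perm] at h3
    have h4 : (Fintype.card R).factorial ∣ 24 := by
      have : Fintype.card R ≤ 4 := by rw [← Nat.card_eq_fintype_card]; exact hcard
      exact Nat.factorial_dvd_factorial this
    obtain ⟨c, hc⟩ := h4
    rw [hc, pow_mul, h3, one_pow]
  have h5 : orderOf σ ∣ Nat.gcd (orderOf g) 24 :=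
    Nat.dvd_gcd (orderOf_dvd_of_pow_eq_one h1) (orderOf_dvd_of_pow_eq_one h2)
  have h6 : Nat.gcd (orderOf g) 24 = 1 := by
    have h7 : (orderOf g).Coprime (6 ^ 3) := Nat.Coprime.pow_right 3 hg
    exact Nat.Coprime.coprime_dvd_right (by norm_num) h7
  rw [h6, Nat.dvd_one, orderOf_eq_one_iff] at h5
  intro u hu
  have h8 : σ ⟨u, hu⟩ = ⟨u, hu⟩ := by rw [h5]; rfl
  exact congrArg Subtype.val h8

/-- elements of `K` of order prime to `6` are central -/
theorem l5_central (hp : p = 2) (hK : Cfsg.IsQuasisimple K) (nt : ∃ k ∈ K, ρ k ≠ 1) {a : G}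
    (ha2 : a * a = 1) (hcm : CC K (cj K a)) (hcard : Nat.card V ≤ 2 * Nat.card (Fx ρ {a}))
    {x : G} (hx : x ∈ K) (hx6 : (orderOf x).Coprime 6) : Cen K x := by
  subst hp
  have hai : a⁻¹ = a := inv_eq_of_mul_eq_one_left ha2
  have hx1 : a * x * a⁻¹ ∈ cj K a := ⟨x, hx, rfl⟩
  have hcomm : Commute x⁻¹ (a * x * a⁻¹) := (show Commute x (a * x * a⁻¹) from hcm x hx _ hx1).inv_left
  set y := x⁻¹ * (a * x * a⁻¹) with hy
  have hyn : y ^ orderOf x = 1 := by
    rw [hy, hcomm.mul_pow, inv_pow, pow_orderOf_eq_one, conj_pow, pow_orderOf_eq_one]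
    simp
  have hy6 : (orderOf y).Coprime 6 :=
    Nat.Coprime.coprime_dvd_left (orderOf_dvd_of_pow_eq_one hyn) hx6
  have hyc : y = (x⁻¹ * a * x) * a := by
    rw [hy, hai]; group
  -- the fixed points
  have hle : Fx ρ {x⁻¹ * a * x} ⊓ Fx ρ {a} ≤ Fx ρ {y} := by
    rintro v ⟨h1, h2⟩ g hg
    rw [Set.mem_singleton_iff] at hg
    subst hg
    rw [hyc, map_mul]
    show ρ (x⁻¹ * a * x) (ρ a v) = v
    rw [h2 a rfl, h1 _ rfl]
  have hR : Nat.card (LinearMap.range (ρ y - 1)) ≤ 4 := by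
    have e1 := tim_card_sup_inf (Fx ρ {x⁻¹ * a * x}) (Fx ρ {a})
    have e2 : Nat.card ↥(Fx ρ {x⁻¹ * a * x} ⊔ Fx ρ {a}) ≤ Nat.card V :=
      Nat.card_le_card_of_injective _ Subtype.val_injective
    have e3 := l5_card_conj (ρ := ρ) a x
    have e4 := tim_card_le hle
    have e5 := l5_card_range (ρ := ρ) y
    have hV : 0 < Nat.card V := Nat.card_pos
    have hF : 0 < Nat.card (Fx ρ {y}) := Nat.card_pos
    set nV := Nat.card V
    set nS := Nat.card ↥(Fx ρ {x⁻¹ * a * x} ⊔ Fx ρ {a})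
    set nI := Nat.card ↥(Fx ρ {x⁻¹ * a * x} ⊓ Fx ρ {a})
    set nc := Nat.card (Fx ρ {x⁻¹ * a * x})
    set na := Nat.card (Fx ρ {a})
    set ny := Nat.card (Fx ρ {y})
    set nR := Nat.card (LinearMap.range (ρ y - 1))
    have f1 : nV * nV ≤ nV * (4 * nI) := by
      calc nV * nV ≤ (2 * nc) * (2 * na) := Nat.mul_le_mul (hcard.trans (by omega)) hcard
        _ = 4 * (nS * nI) := by rw [e1]; ring
        _ ≤ 4 * (nV * nI) := by gcongr
        _ = nV * (4 * nI) := by ring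
    have f2 : nV ≤ 4 * nI := Nat.le_of_mul_le_mul_left f1 hV
    have f3 : nR * ny ≤ 4 * ny := by
      rw [e5]; exact f2.trans (by omega)
    exact Nat.le_of_mul_le_mul_right f3 hF
  have hinv : ∀ u ∈ LinearMap.range (ρ y - 1), ρ y u ∈ LinearMap.range (ρ y - 1) := by
    rintro u ⟨v, rfl⟩
    exact ⟨ρ y v, by simp⟩
  have hfix := l5_fix_small y _ hinv hR hy6
  have hodd : Odd (orderOf y) := by
    rw [← Nat.not_even_iff_odd]
    intro he
    have h2 : 2 ∣ Nat.gcd (orderOf y) 6 := Nat.dvd_gcd he.two_dvd (by norm_num)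
    rw [hy6] at h2
    omega
  have hy1 : ∀ v, ρ y v = v := by
    intro v
    apply c1 hodd
    have h1 := hfix (ρ y v - v) ⟨v, by simp⟩
    rw [map_sub] at h1
    have h2 : ρ y v + ρ y v = 0 := by
      have : (2 : ZMod 2) • ρ y v = 0 := by
        have h0 : (2 : ZMod 2) = 0 := rfl
        rw [h0, zero_smul]
      rwa [two_smul] at this
    have h3 : ρ y (ρ y v) = (ρ y v + ρ y v) - v := by
      have := sub_eq_iff_eq_add.1 h1
      rw [this]; abel
    have h4 : v + v = 0 := by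
      have : (2 : ZMod 2) • v = 0 := by
        have h0 : (2 : ZMod 2) = 0 := rfl
        rw [h0, zero_smul]
      rwa [two_smul] at this
    rw [h3, h2, zero_sub]
    exact neg_eq_of_add_eq_zero_left h4
  have hxx : ρ (a * x * a⁻¹) = ρ x := by
    ext v
    have h1 := hy1 v
    rw [hy, map_mul] at h1
    have h2 : ρ x⁻¹ (ρ (a * x * a⁻¹) v) = v := h1
    calc ρ (a * x * a⁻¹) v = ρ x (ρ x⁻¹ (ρ (a * x * a⁻¹) v)) := (t1_inv_apply x _).symm
      _ = ρ x v := by rw [h2]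
  apply t3 hK nt hx
  intro k hk
  rw [← hxx, ← map_mul, ← map_mul, hcm k hk _ hx1]

/-- [L5] a "transvection" cannot move K. -/
theorem transv (hp : p = 2) (hK : Cfsg.IsQuasisimple K) (nt : ∃ k ∈ K, ρ k ≠ 1) {a : G}
    (ha2 : a * a = 1) (hcm : CC K (cj K a)) (hcard : Nat.card V ≤ 2 * Nat.card (Fx ρ {a})) :
    False := by
  have hcen := fun {x : G} (hx : x ∈ K) (hx6 : (orderOf x).Coprime 6) =>
    l5_central hp hK nt ha2 hcm hcard hx hx6
  have hperf : Group.IsPerfect K := hK.1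
  have hsimp : IsSimpleGroup (K ⧸ Subgroup.center K) := hK.2
  -- prime divisors of the order of the quotient
  have hprime : ∀ s : ℕ, s.Prime → s ∣ Nat.card (K ⧸ Subgroup.center K) → s = 2 ∨ s = 3 := by
    intro s hs hdvd
    have : Fact s.Prime := ⟨hs⟩
    obtain ⟨q, hq⟩ := exists_prime_orderOf_dvd_card' s hdvd
    obtain ⟨k, rfl⟩ := QuotientGroup.mk_surjective q
    have hn : orderOf k ≠ 0 := (orderOf_pos k).ne'
    obtain ⟨i, n1, h2, e1⟩ := Nat.exists_eq_pow_mul_and_not_dvd hn 2 (by norm_num)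
    have hn1 : n1 ≠ 0 := by
      rintro rfl
      simp at h2
    obtain ⟨j, n2, h3, e2⟩ := Nat.exists_eq_pow_mul_and_not_dvd hn1 3 (by norm_num)
    have h2' : ¬ 2 ∣ n2 := fun h => h2 (e2 ▸ Dvd.dvd.mul_left h _)
    have hA : 2 ^ i * 3 ^ j ≠ 0 := by positivity
    have hAd : 2 ^ i * 3 ^ j ∣ orderOf k := ⟨n2, by rw [e1, e2]; ring⟩
    have ho : orderOf (k ^ (2 ^ i * 3 ^ j)) = n2 := by
      rw [orderOf_pow_of_dvd hA hAd, e1, e2]
      rw [← mul_assoc]
      exact Nat.mul_div_cancel_left _ (Nat.pos_of_ne_zero hA)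
    have h6 : n2.Coprime 6 := by
      have : (6 : ℕ) = 2 * 3 := rfl
      rw [this]
      exact Nat.Coprime.mul_right
        ((Nat.Prime.coprime_iff_not_dvd Nat.prime_two).2 h2').symm
        ((Nat.Prime.coprime_iff_not_dvd Nat.prime_three).2 h3).symm
    have hc := hcen (x := ((k ^ (2 ^ i * 3 ^ j) : K) : G)) (SetLike.coe_mem _)
      (by rw [Subgroup.orderOf_coe, ho]; exact h6)
    have hz : k ^ (2 ^ i * 3 ^ j) ∈ Subgroup.center K := by
      rw [Subgroup.mem_center_iff]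
      intro g
      apply Subtype.ext
      exact (hc g g.2).symm
    have h1 : (QuotientGroup.mk k : K ⧸ Subgroup.center K) ^ (2 ^ i * 3 ^ j) = 1 := by
      rw [← QuotientGroup.mk_pow]
      exact (QuotientGroup.eq_one_iff _).2 hz
    have h4 : s ∣ 2 ^ i * 3 ^ j := hq ▸ orderOf_dvd_of_pow_eq_one h1
    rcases (Nat.Prime.dvd_mul hs).1 h4 with h | h
    · exact Or.inl ((Nat.prime_dvd_prime_iff_eq hs Nat.prime_two).1 (hs.dvd_of_dvd_pow h))
    · exact Or.inr ((Nat.prime_dvd_prime_iff_eq hs Nat.prime_three).1 (hs.dvd_of_dvd_pow h))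
  have hN : Nat.card (K ⧸ Subgroup.center K) ≠ 0 := Nat.card_pos.ne'
  obtain ⟨i, n1, h2, e1⟩ := Nat.exists_eq_pow_mul_and_not_dvd hN 2 (by norm_num)
  have hn1 : n1 ≠ 0 := by
    rintro rfl
    simp at h2
  obtain ⟨j, n2, h3, e2⟩ := Nat.exists_eq_pow_mul_and_not_dvd hn1 3 (by norm_num)
  have h2' : ¬ 2 ∣ n2 := fun h => h2 (e2 ▸ Dvd.dvd.mul_left h _)
  have hn2 : n2 = 1 := by
    by_contra hne
    obtain ⟨s, hs, hd⟩ := Nat.exists_prime_and_dvd hne
    have : s ∣ Nat.card (K ⧸ Subgroup.center K) := by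
      rw [e1, e2]
      exact Dvd.dvd.mul_left (Dvd.dvd.mul_left hd _) _
    rcases hprime s hs this with rfl | rfl
    · exact h2' hd
    · exact h3 hd
  have hcardQ : Nat.card (K ⧸ Subgroup.center K) = 2 ^ i * 3 ^ j := by
    rw [e1, e2, hn2, mul_one]
  have hsol := Cfsg.Agent.S0144.result 2 3 i j Nat.prime_two Nat.prime_three hcardQ
  exact Group.IsPerfect.not_isSolvable (K ⧸ Subgroup.center K) hsol

end Cfsg.Agent.Lib.Helper12.PGV
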