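import Cfsg.Agent.Lib.Helper12.PGV.Defs

set_option autoImplicit false
set_option linter.unusedSectionVars false
set_option linter.unusedVariables false

namespace Cfsg.Agent.Lib.Helper12.PGV

variable {G V : Type*} [Group G] [Finite G] [AddCommGroup V] [Finite V] {p : ℕ} [Fact p.Prime]
  [Module (ZMod p) V] {ρ : Representation (ZMod p) G V} {A K : Subgroup G}

/-- conjugates `a^i x a^-i`, `a^j y a^-j` commute when `p ∤ j - i`, `i ≤ j`. -/
theorem norm_cc_le {a : G} (hcc : ∀ i : ℕ, ¬ p ∣ i → CC K (cj K (a ^ i))) {x y : G} (hx : x ∈ K)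
    (hy : y ∈ K) (i d : ℕ) (hd : ¬ p ∣ d) :
    (a ^ i * x * (a ^ i)⁻¹) * (a ^ (i + d) * y * (a ^ (i + d))⁻¹)
      = (a ^ (i + d) * y * (a ^ (i + d))⁻¹) * (a ^ i * x * (a ^ i)⁻¹) := by
  have h1 : x * (a ^ d * y * (a ^ d)⁻¹) = (a ^ d * y * (a ^ d)⁻¹) * x :=
    hcc d hd x hx _ ⟨y, hy, rfl⟩
  have h2 : a ^ (i + d) * y * (a ^ (i + d))⁻¹ = a ^ i * (a ^ d * y * (a ^ d)⁻¹) * (a ^ i)⁻¹ := by
    rw [pow_add]; group
  rw [h2]
  calc a ^ i * x * (a ^ i)⁻¹ * (a ^ i * (a ^ d * y * (a ^ d)⁻¹) * (a ^ i)⁻¹)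
      = a ^ i * (x * (a ^ d * y * (a ^ d)⁻¹)) * (a ^ i)⁻¹ := by group
    _ = a ^ i * ((a ^ d * y * (a ^ d)⁻¹) * x) * (a ^ i)⁻¹ := by rw [h1]
    _ = _ := by group

/-- conjugates with different indices below `p` commute. -/
theorem norm_cc {a : G} (hcc : ∀ i : ℕ, ¬ p ∣ i → CC K (cj K (a ^ i))) {x y : G} (hx : x ∈ K)
    (hy : y ∈ K) {i j : ℕ} (hi : i < p) (hj : j < p) (hij : i ≠ j) :
    (a ^ i * x * (a ^ i)⁻¹) * (a ^ j * y * (a ^ j)⁻¹)
      = (a ^ j * y * (a ^ j)⁻¹) * (a ^ i * x * (a ^ i)⁻¹) := by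
  rcases lt_or_gt_of_ne hij with h | h
  · obtain ⟨d, rfl⟩ : ∃ d, j = i + d := ⟨j - i, by omega⟩
    exact norm_cc_le hcc hx hy i d (fun hd => by have := Nat.le_of_dvd (by omega) hd; omega)
  · obtain ⟨d, rfl⟩ : ∃ d, i = j + d := ⟨i - j, by omega⟩
    exact (norm_cc_le hcc hy hx j d (fun hd => by have := Nat.le_of_dvd (by omega) hd; omega)).symm

/-- an element commuting with all factors commutes with the norm. -/
theorem norm_commute_of (a k z : G) (m : ℕ)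
    (h : ∀ i < m, (a ^ i * k * (a ^ i)⁻¹) * z = z * (a ^ i * k * (a ^ i)⁻¹)) :
    nr a k m * z = z * nr a k m := by
  induction m with
  | zero => simp [nr]
  | succ m ih =>
    have h1 := ih (fun i hi => h i (by omega))
    have h2 := h m (by omega)
    change nr a k m * (a ^ m * k * (a ^ m)⁻¹) * z = z * (nr a k m * (a ^ m * k * (a ^ m)⁻¹))
    rw [mul_assoc, h2, ← mul_assoc, h1, mul_assoc]

/-- [NORM] properties of the norm. -/
theorem nr_mul {a : G} (hcc : ∀ i : ℕ, ¬ p ∣ i → CC K (cj K (a ^ i))) {k h : G} (hk : k ∈ K)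
    (hh : h ∈ K) (n : ℕ) (hn : n ≤ p) : nr a (k * h) n = nr a k n * nr a h n := by
  induction n with
  | zero => simp [nr]
  | succ n ih =>
    have h1 := ih (by omega)
    have h2 : nr a h n * (a ^ n * k * (a ^ n)⁻¹) = (a ^ n * k * (a ^ n)⁻¹) * nr a h n :=
      norm_commute_of a h _ n (fun i hi => norm_cc hcc hh hk (by omega) (by omega) (by omega))
    change nr a (k * h) n * (a ^ n * (k * h) * (a ^ n)⁻¹)
      = nr a k n * (a ^ n * k * (a ^ n)⁻¹) * (nr a h n * (a ^ n * h * (a ^ n)⁻¹))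
    have h3 : a ^ n * (k * h) * (a ^ n)⁻¹ = (a ^ n * k * (a ^ n)⁻¹) * (a ^ n * h * (a ^ n)⁻¹) := by
      group
    rw [h1, h3, mul_assoc (nr a k n) (nr a h n), ← mul_assoc (nr a h n), h2]
    simp only [mul_assoc]

theorem norm_shift (a k : G) (n : ℕ) : k * (a * nr a k n * a⁻¹) = nr a k (n + 1) := by
  induction n with
  | zero => simp [nr]
  | succ n ih =>
    have h1 : nr a k (n + 1 + 1) = nr a k (n + 1) * (a ^ (n + 1) * k * (a ^ (n + 1))⁻¹) := rfl
    have h2 : nr a k (n + 1) = nr a k n * (a ^ n * k * (a ^ n)⁻¹) := rfl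
    calc k * (a * nr a k (n + 1) * a⁻¹)
        = k * (a * (nr a k n * (a ^ n * k * (a ^ n)⁻¹)) * a⁻¹) := by rw [h2]
      _ = (k * (a * nr a k n * a⁻¹)) * (a * (a ^ n * k * (a ^ n)⁻¹) * a⁻¹) := by group
      _ = nr a k (n + 1) * (a ^ (n + 1) * k * (a ^ (n + 1))⁻¹) := by
          rw [ih]
          congr 1
          rw [pow_succ']
          group
      _ = _ := h1.symm

theorem nr_conj_a {a : G} (hap : a ^ p = 1) (hcc : ∀ i : ℕ, ¬ p ∣ i → CC K (cj K (a ^ i))) {k : G}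
    (hk : k ∈ K) : a * nr a k p * a⁻¹ = nr a k p := by
  have hp : 2 ≤ p := (Fact.out : p.Prime).two_le
  obtain ⟨m, rfl⟩ : ∃ m, p = m + 1 := ⟨p - 1, by omega⟩
  have h1 : nr a k (m + 1) = nr a k m * (a ^ m * k * (a ^ m)⁻¹) := rfl
  have ham : a * a ^ m = 1 := by rw [← pow_succ', hap]
  have h2 : a * (a ^ m * k * (a ^ m)⁻¹) * a⁻¹ = k := by
    have : a * (a ^ m * k * (a ^ m)⁻¹) * a⁻¹ = (a * a ^ m) * k * (a * a ^ m)⁻¹ := by group
    rw [this, ham]; simp
  have h3 : nr a k m * (a ^ m * k * (a ^ m)⁻¹) = (a ^ m * k * (a ^ m)⁻¹) * nr a k m :=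
    norm_commute_of a k _ m (fun i hi => norm_cc hcc hk hk (by omega) (by omega) (by omega))
  conv_lhs => rw [h1, h3]
  rw [← norm_shift a k m]
  have : a * (a ^ m * k * (a ^ m)⁻¹ * nr a k m) * a⁻¹
      = (a * (a ^ m * k * (a ^ m)⁻¹) * a⁻¹) * (a * nr a k m * a⁻¹) := by group
  rw [this, h2]

theorem nr_conj_b {a b : G} (hab : a * b = b * a) (k : G) (n : ℕ) :
    b * nr a k n * b⁻¹ = nr a (b * k * b⁻¹) n := by
  induction n with
  | zero => simp [nr]
  | succ n ih =>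
    have h1 : nr a k (n + 1) = nr a k n * (a ^ n * k * (a ^ n)⁻¹) := rfl
    have h2 : nr a (b * k * b⁻¹) (n + 1)
        = nr a (b * k * b⁻¹) n * (a ^ n * (b * k * b⁻¹) * (a ^ n)⁻¹) := rfl
    have h3 : a ^ n * b = b * a ^ n := (Commute.pow_left (show Commute a b from hab) n).eq
    have h4 : a ^ n * (b * k * b⁻¹) * (a ^ n)⁻¹ = b * (a ^ n * k * (a ^ n)⁻¹) * b⁻¹ := by
      calc a ^ n * (b * k * b⁻¹) * (a ^ n)⁻¹ = (a ^ n * b) * k * (a ^ n * b)⁻¹ := by group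
        _ = (b * a ^ n) * k * (b * a ^ n)⁻¹ := by rw [h3]
        _ = _ := by group
    rw [h1, h2, ← ih, h4]
    group

theorem nr_split {a : G} (hp : p ≠ 2) (hcc : ∀ i : ℕ, ¬ p ∣ i → CC K (cj K (a ^ i))) {k : G}
    (hk : k ∈ K) : ∃ s : G, nr a k p = (a * k * a⁻¹) * s ∧ ∀ g ∈ cj K a, s * g = g * s := by
  have hp2 : 2 ≤ p := (Fact.out : p.Prime).two_le
  have key : ∀ n, 2 ≤ n → n ≤ p → ∀ g ∈ cj K a,
      ((a * k * a⁻¹)⁻¹ * nr a k n) * g = g * ((a * k * a⁻¹)⁻¹ * nr a k n) := by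
    intro n hn
    induction n, hn using Nat.le_induction with
    | base =>
      intro _ g hg
      have h0 : k * (a * k * a⁻¹) = (a * k * a⁻¹) * k := by
        have := norm_cc hcc hk hk (i := 0) (j := 1) (by omega) (by omega) (by omega)
        simpa using this
      have h1 : (a * k * a⁻¹)⁻¹ * nr a k 2 = k := by
        have : nr a k 2 = k * (a * k * a⁻¹) := by simp [nr]
        rw [this, h0]; group
      rw [h1]
      have := hcc 1 (fun h => by have := Nat.le_of_dvd (by omega) h; omega) k hk g (by simpa using hg)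
      exact this
    | succ n hn ih =>
      intro hnp g hg
      have h1 := ih (by omega) g hg
      obtain ⟨y, hy, rfl⟩ := hg
      have h2 : (a ^ n * k * (a ^ n)⁻¹) * (a * y * a⁻¹) = (a * y * a⁻¹) * (a ^ n * k * (a ^ n)⁻¹) := by
        have := norm_cc hcc hk hy (i := n) (j := 1) (by omega) (by omega) (by omega)
        simpa using this
      have h3 : nr a k (n + 1) = nr a k n * (a ^ n * k * (a ^ n)⁻¹) := rfl
      change _ * (a * y * a⁻¹) = (a * y * a⁻¹) * _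
      change _ * (a * y * a⁻¹) = (a * y * a⁻¹) * _ at h1
      rw [h3]
      generalize a * y * a⁻¹ = g at h1 h2 ⊢
      generalize a ^ n * k * (a ^ n)⁻¹ = c at h2 ⊢
      calc (a * k * a⁻¹)⁻¹ * (nr a k n * c) * g = (a * k * a⁻¹)⁻¹ * nr a k n * (c * g) := by
            simp only [mul_assoc]
        _ = ((a * k * a⁻¹)⁻¹ * nr a k n * g) * c := by rw [h2]; simp only [mul_assoc]
        _ = _ := by rw [h1]; simp only [mul_assoc]
  refine ⟨(a * k * a⁻¹)⁻¹ * nr a k p, by group, key p hp2 le_rfl⟩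

/-- `nr_comm` for indices below `p` (no hypothesis on the order of `a`). -/
theorem nr_comm_lt {a : G} (hcc : ∀ i : ℕ, ¬ p ∣ i → CC K (cj K (a ^ i))) {k : G} (hk : k ∈ K)
    (i : ℕ) (hi : i < p) :
    (a ^ i * k * (a ^ i)⁻¹) * nr a k p = nr a k p * (a ^ i * k * (a ^ i)⁻¹) := by
  refine (norm_commute_of a k _ p (fun j hj => ?_)).symm
  by_cases hij : j = i
  · rw [hij]
  · exact norm_cc hcc hk hk hj hi hij

/-- `nr_comm` for all indices; needs `a ^ p = 1`. -/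
theorem nr_comm {a : G} (hap : a ^ p = 1) (hcc : ∀ i : ℕ, ¬ p ∣ i → CC K (cj K (a ^ i))) {k : G}
    (hk : k ∈ K) (i : ℕ) :
    (a ^ i * k * (a ^ i)⁻¹) * nr a k p = nr a k p * (a ^ i * k * (a ^ i)⁻¹) := by
  have hp : 0 < p := (Fact.out : p.Prime).pos
  have h1 : a ^ i = a ^ (i % p) := by
    conv_lhs => rw [← Nat.mod_add_div i p, pow_add, pow_mul, hap, one_pow, mul_one]
  rw [h1]
  exact nr_comm_lt hcc hk _ (Nat.mod_lt _ hp)

end Cfsg.Agent.Lib.Helper12.PGV
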