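import Cfsg.Agent.Lib.Helper12.PGV.HALF

set_option autoImplicit false

namespace Cfsg.Agent.Lib.Helper12.PGV

variable {G V : Type*} [Group G] [Finite G] [AddCommGroup V] [Finite V] {p : ℕ} [Fact p.Prime]
  [Module (ZMod p) V] {ρ : Representation (ZMod p) G V} {A K : Subgroup G}

/-- [PEQ] -/
theorem peq (A' : Subgroup G) (hq : ∀ b ∈ A', ∀ b' ∈ A', QQ ρ b b') {b : G} (hb : b ∈ A')
    (hcard : Nat.card (Fx ρ {b}) ^ 2 = Nat.card V) : Fx ρ {b} = Fx ρ (A' : Set G) := by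
  have h1 := half_card (ρ b - 1 : V →ₗ[ZMod p] V) ⊤
  rw [half_ker, inf_top_eq] at h1
  have htop : Nat.card ↥(⊤ : Submodule (ZMod p) V) = Nat.card V :=
    Nat.card_congr (Submodule.topEquiv (R := ZMod p) (M := V)).toEquiv
  rw [htop, ← hcard, pow_two] at h1
  have hpos : 0 < Nat.card (Fx ρ {b}) := Nat.card_pos
  have h2 : Nat.card ↥((⊤ : Submodule (ZMod p) V).map (ρ b - 1 : V →ₗ[ZMod p] V)) =
      Nat.card (Fx ρ {b}) := Nat.eq_of_mul_eq_mul_left hpos h1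
  have hle1 : (⊤ : Submodule (ZMod p) V).map (ρ b - 1 : V →ₗ[ZMod p] V) ≤ Fx ρ (A' : Set G) := by
    rintro _ ⟨v, _, rfl⟩ x hx
    simp only [LinearMap.sub_apply, Module.End.one_apply]
    exact hq x hx b hb v
  have hle2 : Fx ρ (A' : Set G) ≤ Fx ρ {b} :=
    tim_Fx_anti (by intro x hx; rw [Set.mem_singleton_iff.1 hx]; exact hb)
  symm
  apply tim_eq_of_card hle2
  apply le_antisymm (tim_card_le hle2)
  rw [← h2]
  exact tim_card_le hle1

end Cfsg.Agent.Lib.Helper12.PGV
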