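import Cfsg.Agent.Lib.Helper12.PGV.Defs

set_option autoImplicit false

namespace Cfsg.Agent.Lib.Helper12.PGV

variable {G V : Type*} [Group G] [Finite G] [AddCommGroup V] [Finite V] {p : ℕ} [Fact p.Prime]
  [Module (ZMod p) V] {ρ : Representation (ZMod p) G V} {A K : Subgroup G}

theorem pow_cj_pow {G : Type*} [Group G] (K : Subgroup G) {g : G} (h : cj K g = K) (n : ℕ) :
    cj K (g ^ n) = K := by
  induction n with
  | zero =>
    ext x
    simp [cj]
  | succ n ih =>
    have h1 : cj K (g ^ (n + 1)) = cj (cj K g) (g ^ n) := by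
      ext x
      constructor
      · rintro ⟨k, hk, rfl⟩
        refine ⟨g * k * g⁻¹, ⟨k, hk, by simp⟩, ?_⟩
        simp [pow_succ, mul_assoc]
      · rintro ⟨_, ⟨k, hk, rfl⟩, rfl⟩
        refine ⟨k, hk, ?_⟩
        simp [pow_succ, mul_assoc]
    rw [h1, h, ih]

/-- [POW] -/
theorem pow_cc (d : Dat ρ A K) {a : G} (ha : a ∈ A) (hm : cj K a ≠ K) :
    ∀ i : ℕ, ¬ p ∣ i → CC K (cj K (a ^ i)) := by
  have hp : p.Prime := Fact.out
  intro i hi
  rcases d.dich (a ^ i) (A.pow_mem ha i) with h | h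
  · exfalso
    apply hm
    have hcop : i.Coprime (orderOf a) := by
      have h1 : orderOf a ∣ p := orderOf_dvd_of_pow_eq_one (d.exp a ha)
      have h2 : i.Coprime p := ((Nat.Prime.coprime_iff_not_dvd hp).mpr hi).symm
      exact Nat.Coprime.coprime_dvd_right h1 h2
    obtain ⟨m, hm'⟩ := exists_pow_eq_self_of_coprime hcop
    have := pow_cj_pow K h m
    rwa [hm'] at this
  · exact h

end Cfsg.Agent.Lib.Helper12.PGV
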