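import Cfsg.Agent.Lib.Helper12.PGV.T1
import Cfsg.Agent.Lib.Helper28.Components

set_option autoImplicit false
set_option linter.unusedSectionVars false

namespace Cfsg.Agent.Lib.Helper12.PGV

variable {G V : Type*} [Group G] [Finite G] [AddCommGroup V] [Finite V] {p : ℕ} [Fact p.Prime]
  [Module (ZMod p) V] {ρ : Representation (ZMod p) G V} {K : Subgroup G}

/-- the elements of K whose image commutes with ρ(K) -/
def t3N (ρ : Representation (ZMod p) G V) (K : Subgroup G) : Subgroup K where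
  carrier := {x | RC ρ K x}
  one_mem' := by
    intro k _
    simp
  mul_mem' := by
    intro a b ha hb k hk
    have h1 := ha k hk
    have h2 := hb k hk
    rw [Subgroup.coe_mul, map_mul, mul_assoc, h2, ← mul_assoc, h1, mul_assoc]
  inv_mem' := by
    intro a ha k hk
    have h1 := ha k hk
    have h2 : ρ ((a : G)⁻¹) * ρ (a : G) = 1 := by rw [← map_mul, inv_mul_cancel, map_one]
    have h3 : ρ (a : G) * ρ ((a : G)⁻¹) = 1 := by rw [← map_mul, mul_inv_cancel, map_one]
    rw [Subgroup.coe_inv]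
    calc ρ ((a : G)⁻¹) * ρ k = ρ ((a : G)⁻¹) * ρ k * (ρ (a : G) * ρ ((a : G)⁻¹)) := by
          rw [h3, mul_one]
      _ = ρ ((a : G)⁻¹) * (ρ k * ρ (a : G)) * ρ ((a : G)⁻¹) := by simp only [mul_assoc]
      _ = ρ ((a : G)⁻¹) * (ρ (a : G) * ρ k) * ρ ((a : G)⁻¹) := by rw [h1]
      _ = (ρ ((a : G)⁻¹) * ρ (a : G)) * ρ k * ρ ((a : G)⁻¹) := by simp only [mul_assoc]
      _ = ρ k * ρ ((a : G)⁻¹) := by rw [h2, one_mul]

theorem t3N_normal : (t3N ρ K).Normal := by
  refine ⟨fun n hn g => ?_⟩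
  intro k hk
  -- ρ (g n g⁻¹) = ρ n since ρ n commutes with ρ g
  have h1 : ρ ((g * n * g⁻¹ : K) : G) = ρ (n : G) := by
    have h2 := hn g g.2
    rw [Subgroup.coe_mul, Subgroup.coe_mul, Subgroup.coe_inv, map_mul, map_mul, ← h2, mul_assoc,
      ← map_mul, mul_inv_cancel, map_one, mul_one]
  rw [h1]
  exact hn k hk

/-- [T3] x ∈ K with ρ x commuting with ρ(K) is central in K. -/
theorem t3 (hK : Cfsg.IsQuasisimple K) (nt : ∃ k ∈ K, ρ k ≠ 1) {x : G} (hx : x ∈ K)
    (h : RC ρ K x) : Cen K x := by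
  have hn : (t3N ρ K).Normal := t3N_normal
  rcases Cfsg.Agent.Lib.Helper28.IsQuasisimple.normal_eq_top_or_le_center hK (t3N ρ K) with h1 | h1
  · exfalso
    obtain ⟨k, hk, hk1⟩ := nt
    apply hk1
    have h2 := t1 (ρ := ρ) hK ⊤ (fun _ _ _ _ => Submodule.mem_top) (by
      intro a ha b hb w _
      have h3 : (⟨a, ha⟩ : K) ∈ t3N ρ K := by rw [h1]; exact Subgroup.mem_top _
      have h4 := h3 b hb
      rw [← Module.End.mul_apply, ← Module.End.mul_apply]
      exact congrArg (fun f => f w) h4)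
    ext w
    rw [h2 k hk w Submodule.mem_top, Module.End.one_apply]
  · intro k hk
    have h2 : (⟨x, hx⟩ : K) ∈ Subgroup.center K := h1 h
    have h3 := Subgroup.mem_center_iff.mp h2 ⟨k, hk⟩
    exact (congrArg Subtype.val h3).symm

end Cfsg.Agent.Lib.Helper12.PGV
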