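import Cfsg.Agent.Lib.Helper12.PGV.NORM
import Cfsg.Agent.Lib.Helper12.PGV.QS3
import Cfsg.Agent.Lib.Helper12.PGV.T3

set_option autoImplicit false
set_option linter.unusedSectionVars false
set_option linter.unusedVariables false

namespace Cfsg.Agent.Lib.Helper12.PGV

variable {G V : Type*} [Group G] [Finite G] [AddCommGroup V] [Finite V] {p : ℕ} [Fact p.Prime]
  [Module (ZMod p) V] {ρ : Representation (ZMod p) G V} {A K : Subgroup G}

theorem qodd_fix (E : Subgroup G) [Fintype E] (hcomm : ∀ u ∈ E, ∀ v ∈ E, u * v = v * u) (b : G)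
    (hb : ∀ e ∈ E, b * e * b⁻¹ ∈ E) {x : G} (hx : x ∈ E) :
    ρ (x⁻¹ * (b * x * b⁻¹)) * ∑ e : E, ρ ((e : G)⁻¹ * (b * e * b⁻¹))
      = ∑ e : E, ρ ((e : G)⁻¹ * (b * e * b⁻¹)) := by
  rw [Finset.mul_sum]
  rw [← Equiv.sum_comp (Equiv.mulLeft (⟨x, hx⟩ : E)) (fun e : E => ρ ((e : G)⁻¹ * (b * e * b⁻¹)))]
  refine Finset.sum_congr rfl fun e _ => ?_
  rw [← map_mul]
  congr 1
  have h1 : ((Equiv.mulLeft (⟨x, hx⟩ : E)) e : G) = x * e := rfl
  rw [h1]
  have h2 : (e : G)⁻¹ * (x⁻¹ * (b * x * b⁻¹)) = (x⁻¹ * (b * x * b⁻¹)) * (e : G)⁻¹ :=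
    hcomm _ (E.inv_mem e.2) _ (E.mul_mem (E.inv_mem hx) (hb x hx))
  calc x⁻¹ * (b * x * b⁻¹) * ((e : G)⁻¹ * (b * e * b⁻¹))
      = ((x⁻¹ * (b * x * b⁻¹)) * (e : G)⁻¹) * (b * e * b⁻¹) := by simp only [mul_assoc]
    _ = ((e : G)⁻¹ * (x⁻¹ * (b * x * b⁻¹))) * (b * e * b⁻¹) := by rw [h2]
    _ = _ := by group

theorem qodd_sum (E : Subgroup G) [Fintype E] (b : G) :
    (∑ e : E, ρ ((e : G)⁻¹ * (b * e * b⁻¹))) * ρ b = ∑ e : E, ρ (e : G)⁻¹ * ρ b * ρ (e : G) := by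
  rw [Finset.sum_mul]
  refine Finset.sum_congr rfl fun e _ => ?_
  rw [← map_mul, ← map_mul, ← map_mul]
  congr 1
  group

theorem qodd_core (hp : p ≠ 2) (E : Subgroup G) (hcomm : ∀ u ∈ E, ∀ v ∈ E, u * v = v * u) {a : G}
    (ha : ∀ e ∈ E, a * e * a⁻¹ ∈ E) (ha' : ∀ e ∈ E, a⁻¹ * e * a⁻¹⁻¹ ∈ E)
    (hcard : ¬ p ∣ Nat.card E) (hq : QQ ρ a a) {x : G} (hx : x ∈ E) :
    ρ (x⁻¹ * (a * x * a⁻¹)) = 1 := by
  classical
  have : Fintype E := Fintype.ofFinite E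
  have hpp : p.Prime := Fact.out
  have h3 : ρ a + ρ a⁻¹ = (2 : ZMod p) • (1 : Module.End (ZMod p) V) := by
    ext v
    have h := hq (ρ a⁻¹ v)
    have h' : ρ a (ρ a⁻¹ v) = v := by
      rw [← Module.End.mul_apply, ← map_mul, mul_inv_cancel, map_one, Module.End.one_apply]
    rw [h', map_sub, h'] at h
    rw [LinearMap.add_apply, LinearMap.smul_apply, Module.End.one_apply, two_smul]
    have : ρ a v + ρ a⁻¹ v = (ρ a v - v) + v + ρ a⁻¹ v := by abel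
    rw [this, h]
    abel
  have h4 : (∑ e : E, ρ ((e : G)⁻¹ * (a * e * a⁻¹))) * ρ a
      + (∑ e : E, ρ ((e : G)⁻¹ * (a⁻¹ * e * a⁻¹⁻¹))) * ρ a⁻¹
      = (((Fintype.card E : ℕ) : ZMod p) * 2) • (1 : Module.End (ZMod p) V) := by
    rw [qodd_sum, qodd_sum, ← Finset.sum_add_distrib]
    have : ∀ e : E, ρ (e : G)⁻¹ * ρ a * ρ (e : G) + ρ (e : G)⁻¹ * ρ a⁻¹ * ρ (e : G)
        = (2 : ZMod p) • (1 : Module.End (ZMod p) V) := by
      intro e
      rw [← add_mul, ← mul_add, h3, mul_smul_comm, mul_one, smul_mul_assoc, ← map_mul,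
        inv_mul_cancel, map_one]
    rw [Finset.sum_congr rfl (fun e _ => this e), Finset.sum_const, Finset.card_univ,
      ← Nat.cast_smul_eq_nsmul (ZMod p), smul_smul]
  have hc : (((Fintype.card E : ℕ) : ZMod p) * 2) ≠ 0 := by
    apply mul_ne_zero
    · rw [Ne, ZMod.natCast_eq_zero_iff, ← Nat.card_eq_fintype_card]
      exact hcard
    · have : (2 : ZMod p) = ((2 : ℕ) : ZMod p) := by norm_num
      rw [this, Ne, ZMod.natCast_eq_zero_iff]
      intro h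
      exact hp ((Nat.prime_dvd_prime_iff_eq hpp Nat.prime_two).mp h)
  have h5 := qodd_fix (ρ := ρ) E hcomm a ha hx
  have hx' : a * x⁻¹ * a⁻¹ ∈ E := ha _ (E.inv_mem hx)
  have h6 := qodd_fix (ρ := ρ) E hcomm a⁻¹ ha' hx'
  have h7 : (a * x⁻¹ * a⁻¹)⁻¹ * (a⁻¹ * (a * x⁻¹ * a⁻¹) * a⁻¹⁻¹) = x⁻¹ * (a * x * a⁻¹) := by
    have h8 : (a * x⁻¹ * a⁻¹)⁻¹ * (a⁻¹ * (a * x⁻¹ * a⁻¹) * a⁻¹⁻¹) = (a * x * a⁻¹) * x⁻¹ := by group
    rw [h8]
    exact hcomm _ (ha x hx) _ (E.inv_mem hx)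
  rw [h7] at h6
  have h9 : ρ (x⁻¹ * (a * x * a⁻¹)) * ((((Fintype.card E : ℕ) : ZMod p) * 2) •
      (1 : Module.End (ZMod p) V)) = (((Fintype.card E : ℕ) : ZMod p) * 2) • 1 := by
    rw [← h4]
    generalize ρ (x⁻¹ * (a * x * a⁻¹)) = T at h5 h6 ⊢
    rw [mul_add, ← mul_assoc, ← mul_assoc, h5, h6]
  rw [mul_smul_comm, mul_one] at h9
  exact smul_right_injective _ hc h9

/-- [QODD] a quadratic element of order p ≥ 3 cannot move K. -/
theorem qodd (hp : p ≠ 2) (hK : Cfsg.IsQuasisimple K) (nt : ∃ k ∈ K, ρ k ≠ 1) {a : G}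
    (hap : a ^ p = 1) (hcc : ∀ i : ℕ, ¬ p ∣ i → CC K (cj K (a ^ i))) (hq : QQ ρ a a) : False := by
  have hpp : p.Prime := Fact.out
  obtain ⟨x, hx, hxp, hxn⟩ := qs3 p hK
  set S : Set G := Set.range (fun i : ℕ => a ^ i * x * (a ^ i)⁻¹) with hS
  have hmod : ∀ i : ℕ, a ^ i = a ^ (i % p) := by
    intro i
    conv_lhs => rw [← Nat.mod_add_div i p, pow_add, pow_mul, hap, one_pow, mul_one]
  have hScomm : ∀ u ∈ S, ∀ v ∈ S, u * v = v * u := by
    rintro _ ⟨i, rfl⟩ _ ⟨j, rfl⟩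
    change a ^ i * x * (a ^ i)⁻¹ * (a ^ j * x * (a ^ j)⁻¹) = a ^ j * x * (a ^ j)⁻¹ * (a ^ i * x * (a ^ i)⁻¹)
    rw [hmod i, hmod j]
    by_cases hij : i % p = j % p
    · rw [hij]
    · exact norm_cc hcc hx hx (Nat.mod_lt _ hpp.pos) (Nat.mod_lt _ hpp.pos) hij
  set E : Subgroup G := Subgroup.closure S with hE
  have hcomm : ∀ u ∈ E, ∀ v ∈ E, u * v = v * u := by
    intro u hu v hv
    have := (Subgroup.closureCommGroupOfComm hScomm).mul_comm ⟨u, hu⟩ ⟨v, hv⟩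
    exact congrArg Subtype.val this
  have ha : ∀ e ∈ E, a * e * a⁻¹ ∈ E := by
    intro e he
    induction he using Subgroup.closure_induction with
    | mem y hy =>
      obtain ⟨i, rfl⟩ := hy
      apply Subgroup.subset_closure
      refine ⟨i + 1, ?_⟩
      change a ^ (i + 1) * x * (a ^ (i + 1))⁻¹ = a * (a ^ i * x * (a ^ i)⁻¹) * a⁻¹
      rw [pow_succ']
      group
    | one => simp
    | mul y z _ _ hy hz =>
      have : a * (y * z) * a⁻¹ = (a * y * a⁻¹) * (a * z * a⁻¹) := by group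
      rw [this]
      exact E.mul_mem hy hz
    | inv y _ hy =>
      have : a * y⁻¹ * a⁻¹ = (a * y * a⁻¹)⁻¹ := by group
      rw [this]
      exact E.inv_mem hy
  have han : ∀ n : ℕ, ∀ e ∈ E, a ^ n * e * (a ^ n)⁻¹ ∈ E := by
    intro n
    induction n with
    | zero => intro e he; simpa using he
    | succ n ih =>
      intro e he
      have : a ^ (n + 1) * e * (a ^ (n + 1))⁻¹ = a * (a ^ n * e * (a ^ n)⁻¹) * a⁻¹ := by
        rw [pow_succ']; group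
      rw [this]
      exact ha _ (ih e he)
  have hainv : a⁻¹ = a ^ (p - 1) := by
    have h1 : a ^ (p - 1) * a = 1 := by
      rw [← pow_succ, Nat.sub_add_cancel hpp.one_le, hap]
    exact (eq_inv_of_mul_eq_one_left h1).symm
  have ha' : ∀ e ∈ E, a⁻¹ * e * a⁻¹⁻¹ ∈ E := by
    intro e he
    rw [hainv]
    exact han _ e he
  have hexp : ∀ e ∈ E, e ^ orderOf x = 1 := by
    intro e he
    induction he using Subgroup.closure_induction with
    | mem y hy =>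
      obtain ⟨i, rfl⟩ := hy
      change (a ^ i * x * (a ^ i)⁻¹) ^ orderOf x = 1
      rw [conj_pow, pow_orderOf_eq_one]
      group
    | one => simp
    | mul y z hy' hz' hy hz =>
      rw [(show Commute y z from hcomm y hy' z hz').mul_pow, hy, hz, one_mul]
    | inv y _ hy => rw [inv_pow, hy, inv_one]
  have hcard : ¬ p ∣ Nat.card E := by
    intro h
    obtain ⟨e, he⟩ := exists_prime_orderOf_dvd_card' p h
    have h1 : e ^ orderOf x = 1 := Subtype.ext (by simpa using hexp e e.2)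
    have h2 : p ∣ orderOf x := by
      rw [← he]
      exact orderOf_dvd_of_pow_eq_one h1
    have h3 : p ∣ Nat.gcd (orderOf x) p := Nat.dvd_gcd h2 dvd_rfl
    rw [hxp] at h3
    exact hpp.one_lt.ne' (Nat.dvd_one.mp h3)
  have hxE : x ∈ E := by
    apply Subgroup.subset_closure
    exact ⟨0, by simp⟩
  have h1 := qodd_core (ρ := ρ) hp E hcomm ha ha' hcard hq hxE
  have h2 : ρ x = ρ (a * x * a⁻¹) := by
    have : ρ (a * x * a⁻¹) = ρ x * ρ (x⁻¹ * (a * x * a⁻¹)) := by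
      rw [← map_mul]; congr 1; group
    rw [this, h1, mul_one]
  apply hxn
  apply t3 hK nt hx
  intro k hk
  have h3 : k * (a * x * a⁻¹) = (a * x * a⁻¹) * k := by
    have := hcc 1 (fun h => hpp.one_lt.ne' (Nat.dvd_one.mp h)) k hk (a * x * a⁻¹)
      ⟨x, hx, by simp⟩
    exact this
  rw [h2, ← map_mul, ← map_mul, h3]

end Cfsg.Agent.Lib.Helper12.PGV
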