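import Cfsg.Agent.Lib.Helper12.PGV.T1
import Cfsg.Agent.Lib.Helper12.PGV.T7
import Cfsg.Agent.Lib.Helper12.PGV.QQS
import Cfsg.Agent.Lib.Helper12.PGV.QSC
import Cfsg.Agent.Lib.Helper12.PGV.SYM

set_option autoImplicit false
set_option linter.unusedSectionVars false

namespace Cfsg.Agent.Lib.Helper12.PGV

variable {G V : Type*} [Group G] [Finite G] [AddCommGroup V] [Finite V] {p : ℕ} [Fact p.Prime]
  [Module (ZMod p) V] {ρ : Representation (ZMod p) G V} {K : Subgroup G}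

theorem r2a_mul (g h : G) (v : V) : ρ (g * h) v = ρ g (ρ h v) := by
  rw [map_mul]; rfl

/-- the subgroup of all `m` with `[V,m] ≤ W` -/
def r2aM (ρ : Representation (ZMod p) G V) (W : Submodule (ZMod p) V) : Subgroup G where
  carrier := {m | ∀ v, ρ m v - v ∈ W}
  one_mem' := by intro v; simp
  mul_mem' := by
    intro a b ha hb v
    have e : ρ (a * b) v - v = (ρ a (ρ b v) - ρ b v) + (ρ b v - v) := by
      rw [r2a_mul]; abel
    rw [e]
    exact W.add_mem (ha _) (hb _)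
  inv_mem' := by
    intro a ha v
    have e : ρ a⁻¹ v - v = -(ρ a (ρ a⁻¹ v) - ρ a⁻¹ v) := by
      rw [t1_inv_apply]; abel
    rw [e]
    exact W.neg_mem (ha _)

theorem mem_r2aM {W : Submodule (ZMod p) V} {m : G} : m ∈ r2aM ρ W ↔ ∀ v, ρ m v - v ∈ W := Iff.rfl

/-- [R2A] K_c fixes [V,K] pointwise. -/
theorem r2a {a c : G} (P : Pair2 ρ K a) (hac : a * c = c * a) (h1 : CC K (cj K c))
    (h2 : CC K (cj K (a * c))) : ∀ g ∈ cj K c, ∀ k ∈ K, QQ ρ g k := by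
  have hai : a⁻¹ = a := inv_eq_of_mul_eq_one_left P.a2
  -- `K_a` and `K_c` commute
  have hac' : CC (cj K a) (cj K c) := by
    intro x hx y hy
    obtain ⟨k, hk, rfl⟩ := sym_mem_cj.1 hx
    obtain ⟨l, hl, rfl⟩ := sym_mem_cj.1 hy
    have h3 := h2 k hk ((a * c) * l * (a * c)⁻¹) (sym_mem_cj.2 ⟨l, hl, rfl⟩)
    have e1 : c * l * c⁻¹ = a * ((a * c) * l * (a * c)⁻¹) * a⁻¹ := by
      have : a * ((a * c) * l * (a * c)⁻¹) * a⁻¹ = (a * a) * (c * l * c⁻¹) * (a * a)⁻¹ := by group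
      rw [this, P.a2]; simp
    rw [e1]
    calc a * k * a⁻¹ * (a * ((a * c) * l * (a * c)⁻¹) * a⁻¹)
        = a * (k * ((a * c) * l * (a * c)⁻¹)) * a⁻¹ := by group
      _ = a * (((a * c) * l * (a * c)⁻¹) * k) * a⁻¹ := by rw [h3]
      _ = _ := by group
  -- `a K_c a⁻¹` and `K_c` commute
  have hcc' : ∀ x ∈ cj K c, ∀ y ∈ cj K c, (a * x * a⁻¹) * y = y * (a * x * a⁻¹) := by
    intro x hx y hy
    obtain ⟨k, hk, rfl⟩ := sym_mem_cj.1 hx
    obtain ⟨l, hl, rfl⟩ := sym_mem_cj.1 hy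
    have h3 := P.cm l hl (a * k * a⁻¹) (sym_mem_cj.2 ⟨k, hk, rfl⟩)
    have e1 : a * (c * k * c⁻¹) * a⁻¹ = c * (a * k * a⁻¹) * c⁻¹ := by
      calc a * (c * k * c⁻¹) * a⁻¹ = (a * c) * k * (a * c)⁻¹ := by group
        _ = (c * a) * k * (c * a)⁻¹ := by rw [hac]
        _ = _ := by group
    rw [e1]
    calc c * (a * k * a⁻¹) * c⁻¹ * (c * l * c⁻¹) = c * ((a * k * a⁻¹) * l) * c⁻¹ := by group
      _ = c * (l * (a * k * a⁻¹)) * c⁻¹ := by rw [h3]
      _ = _ := by group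
  -- the space `Y`
  let Y : Submodule (ZMod p) V :=
    Submodule.span (ZMod p) {w | ∃ k ∈ K, ∃ v : V, w = ρ (k * (a * k * a⁻¹)) v - v}
  have hda : ∀ k ∈ K, a * (k * (a * k * a⁻¹)) = (k * (a * k * a⁻¹)) * a := by
    intro k hk
    have h3 := P.cm k hk (a * k * a⁻¹) (sym_mem_cj.2 ⟨k, hk, rfl⟩)
    calc a * (k * (a * k * a⁻¹)) = (a * k * a⁻¹) * ((a * a) * k * a⁻¹) := by group
      _ = (a * k * a⁻¹) * k * a := by rw [P.a2, hai]; group
      _ = (k * (a * k * a⁻¹)) * a := by rw [h3]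
  have haY : ∀ u ∈ Y, ρ a u = u := by
    intro u hu
    induction hu using Submodule.span_induction with
    | mem w hw =>
      obtain ⟨k, hk, v, rfl⟩ := hw
      exact qqs (hda k hk).symm (P.dc k hk) v
    | zero => simp
    | add x y _ _ hx hy => rw [map_add, hx, hy]
    | smul r x _ hx => rw [map_smul, hx]
  have hYinv : ∀ g ∈ cj K c, ∀ u ∈ Y, ρ g u ∈ Y := by
    intro g hg u hu
    induction hu using Submodule.span_induction with
    | mem w hw =>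
      obtain ⟨k, hk, v, rfl⟩ := hw
      apply Submodule.subset_span
      refine ⟨k, hk, ρ g v, ?_⟩
      have e1 : g * (k * (a * k * a⁻¹)) = (k * (a * k * a⁻¹)) * g := by
        have e2 := h1 k hk g hg
        have e3 := hac' (a * k * a⁻¹) (sym_mem_cj.2 ⟨k, hk, rfl⟩) g hg
        calc g * (k * (a * k * a⁻¹)) = (g * k) * (a * k * a⁻¹) := by group
          _ = k * (g * (a * k * a⁻¹)) := by rw [← e2]; group
          _ = k * ((a * k * a⁻¹) * g) := by rw [e3]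
          _ = _ := by group
      rw [map_sub, ← r2a_mul, e1, r2a_mul]
    | zero => simp
    | add x y _ _ hx hy => rw [map_add]; exact Y.add_mem hx hy
    | smul r x _ hx => rw [map_smul]; exact Y.smul_mem r hx
  have hconj : ∀ g ∈ cj K c, ∀ u ∈ Y, ρ (a * g * a⁻¹) u = ρ g u := by
    intro g hg u hu
    rw [hai, r2a_mul, r2a_mul, haY u hu, haY _ (hYinv g hg u hu)]
  have hfix : ∀ g ∈ cj K c, ∀ u ∈ Y, ρ g u = u := by
    apply t1 (qsc P.qs c) Y hYinv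
    intro k hk h hh w hw
    rw [← hconj k hk _ (hYinv h hh w hw), ← r2a_mul, hcc' k hk h hh, r2a_mul, hconj k hk w hw]
  -- the kernel trick
  have hKM : K ≤ r2aM ρ (Fx ρ (cj K c : Set G)) := by
    have hdM : ∀ k ∈ K, k * (a * k * a⁻¹) ∈ r2aM ρ (Fx ρ (cj K c : Set G)) := by
      intro k hk v g hg
      exact hfix g hg _ (Submodule.subset_span ⟨k, hk, v, rfl⟩)
    have hMc : ∀ h ∈ K, ∀ m ∈ r2aM ρ (Fx ρ (cj K c : Set G)),
        h * m * h⁻¹ ∈ r2aM ρ (Fx ρ (cj K c : Set G)) := by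
      intro h hh m hm v g hg
      have e1 : ρ (h * m * h⁻¹) v - v = ρ h (ρ m (ρ h⁻¹ v) - ρ h⁻¹ v) := by
        rw [map_sub, t1_inv_apply, r2a_mul, r2a_mul]
      rw [e1, ← r2a_mul, ← h1 h hh g hg, r2a_mul, hm (ρ h⁻¹ v) g hg]
    apply t7 P.qs
    intro k hk h hh
    have e1 : k * h * k⁻¹ * h⁻¹ =
        (k * (a * k * a⁻¹)) * (h * (k * (a * k * a⁻¹))⁻¹ * h⁻¹) := by
      have e2 := P.cm h hh (a * k * a⁻¹) (sym_mem_cj.2 ⟨k, hk, rfl⟩)
      calc k * h * k⁻¹ * h⁻¹ = k * (h * (a * k * a⁻¹)) * (a * k * a⁻¹)⁻¹ * k⁻¹ * h⁻¹ := by group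
        _ = k * ((a * k * a⁻¹) * h) * (a * k * a⁻¹)⁻¹ * k⁻¹ * h⁻¹ := by rw [e2]
        _ = _ := by group
    rw [e1]
    exact mul_mem (hdM k hk) (hMc h hh _ (inv_mem (hdM k hk)))
  intro g hg k hk v
  exact hKM hk v g hg

end Cfsg.Agent.Lib.Helper12.PGV
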