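import Cfsg.Agent.Lib.Helper12.PGV.T2
import Cfsg.Agent.Lib.Helper12.PGV.T5
import Cfsg.Agent.Lib.Helper12.PGV.QQS

set_option autoImplicit false

namespace Cfsg.Agent.Lib.Helper12.PGV

variable {G V : Type*} [Group G] [Finite G] [AddCommGroup V] [Finite V] {p : ℕ} [Fact p.Prime]
  [Module (ZMod p) V] {ρ : Representation (ZMod p) G V} {A K : Subgroup G}

/-- `ρ g [V,X] ≤ [V,Y]` when `g X g⁻¹ ⊆ Y`. -/
theorem s6c_cm_map (g : G) {X Y : Set G} (h : ∀ x ∈ X, g * x * g⁻¹ ∈ Y) :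
    ∀ w ∈ Cm ρ X, ρ g w ∈ Cm ρ Y := by
  have hle : Cm ρ X ≤ (Cm ρ Y).comap (ρ g) := by
    apply Submodule.span_le.2
    rintro _ ⟨x, hx, v, rfl⟩
    show ρ g (ρ x v - v) ∈ Cm ρ Y
    have e : ρ g (ρ x v - v) = ρ (g * x * g⁻¹) (ρ g v) - ρ g v := by
      rw [map_sub, ← Module.End.mul_apply, ← Module.End.mul_apply, ← map_mul, ← map_mul]
      congr 3
      group
    rw [e]
    exact Submodule.subset_span ⟨_, h x hx, _, rfl⟩
  exact fun w hw => hle hw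

/-- the subgroup of the elements acting trivially on `W / C` (`C ≤ W`). -/
def s6cM (ρ : Representation (ZMod p) G V) (C W : Submodule (ZMod p) V) (hCW : C ≤ W) : Subgroup G :=
  let S : Submonoid G :=
    { carrier := {m | ∀ w ∈ W, ρ m w - w ∈ C}
      one_mem' := by intro w _; simp
      mul_mem' := by
        intro m m' hm hm' w hw
        have h1 := hm' w hw
        have h2 := hm _ (hCW h1)
        have h3 := hm w hw
        have e : ρ (m * m') w - w = (ρ m (ρ m' w - w) - (ρ m' w - w)) + (ρ m' w - w) + (ρ m w - w) := by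
          rw [map_mul, Module.End.mul_apply, map_sub]; abel
        rw [e]
        exact C.add_mem (C.add_mem h2 h1) h3 }
  { S with
    inv_mem' := by
      intro m hm
      have : m⁻¹ = m ^ (orderOf m - 1) := by
        apply inv_eq_of_mul_eq_one_right
        rw [← pow_succ', Nat.sub_add_cancel (orderOf_pos m), pow_orderOf_eq_one]
      rw [this]
      exact S.pow_mem hm _ }

theorem mem_s6cM {C W : Submodule (ZMod p) V} {hCW : C ≤ W} {m : G} :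
    m ∈ s6cM ρ C W hCW ↔ ∀ w ∈ W, ρ m w - w ∈ C := Iff.rfl

/-- [S6C] induced type is impossible (any p). -/
theorem s6c (hK : Cfsg.IsQuasisimple K) (nt : ∃ k ∈ K, ρ k ≠ 1) {a b : G} (hcm : CC K (cj K a))
    (hb : cj K b = K) (hab : a * b = b * a) (hnc : ¬ RC ρ K b) (hq : QQ ρ b a)
    (h01 : ∀ g ∈ cj K a, ∀ k ∈ K, QQ ρ g k) : False := by
  set V₀ := Cm ρ (K : Set G) with hV₀
  set V₁ := Cm ρ (cj K a : Set G) with hV₁
  set C := Fx ρ (K : Set G) ⊓ V₀ with hC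
  have hCW : C ≤ V₀ := inf_le_right
  have hbK : ∀ k ∈ K, b * k * b⁻¹ ∈ K := by
    intro k hk
    rw [← hb]
    exact ⟨k, hk, rfl⟩
  -- invariance
  have F1 : ∀ k ∈ K, ∀ w ∈ V₀, ρ k w ∈ V₀ := by
    intro k hk w hw
    exact s6c_cm_map k (fun x hx => K.mul_mem (K.mul_mem hk hx) (K.inv_mem hk)) w hw
  have F2 : ∀ w ∈ V₀, ρ b w ∈ V₀ := s6c_cm_map b hbK
  have F3 : ∀ w ∈ V₀, ρ a w ∈ V₁ := s6c_cm_map a (fun x hx => ⟨x, hx, rfl⟩)
  have F4 : ∀ w ∈ V₁, ρ b w ∈ V₁ := by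
    apply s6c_cm_map b
    rintro _ ⟨k, hk, rfl⟩
    refine ⟨b * k * b⁻¹, hbK k hk, ?_⟩
    simp only [MulEquiv.coe_toMonoidHom, MulAut.conj_apply]
    have hab' : a⁻¹ * b⁻¹ = b⁻¹ * a⁻¹ := by rw [← mul_inv_rev, ← mul_inv_rev, hab]
    calc a * (b * k * b⁻¹) * a⁻¹ = (a * b) * k * (b⁻¹ * a⁻¹) := by group
      _ = (b * a) * k * (a⁻¹ * b⁻¹) := by rw [hab, hab']
      _ = b * (a * k * a⁻¹) * b⁻¹ := by group
  have F5 : V₁ ≤ Fx ρ (K : Set G) := by
    apply Submodule.span_le.2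
    rintro _ ⟨g, hg, v, rfl⟩ k hk
    exact qqs (hcm k hk g hg).symm (h01 g hg k hk) v
  have hβ : ∀ w ∈ V₀, ρ b w - w ∈ C := by
    intro w hw
    refine ⟨?_, V₀.sub_mem (F2 w hw) hw⟩
    have e : ρ b w - w = ρ b (ρ a w) - ρ a w := by
      have := hq w
      rw [map_sub] at this
      have e2 : ρ b w - w = (ρ b (ρ a w) - ρ a w) - (ρ b (ρ a w) - ρ b w - (ρ a w - w)) := by abel
      rw [e2, this]; abel
    rw [e]
    exact F5 (V₁.sub_mem (F4 _ (F3 w hw)) (F3 w hw))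
  set M := s6cM ρ C V₀ hCW with hM
  have hbM : b ∈ M := hβ
  have hconj : ∀ k ∈ K, ∀ m ∈ M, k * m * k⁻¹ ∈ M := by
    intro k hk m hm w hw
    have h1 : ρ k⁻¹ w ∈ V₀ := F1 _ (K.inv_mem hk) w hw
    have h2 := hm _ h1
    have e : ρ (k * m * k⁻¹) w - w = ρ k (ρ m (ρ k⁻¹ w) - ρ k⁻¹ w) := by
      rw [map_sub, map_mul, map_mul, Module.End.mul_apply, Module.End.mul_apply, t1_inv_apply]
    rw [e, h2.1 k hk]
    exact h2
  have hKM : K ≤ M := by
    refine t5 (ρ := ρ) hK hb hnc M (fun k hk m hm _ => hconj k hk m hm) ?_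
    intro k hk
    have h1 := hconj k⁻¹ (K.inv_mem hk) b hbM
    rw [inv_inv] at h1
    have e : k⁻¹ * (b * k * b⁻¹) = (k⁻¹ * b * k) * b⁻¹ := by group
    rw [e]
    exact M.mul_mem h1 (M.inv_mem hbM)
  have h1 : ∀ k ∈ K, ∀ w ∈ V₀, ρ k w = w :=
    t2 hK C V₀ hCW (fun k hk u hu => hu.1 k hk) (fun k hk w hw => hKM hk w hw)
  have h2 : ∀ k ∈ K, ∀ w ∈ (⊤ : Submodule (ZMod p) V), ρ k w = w :=
    t2 hK V₀ ⊤ le_top h1 (fun k hk w _ => Submodule.subset_span ⟨k, hk, w, rfl⟩)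
  obtain ⟨k, hk, hne⟩ := nt
  apply hne
  ext v
  exact h2 k hk v trivial

end Cfsg.Agent.Lib.Helper12.PGV
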