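import Cfsg.Agent.Lib.Helper12.PGV.T1

set_option autoImplicit false
set_option linter.unusedSectionVars false

namespace Cfsg.Agent.Lib.Helper12.PGV

variable {G V : Type*} [Group G] [Finite G] [AddCommGroup V] [Finite V] {p : ℕ} [Fact p.Prime]
  [Module (ZMod p) V] {ρ : Representation (ZMod p) G V} {K : Subgroup G}

/-- [T2] K stabilises the chain 0 ≤ U ≤ W ⇒ K fixes W pointwise (from t1). -/
theorem t2 (hK : Cfsg.IsQuasisimple K) (U W : Submodule (ZMod p) V) (hUW : U ≤ W)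
    (hU : ∀ k ∈ K, ∀ u ∈ U, ρ k u = u) (hW : ∀ k ∈ K, ∀ w ∈ W, ρ k w - w ∈ U) :
    ∀ k ∈ K, ∀ w ∈ W, ρ k w = w := by
  have key : ∀ k ∈ K, ∀ h ∈ K, ∀ w ∈ W, ρ k (ρ h w) = ρ k w + (ρ h w - w) := by
    intro k hk h hh w hw
    have h1 : ρ h w = w + (ρ h w - w) := by abel
    conv_lhs => rw [h1, map_add, hU k hk _ (hW h hh w hw)]
  apply t1 hK W
  · intro k hk w hw
    have h1 : ρ k w = w + (ρ k w - w) := by abel
    rw [h1]
    exact W.add_mem hw (hUW (hW k hk w hw))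
  · intro k hk h hh w hw
    rw [key k hk h hh w hw, key h hh k hk w hw]
    abel

end Cfsg.Agent.Lib.Helper12.PGV
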