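import Cfsg.Agent.Lib.Helper12.PGV.R2A
import Cfsg.Agent.Lib.Helper12.PGV.L1C
import Cfsg.Agent.Lib.Helper12.PGV.CONJ
import Cfsg.Agent.Lib.Helper12.PGV.S6C
import Cfsg.Agent.Lib.Helper12.PGV.C2
import Cfsg.Agent.Lib.Helper12.PGV.QS3
import Cfsg.Agent.Lib.Helper12.PGV.T2

set_option autoImplicit false
set_option linter.unusedSectionVars false
set_option linter.unusedVariables false

namespace Cfsg.Agent.Lib.Helper12.PGV

variable {G V : Type*} [Group G] [Finite G] [AddCommGroup V] [Finite V] {p : ℕ} [Fact p.Prime]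
  [Module (ZMod p) V] {ρ : Representation (ZMod p) G V} {K : Subgroup G}

/-- [R2B] more than two conjugates is impossible. -/
theorem r2b (hp : p = 2) {a c : G} (P : Pair2 ρ K a) (hc2 : c * c = 1) (hac : a * c = c * a)
    (h1 : CC K (cj K c)) (h2 : CC K (cj K (a * c))) (hq : QQ ρ a c)
    (h : ∀ g ∈ cj K c, ∀ k ∈ K, QQ ρ g k) : False := by
  have hai : a⁻¹ = a := inv_eq_of_mul_eq_one_left P.a2
  obtain ⟨x, hx, hxp, hxn⟩ := qs3 p P.qs
  have hxodd : Odd (orderOf x) := by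
    rw [hp] at hxp
    exact Nat.coprime_two_right.1 hxp
  obtain ⟨l1, l2, l3⟩ := l1c hp P hx hxodd hxn
  have hbot : Fx ρ (K : Set G) ⊓ Cm ρ (K : Set G) = ⊥ := by
    rw [← l1, ← l3]
    exact (c2 hxp).2
  have P' := pair2_conj P hac
  obtain ⟨x', hx', hxp', hxn'⟩ := qs3 p P'.qs
  have hxodd' : Odd (orderOf x') := by
    rw [hp] at hxp'
    exact Nat.coprime_two_right.1 hxp'
  obtain ⟨-, l2', -⟩ := l1c hp P' hx' hxodd' hxn'
  -- `K` fixes `[V, K_c]` pointwise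
  have hfix : Cm ρ (cj K c : Set G) ≤ Fx ρ (K : Set G) := by
    apply Submodule.span_le.2
    rintro _ ⟨g, hg, v, rfl⟩ k hk
    exact qqs (h1 k hk g hg).symm (h g hg k hk) v
  have ha1 : ∀ w ∈ Cm ρ (K : Set G), ρ a w ∈ Cm ρ (K : Set G) := by
    intro w hw
    rw [l2]
    exact s6c_cm_map a (X := (K : Set G)) (Y := (cj K a : Set G))
      (fun k hk => sym_mem_cj.2 ⟨k, hk, rfl⟩) w hw
  have ha2 : ∀ w ∈ Cm ρ (cj K c : Set G), ρ a w ∈ Cm ρ (cj K c : Set G) := by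
    intro w hw
    rw [l2']
    exact s6c_cm_map a (X := (cj K c : Set G)) (Y := (cj (cj K c) a : Set G))
      (fun k hk => sym_mem_cj.2 ⟨k, hk, rfl⟩) w hw
  have hc1 : ∀ w ∈ Cm ρ (K : Set G), ρ c w ∈ Cm ρ (cj K c : Set G) := by
    intro w hw
    exact s6c_cm_map c (X := (K : Set G)) (Y := (cj K c : Set G))
      (fun k hk => sym_mem_cj.2 ⟨k, hk, rfl⟩) w hw
  -- `a` fixes `[V,K]` pointwise
  have hafix : ∀ v ∈ Cm ρ (K : Set G), ρ a v = v := by
    intro v hv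
    have e1 := hq v
    rw [map_sub] at e1
    have e2 : ρ a v - v = ρ a (ρ c v) - ρ c v := by
      have := sub_eq_iff_eq_add.1 e1
      rw [this]; abel
    have m1 : ρ a v - v ∈ Cm ρ (K : Set G) := Submodule.sub_mem _ (ha1 v hv) hv
    have m2 : ρ a v - v ∈ Fx ρ (K : Set G) := by
      rw [e2]
      exact hfix (Submodule.sub_mem _ (ha2 _ (hc1 v hv)) (hc1 v hv))
    have m3 : ρ a v - v ∈ Fx ρ (K : Set G) ⊓ Cm ρ (K : Set G) := ⟨m2, m1⟩
    rw [hbot, Submodule.mem_bot] at m3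
    exact sub_eq_zero.1 m3
  have hsub : ∀ k ∈ K, ∀ w : V, ρ k w - w ∈ Cm ρ (K : Set G) := fun k hk w =>
    Submodule.subset_span ⟨k, hk, w, rfl⟩
  have hinv : ∀ k ∈ K, ∀ w ∈ Cm ρ (K : Set G), ρ k w ∈ Cm ρ (K : Set G) := by
    intro k hk w hw
    have : ρ k w = (ρ k w - w) + w := by abel
    rw [this]
    exact Submodule.add_mem _ (hsub k hk w) hw
  have hconj : ∀ k ∈ K, ∀ u ∈ Cm ρ (K : Set G), ρ (a * k * a⁻¹) u = ρ k u := by
    intro k hk u hu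
    rw [hai, r2a_mul, r2a_mul, hafix u hu, hafix _ (hinv k hk u hu)]
  have hKfix : ∀ k ∈ K, ∀ w ∈ Cm ρ (K : Set G), ρ k w = w := by
    apply t1 P.qs _ hinv
    intro k hk h' hh' w hw
    rw [← hconj k hk _ (hinv h' hh' w hw), ← r2a_mul,
      ← P.cm h' hh' (a * k * a⁻¹) (sym_mem_cj.2 ⟨k, hk, rfl⟩), r2a_mul, hconj k hk w hw]
  have htriv := t2 P.qs (Cm ρ (K : Set G)) ⊤ le_top hKfix (fun k hk w _ => hsub k hk w)
  obtain ⟨k, hk, hne⟩ := P.nt
  apply hne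
  ext v
  exact htriv k hk v Submodule.mem_top

end Cfsg.Agent.Lib.Helper12.PGV
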