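import Cfsg.Agent.Lib.Helper12.PGV.Defs
import Cfsg.Agent.Lib.Helper28.Components
import Cfsg.Agent.S3087

set_option autoImplicit false

namespace Cfsg.Agent.Lib.Helper12.PGV

/-- restriction of a representation to an invariant subspace -/
def reduceRes {H V : Type*} [Group H] [AddCommGroup V] {p : ℕ} [Module (ZMod p) V]
    (ρ : Representation (ZMod p) H V) (U : Submodule (ZMod p) V)
    (hU : ∀ h : H, ∀ u ∈ U, ρ h u ∈ U) : Representation (ZMod p) H U where
  toFun h := (ρ h).restrict (hU h)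
  map_one' := by ext u; simp
  map_mul' := by intro a b; ext u; simp

theorem reduceRes_apply {H V : Type*} [Group H] [AddCommGroup V] {p : ℕ} [Module (ZMod p) V]
    (ρ : Representation (ZMod p) H V) (U : Submodule (ZMod p) V)
    (hU : ∀ h : H, ∀ u ∈ U, ρ h u ∈ U) (h : H) (u : U) :
    ((reduceRes ρ U hU h u : U) : V) = ρ h (u : V) := rfl

theorem reduce_core {H V : Type*} [Group H] [Finite H] [AddCommGroup V] [Finite V] (p : ℕ)
    [Fact p.Prime] [Module (ZMod p) V] (ρ : Representation (ZMod p) H V)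
    (A : Subgroup H) (hcomm : ∀ a ∈ A, ∀ b ∈ A, a * b = b * a) (hexp : ∀ a ∈ A, a ^ p = 1)
    (hP : ∀ B : Subgroup H, B ≤ A →
      Nat.card ↥B * Nat.card {v : V // ∀ b ∈ B, ρ b v = v} ≤
        Nat.card ↥A * Nat.card {v : V // ∀ a ∈ A, ρ a v = v})
    (K : Subgroup H) (hK : Cfsg.IsComponent K)
    (hgen : Subgroup.closure ((K : Set H) ∪ (A : Set H)) = ⊤) (hnt : ∃ k ∈ K, ρ k ≠ 1) :
    ∃ (U : Submodule (ZMod p) V) (ρ' : Representation (ZMod p) H U), Dat ρ' A K := by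
  let S : Set (Submodule (ZMod p) V) :=
    {U | (∀ h : H, ∀ u ∈ U, ρ h u ∈ U) ∧ ∃ k ∈ K, ∃ u ∈ U, ρ k u ≠ u}
  have hS : S.Nonempty := by
    refine ⟨⊤, fun _ _ _ => Submodule.mem_top, ?_⟩
    obtain ⟨k, hk, hk1⟩ := hnt
    refine ⟨k, hk, ?_⟩
    by_contra hcon
    apply hk1
    ext u
    by_contra hu
    exact hcon ⟨u, Submodule.mem_top, hu⟩
  obtain ⟨U, hUS, hmin⟩ := WellFounded.has_min
    (wellFounded_lt : WellFounded ((· < ·) : Submodule (ZMod p) V → Submodule (ZMod p) V → Prop))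
    S hS
  obtain ⟨hU, k₀, hk₀, u₀, hu₀, hku₀⟩ := hUS
  refine ⟨U, reduceRes ρ U hU, ?_⟩
  have hfix : ∀ (h : H) (u : U), reduceRes ρ U hU h u = u ↔ ρ h (u : V) = u := by
    intro h u
    rw [Subtype.ext_iff, reduceRes_apply]
  have hcard : ∀ B : Subgroup H, Nat.card (Fx (reduceRes ρ U hU) (B : Set H)) =
      Nat.card {w : U // ∀ b ∈ B, ρ b w = w} := by
    intro B
    apply Nat.card_congr
    apply Equiv.subtypeEquivRight
    intro w
    rw [mem_Fx]
    constructor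
    · intro h b hb
      exact (hfix b w).mp (h b hb)
    · intro h b hb
      exact (hfix b w).mpr (h b hb)
  refine ⟨hcomm, hexp, hK.2, ?_, ?_, hgen, ?_, ?_⟩
  · intro a _
    by_cases h : cj K a = K
    · exact Or.inl h
    · right
      have hc := Cfsg.Agent.Lib.Helper28.IsComponent.commutator_eq_bot_of_ne hK
        (Cfsg.Agent.Lib.Helper28.isComponent_map_equiv (MulAut.conj a) hK) (Ne.symm h)
      rw [Subgroup.commutator_eq_bot_iff_le_centralizer] at hc
      intro x hx y hy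
      exact (Subgroup.mem_centralizer_iff.mp (hc hx) y hy).symm
  · intro B hBA hAz
    rw [hcard, hcard]
    apply Cfsg.Agent.S3087.result p ρ U hU A hP B hBA
    intro a ha hfa
    apply hAz
    refine Subgroup.mem_inf.mpr ⟨ha, ?_⟩
    rw [mem_Fixer]
    intro w _
    exact (hfix a w).mpr (hfa w w.2)
  · refine ⟨k₀, hk₀, ?_⟩
    intro hcon
    apply hku₀
    have := (hfix k₀ ⟨u₀, hu₀⟩).mp (by rw [hcon]; rfl)
    exact this
  · intro U' hinv hne k hk u hu
    rw [hfix]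
    by_contra hcon
    have hlt : U'.map U.subtype < U := by
      refine lt_of_le_of_ne (Submodule.map_subtype_le U U') ?_
      intro heq
      apply hne
      rw [eq_top_iff]
      intro x _
      have hx : (x : V) ∈ U'.map U.subtype := by rw [heq]; exact x.2
      obtain ⟨y, hy, hyx⟩ := Submodule.mem_map.mp hx
      have : y = x := Subtype.ext hyx
      rwa [← this]
    apply hmin (U'.map U.subtype) _ hlt
    refine ⟨?_, k, hk, (u : V), Submodule.mem_map.mpr ⟨u, hu, rfl⟩, hcon⟩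
    intro h w hw
    obtain ⟨y, hy, rfl⟩ := Submodule.mem_map.mp hw
    exact Submodule.mem_map.mpr ⟨reduceRes ρ U hU h y, hinv h y hy, rfl⟩

theorem reduce_aux {G V : Type*} [Group G] [Finite G] [AddCommGroup V] [Finite V] (p : ℕ)
    [Fact p.Prime]
    [Module (ZMod p) V] (ρ : Representation (ZMod p) G V) (hρ : Function.Injective ρ)
    (A : Subgroup G) (hAel : Cfsg.IsElementaryAbelian p A)
    (hP : ∀ B : Subgroup G, B ≤ A →
      Nat.card ↥B * Nat.card {v : V // ∀ b ∈ B, ρ b v = v} ≤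
        Nat.card ↥A * Nat.card {v : V // ∀ a ∈ A, ρ a v = v})
    (K : Subgroup G) (hK : Cfsg.IsComponent K)
    (a₀ : G) (ha₀ : a₀ ∈ A) (hm : cj K a₀ ≠ K) (H : Subgroup G) (hKH : K ≤ H) (hAH : A ≤ H)
    (hgen : Subgroup.closure (((K.subgroupOf H : Subgroup H) : Set H) ∪
        ((A.subgroupOf H : Subgroup H) : Set H)) = ⊤) :
    ∃ (U : Submodule (ZMod p) V) (ρ' : Representation (ZMod p) H U),
      Dat ρ' (A.subgroupOf H) (K.subgroupOf H) ∧
        ∃ a ∈ A.subgroupOf H, cj (K.subgroupOf H) a ≠ K.subgroupOf H := by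
  have htr : ∀ B : Subgroup H,
      Nat.card B * Nat.card {v : V // ∀ b ∈ B, (ρ.comp H.subtype) b v = v} =
      Nat.card (B.map H.subtype) * Nat.card {v : V // ∀ b ∈ B.map H.subtype, ρ b v = v} := by
    intro B
    congr 1
    · exact Nat.card_congr (B.equivMapOfInjective H.subtype H.subtype_injective).toEquiv
    · apply Nat.card_congr
      apply Equiv.subtypeEquivRight
      intro v
      constructor
      · rintro h _ ⟨b, hb, rfl⟩
        exact h b hb
      · intro h b hb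
        exact h b ⟨b, hb, rfl⟩
  have h1 : ∀ a ∈ A.subgroupOf H, ∀ b ∈ A.subgroupOf H, a * b = b * a := by
    intro a ha b hb
    have := hAel.1.is_comm.comm (⟨(a : G), ha⟩ : A) ⟨(b : G), hb⟩
    have h' : (a : G) * (b : G) = (b : G) * (a : G) := congrArg (Subtype.val : A → G) this
    exact Subtype.ext h'
  have h2 : ∀ a ∈ A.subgroupOf H, a ^ p = 1 := by
    intro a ha
    apply Subtype.ext
    rw [Subgroup.coe_pow, Subgroup.coe_one]
    exact hAel.2 (a : G) ha
  have h3 : ∀ B : Subgroup H, B ≤ A.subgroupOf H →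
      Nat.card ↥B * Nat.card {v : V // ∀ b ∈ B, (ρ.comp H.subtype) b v = v} ≤
        Nat.card ↥(A.subgroupOf H) *
          Nat.card {v : V // ∀ a ∈ A.subgroupOf H, (ρ.comp H.subtype) a v = v} := by
    intro B hB
    rw [htr, htr, Subgroup.map_subgroupOf_eq_of_le hAH]
    apply hP
    rw [Subgroup.map_le_iff_le_comap]
    exact hB
  have h5 : ∃ k ∈ K.subgroupOf H, (ρ.comp H.subtype) k ≠ 1 := by
    have hne : K ≠ ⊥ := by
      rintro rfl
      exact hm (Subgroup.map_bot _)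
    obtain ⟨k, hk, hk1⟩ := (Subgroup.ne_bot_iff_exists_ne_one).mp hne |>.elim
      (fun k hk => (⟨(k : G), k.2, fun h => hk (Subtype.ext h)⟩ : ∃ k ∈ K, k ≠ 1))
    refine ⟨⟨k, hKH hk⟩, hk, ?_⟩
    intro hcon
    apply hk1
    apply hρ
    rw [map_one]
    exact hcon
  obtain ⟨U, ρ', hD⟩ := reduce_core p (ρ.comp H.subtype) (A.subgroupOf H) h1 h2 h3
    (K.subgroupOf H) (Cfsg.Agent.Lib.Helper28.isComponent_subgroupOf hKH hK) hgen h5
  refine ⟨U, ρ', hD, ⟨a₀, hAH ha₀⟩, ha₀, ?_⟩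
  intro hcon
  apply hm
  have hiff : ∀ y : H, y ∈ K.subgroupOf H ↔
      (⟨a₀, hAH ha₀⟩ : H)⁻¹ * y * (⟨a₀, hAH ha₀⟩ : H) ∈ K.subgroupOf H := by
    intro y
    have e1 : y ∈ cj (K.subgroupOf H) ⟨a₀, hAH ha₀⟩ ↔
        (MulAut.conj (⟨a₀, hAH ha₀⟩ : H)).symm y ∈ K.subgroupOf H := Subgroup.mem_map_equiv
    rw [hcon, MulAut.conj_symm_apply] at e1
    exact e1
  have hiff' : ∀ y : G, y ∈ H → (y ∈ K ↔ a₀⁻¹ * y * a₀ ∈ K) := by
    intro y hy
    exact hiff ⟨y, hy⟩
  ext x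
  have e2 : x ∈ cj K a₀ ↔ (MulAut.conj a₀).symm x ∈ K := Subgroup.mem_map_equiv
  rw [e2, MulAut.conj_symm_apply]
  constructor
  · intro hx
    have hxH : x ∈ H := by
      have h1 : a₀ * (a₀⁻¹ * x * a₀) * a₀⁻¹ ∈ H :=
        H.mul_mem (H.mul_mem (hAH ha₀) (hKH hx)) (H.inv_mem (hAH ha₀))
      have e3 : a₀ * (a₀⁻¹ * x * a₀) * a₀⁻¹ = x := by group
      rwa [e3] at h1
    exact (hiff' x hxH).mpr hx
  · intro hx
    exact (hiff' x (hKH hx)).mp hx

/-- [REDUCE] pass to H = ⟨K, A⟩ and to an H-submodule U of V minimal subject to K acting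
nontrivially on it. -/
theorem reduce {G V : Type*} [Group G] [Finite G] [AddCommGroup V] [Finite V] (p : ℕ) [Fact p.Prime]
    [Module (ZMod p) V] (ρ : Representation (ZMod p) G V) (hρ : Function.Injective ρ)
    (A : Subgroup G) (hAel : Cfsg.IsElementaryAbelian p A)
    (hP : ∀ B : Subgroup G, B ≤ A →
      Nat.card ↥B * Nat.card {v : V // ∀ b ∈ B, ρ b v = v} ≤
        Nat.card ↥A * Nat.card {v : V // ∀ a ∈ A, ρ a v = v})
    (K : Subgroup G) (hK : Cfsg.IsComponent K)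
    (a₀ : G) (ha₀ : a₀ ∈ A) (hm : cj K a₀ ≠ K) :
    ∃ (H : Subgroup G) (U : Submodule (ZMod p) V) (ρ' : Representation (ZMod p) H U)
      (A' K' : Subgroup H), Dat ρ' A' K' ∧ ∃ a ∈ A', cj K' a ≠ K' := by
  have hKH : K ≤ Subgroup.closure ((K : Set G) ∪ (A : Set G)) := fun x hx =>
    Subgroup.subset_closure (Or.inl hx)
  have hAH : A ≤ Subgroup.closure ((K : Set G) ∪ (A : Set G)) := fun x hx =>
    Subgroup.subset_closure (Or.inr hx)
  obtain ⟨U, ρ', h⟩ := reduce_aux p ρ hρ A hAel hP K hK a₀ ha₀ hm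
    (Subgroup.closure ((K : Set G) ∪ (A : Set G))) hKH hAH
    (Subgroup.closure_closure_coe_preimage (k := (K : Set G) ∪ (A : Set G)))
  exact ⟨_, U, ρ', _, _, h⟩

end Cfsg.Agent.Lib.Helper12.PGV
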