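import Cfsg.Agent.Lib.Helper12.PGV.Defs
import Cfsg.Agent.Lib.Helper12.PGV.T2

set_option autoImplicit false

namespace Cfsg.Agent.Lib.Helper12.PGV

variable {G V : Type*} [Group G] [Finite G] [AddCommGroup V] [Finite V] {p : ℕ} [Fact p.Prime]
  [Module (ZMod p) V] {ρ : Representation (ZMod p) G V} {A K : Subgroup G}

/-- invariance under `K` and `A` gives invariance under `G`. -/
theorem s1_inv_of_gen (hgen : Subgroup.closure ((K : Set G) ∪ (A : Set G)) = ⊤)
    (U : Submodule (ZMod p) V) (hK : ∀ k ∈ K, ∀ u ∈ U, ρ k u ∈ U)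
    (hA : ∀ a ∈ A, ∀ u ∈ U, ρ a u ∈ U) : ∀ g : G, ∀ u ∈ U, ρ g u ∈ U := by
  have key : ∀ g ∈ Subgroup.closure ((K : Set G) ∪ (A : Set G)),
      (∀ u ∈ U, ρ g u ∈ U) ∧ (∀ u ∈ U, ρ g⁻¹ u ∈ U) := by
    intro g hg
    induction hg using Subgroup.closure_induction with
    | mem x hx =>
      rcases hx with hx | hx
      · exact ⟨hK x hx, hK _ (K.inv_mem hx)⟩
      · exact ⟨hA x hx, hA _ (A.inv_mem hx)⟩
    | one => simp
    | mul x y _ _ hx hy =>
      refine ⟨fun u hu => ?_, fun u hu => ?_⟩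
      · rw [map_mul, Module.End.mul_apply]
        exact hx.1 _ (hy.1 u hu)
      · rw [mul_inv_rev, map_mul, Module.End.mul_apply]
        exact hy.2 _ (hx.2 u hu)
    | inv x _ hx =>
      refine ⟨hx.2, ?_⟩
      rw [inv_inv]
      exact hx.1
  intro g
  exact (key g (by rw [hgen]; trivial)).1

/-- `ρ g [V,X] ≤ [V, g X g⁻¹]`. -/
theorem s1_map_Cm {X Y : Set G} {g : G} (h : ∀ x ∈ X, g * x * g⁻¹ ∈ Y) {w : V} (hw : w ∈ Cm ρ X) :
    ρ g w ∈ Cm ρ Y := by
  have hle : Cm ρ X ≤ (Cm ρ Y).comap (ρ g) := by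
    conv_lhs => unfold Cm
    apply Submodule.span_le.mpr
    rintro _ ⟨x, hx, v, rfl⟩
    show ρ g (ρ x v - v) ∈ Cm ρ Y
    apply Submodule.subset_span
    refine ⟨g * x * g⁻¹, h x hx, ρ g v, ?_⟩
    rw [map_sub]
    congr 1
    rw [← Module.End.mul_apply, ← Module.End.mul_apply, ← map_mul, ← map_mul]
    congr 2
    group
  exact hle hw

theorem s1_sub_mem_Cm {X : Set G} {x : G} (hx : x ∈ X) (v : V) : ρ x v - v ∈ Cm ρ X :=
  Submodule.subset_span ⟨x, hx, v, rfl⟩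

/-- [S1] V = [V,L]. -/
theorem s1 (d : Dat ρ A K) : ⨆ a : A, Cm ρ (cj K (a : G) : Set G) = ⊤ := by
  set U : Submodule (ZMod p) V := ⨆ a : A, Cm ρ (cj K (a : G) : Set G) with hU
  have hle : ∀ a : A, Cm ρ (cj K (a : G) : Set G) ≤ U := fun a =>
    le_iSup (fun a : A => Cm ρ (cj K (a : G) : Set G)) a
  have hinvK : ∀ k ∈ K, ∀ u ∈ U, ρ k u ∈ U := by
    intro k hk
    have h1 : U ≤ U.comap (ρ k) := by
      apply iSup_le
      intro a w hw
      show ρ k w ∈ U
      apply hle a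
      refine s1_map_Cm ?_ hw
      intro x hx
      rcases d.dich a a.2 with h | h
      · rw [h] at hx ⊢
        exact K.mul_mem (K.mul_mem hk hx) (K.inv_mem hk)
      · have := h k hk x hx
        rw [this, mul_inv_cancel_right]
        exact hx
    exact h1
  have hinvA : ∀ b ∈ A, ∀ u ∈ U, ρ b u ∈ U := by
    intro b hb
    have h1 : U ≤ U.comap (ρ b) := by
      apply iSup_le
      intro a w hw
      show ρ b w ∈ U
      apply hle ⟨b * a, A.mul_mem hb a.2⟩
      refine s1_map_Cm ?_ hw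
      rintro x ⟨k, hk, rfl⟩
      refine ⟨k, hk, ?_⟩
      simp [mul_assoc]
    exact h1
  have hinv := s1_inv_of_gen d.gen U hinvK hinvA
  by_contra hne
  have hfix := d.alpha U hinv hne
  obtain ⟨k, hk, hk1⟩ := d.nt
  apply hk1
  have h2 := t2 d.qs U ⊤ le_top hfix (by
    intro k hk w _
    apply hle 1
    apply s1_sub_mem_Cm
    exact ⟨k, hk, by simp⟩)
  ext v
  exact h2 k hk v trivial

end Cfsg.Agent.Lib.Helper12.PGV
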