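import Cfsg.Agent.Lib.Helper12.PGV.Defs
import Cfsg.Agent.Lib.Helper12.PGV.S1
import Cfsg.Agent.Lib.Helper12.PGV.C3
import Cfsg.Agent.Lib.Helper12.PGV.T6
import Cfsg.Agent.Lib.Helper12.PGV.QS3

set_option autoImplicit false

namespace Cfsg.Agent.Lib.Helper12.PGV

variable {G V : Type*} [Group G] [Finite G] [AddCommGroup V] [Finite V] {p : ℕ} [Fact p.Prime]
  [Module (ZMod p) V] {ρ : Representation (ZMod p) G V} {A K : Subgroup G}

/-- [S2] b ∈ A with ρ b commuting with ρ K acts trivially. -/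
theorem s2 (d : Dat ρ A K) {b : G} (hb : b ∈ A) (hc : RC ρ K b) : ρ b = 1 := by
  have hp : p.Prime := Fact.out
  set U : Submodule (ZMod p) V := Fx ρ {b} with hU
  have hinvK : ∀ k ∈ K, ∀ u ∈ U, ρ k u ∈ U := by
    intro k hk u hu x hx
    rw [Set.mem_singleton_iff] at hx
    subst hx
    have h1 := hc k hk
    have h2 : ρ x u = u := hu x rfl
    rw [← Module.End.mul_apply, h1, Module.End.mul_apply, h2]
  have hinvA : ∀ a ∈ A, ∀ u ∈ U, ρ a u ∈ U := by
    intro a ha u hu x hx
    rw [Set.mem_singleton_iff] at hx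
    subst hx
    have h1 := d.comm x hb a ha
    have h2 : ρ x u = u := hu x rfl
    rw [← Module.End.mul_apply, ← map_mul, h1, map_mul, Module.End.mul_apply, h2]
  have hinv := s1_inv_of_gen d.gen U hinvK hinvA
  by_cases htop : U = ⊤
  · ext v
    have : v ∈ U := by rw [htop]; trivial
    exact this b rfl
  exfalso
  have hfix := d.alpha U hinv htop
  have hXp : IsPGroup p (Subgroup.zpowers b) := by
    rintro ⟨x, hx⟩
    refine ⟨1, ?_⟩
    apply Subtype.ext
    obtain ⟨n, rfl⟩ := Subgroup.mem_zpowers_iff.mp hx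
    show (b ^ n) ^ (p ^ 1) = 1
    rw [pow_one, ← zpow_natCast, ← zpow_mul, mul_comm, zpow_mul, zpow_natCast, d.exp b hb, one_zpow]
  have hy1 : ∀ y ∈ K, (orderOf y).Coprime p → ρ y = 1 := by
    intro y hy hyp
    apply c3 (Subgroup.zpowers b) hXp hyp
    · intro x hx
      obtain ⟨n, rfl⟩ := (mem_powers_iff_mem_zpowers).mpr hx
      show ρ (b ^ n) * ρ y = ρ y * ρ (b ^ n)
      rw [map_pow]
      exact (Commute.pow_left (hc y hy) n)
    · intro v hv
      apply hfix y hy
      intro x hx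
      rw [Set.mem_singleton_iff] at hx
      subst hx
      exact hv x (Subgroup.mem_zpowers x)
  obtain ⟨x, hx, hxp, hxn⟩ := qs3 p d.qs
  have hinv' : ∀ g : G, ρ g * ρ g⁻¹ = 1 := by
    intro g; rw [← map_mul]; simp
  have hle : K ≤ Fixer ρ ⊤ := by
    apply t6 d.qs hx hxn
    · intro k hk m hm _ w _
      have h1 : ρ m = 1 := by
        ext v; exact hm v trivial
      rw [map_mul, map_mul, h1, mul_one, hinv']
      rfl
    · intro g hg w _
      have h1 : ρ x = 1 := hy1 x hx hxp
      have h2 : ρ x⁻¹ = 1 := by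
        have := hinv' x
        rwa [h1, one_mul] at this
      rw [map_mul, map_mul, map_mul, h1, h2, mul_one, one_mul, hinv']
      rfl
  obtain ⟨k, hk, hk1⟩ := d.nt
  apply hk1
  ext v
  exact hle hk v trivial

end Cfsg.Agent.Lib.Helper12.PGV
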