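import Cfsg.Agent.Lib.Helper12.PGV.Defs
import Cfsg.Agent.Lib.Helper12.PGV.AZN
import Cfsg.Agent.Lib.Helper12.PGV.C6
import Cfsg.Agent.Lib.Helper12.PGV.TIM

set_option autoImplicit false

namespace Cfsg.Agent.Lib.Helper12.PGV

variable {G V : Type*} [Group G] [Finite G] [AddCommGroup V] [Finite V] {p : ℕ} [Fact p.Prime]
  [Module (ZMod p) V] {ρ : Representation (ZMod p) G V} {A K : Subgroup G}

/-- [S3] A^* acts nontrivially. -/
theorem s3 (d : Dat ρ A K) {a₀ : G} (ha₀ : a₀ ∈ A) (hm : cj K a₀ ≠ K) :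
    ∃ b ∈ Ast ρ A, ρ b ≠ 1 := by
  by_contra hcon
  push Not at hcon
  apply hm
  apply azn d ha₀
  have hAp : IsPGroup p A := by
    rintro ⟨x, hx⟩
    refine ⟨1, ?_⟩
    apply Subtype.ext
    show x ^ (p ^ 1) = 1
    rw [pow_one, d.exp x hx]
  have h1 : Fx ρ (Ast ρ A : Set G) = ⊤ := by
    rw [eq_top_iff]
    intro v _ x hx
    rw [hcon x hx]
    rfl
  have h2 := (tim A d.comm d.bo).2
  rw [h1, top_le_iff] at h2
  have h3 := c6 A hAp (Fx ρ (A : Set G)) (by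
    intro a ha w hw
    rw [hw a ha]
    exact hw) h2
  ext v
  have : v ∈ Fx ρ (A : Set G) := by rw [h3]; trivial
  exact this a₀ ha₀

end Cfsg.Agent.Lib.Helper12.PGV
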