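import Cfsg.Agent.Lib.Helper12.PGV.DCP
import Cfsg.Agent.Lib.Helper12.PGV.QQS
import Cfsg.Agent.Lib.Helper12.PGV.QQC
import Cfsg.Agent.Lib.Helper12.PGV.QSC
import Cfsg.Agent.Lib.Helper12.PGV.T6

set_option autoImplicit false
set_option linter.unusedSectionVars false
set_option linter.unusedVariables false

namespace Cfsg.Agent.Lib.Helper12.PGV

variable {G V : Type*} [Group G] [Finite G] [AddCommGroup V] [Finite V] {p : ℕ} [Fact p.Prime]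
  [Module (ZMod p) V] {ρ : Representation (ZMod p) G V} {A K : Subgroup G}

/-- the subgroup of all `m` fixing `[V,y]` pointwise -/
def s6aM (ρ : Representation (ZMod p) G V) (y : G) : Subgroup G where
  carrier := {m | QQ ρ m y}
  one_mem' := dc2b_QQ_one y
  mul_mem' := fun hx hy => dc2b_QQ_mul hx hy
  inv_mem' := fun hx => dc2b_QQ_inv hx

theorem s6a_conj_comm {g u w : G} (hgu : u * g = g * u) (huw : u * w = w * u) :
    u * (g * w * g⁻¹) = (g * w * g⁻¹) * u := by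
  have h1 : u * g⁻¹ = g⁻¹ * u := by
    calc u * g⁻¹ = g⁻¹ * (g * u) * g⁻¹ := by group
      _ = g⁻¹ * (u * g) * g⁻¹ := by rw [hgu]
      _ = g⁻¹ * u := by group
  calc u * (g * w * g⁻¹) = (u * g) * w * g⁻¹ := by group
    _ = g * (u * w) * g⁻¹ := by rw [hgu]; group
    _ = g * w * (u * g⁻¹) := by rw [huw]; group
    _ = _ := by rw [h1]; group

/-- [S6A] K₁ = aKa⁻¹ fixes [V, x₀⁻¹ x₂] pointwise (third index trick). -/
theorem s6a (hp : p ≠ 2) (hK : Cfsg.IsQuasisimple K) {a : G} (hap : a ^ p = 1)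
    (hcc : ∀ i : ℕ, ¬ p ∣ i → CC K (cj K (a ^ i))) (hdc : ∀ k ∈ K, QQ ρ (nr a k p) a) {x : G}
    (hx : x ∈ K) (hxn : ¬ Cen K x) :
    ∀ g ∈ cj K a, QQ ρ g (x⁻¹ * (a ^ 2 * x * (a ^ 2)⁻¹)) := by
  have hpp : p.Prime := Fact.out
  have hp3 : 3 ≤ p := by
    have := hpp.two_le
    omega
  set δ := nr a x p with hδ
  set x₂ := a ^ 2 * x * (a ^ 2)⁻¹ with hx₂
  -- commutation facts
  have F1 : ∀ g ∈ cj K a, x * g = g * x := by
    intro g hg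
    exact hcc 1 (fun h => hpp.one_lt.ne' (Nat.dvd_one.mp h)) x hx g (by simpa using hg)
  have F2 : ∀ g ∈ cj K a, x₂ * g = g * x₂ := by
    rintro _ ⟨h, hh, rfl⟩
    have := norm_cc hcc hx hh (i := 2) (j := 1) (by omega) (by omega) (by omega)
    simpa using this
  have F3 : x * δ = δ * x := by
    have := nr_comm_lt hcc hx 0 (by omega)
    simpa using this
  have F4 : x₂ * δ = δ * x₂ := nr_comm_lt hcc hx 2 (by omega)
  have F5 : a * δ = δ * a := dcp_comm_a hap hcc hx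
  have key : ∀ g ∈ cj K a, g * δ * g⁻¹ ∈ s6aM ρ (x⁻¹ * x₂) := by
    intro g hg
    have G1 : QQ ρ (g * δ * g⁻¹) (g * a * g⁻¹) := qqc g (hdc x hx)
    have G2 : (g * δ * g⁻¹) * (g * a * g⁻¹) = (g * a * g⁻¹) * (g * δ * g⁻¹) := by
      calc (g * δ * g⁻¹) * (g * a * g⁻¹) = g * (δ * a) * g⁻¹ := by group
        _ = g * (a * δ) * g⁻¹ := by rw [F5]
        _ = _ := by group
    have G3 : QQ ρ (g * a * g⁻¹) (g * δ * g⁻¹) := qqs G2 G1
    have G4 : QQ ρ ((g * a * g⁻¹) * (g * a * g⁻¹)) (g * δ * g⁻¹) := dc2b_QQ_mul G3 G3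
    have G4' : QQ ρ ((g * a * g⁻¹) * (g * a * g⁻¹))⁻¹ (g * δ * g⁻¹) := dc2b_QQ_inv G4
    have G5 : x * (g * δ * g⁻¹) = (g * δ * g⁻¹) * x := s6a_conj_comm (F1 g hg) F3
    have G5' : x₂ * (g * δ * g⁻¹) = (g * δ * g⁻¹) * x₂ := s6a_conj_comm (F2 g hg) F4
    have G6 : ((g * a * g⁻¹) * (g * a * g⁻¹)) * x * ((g * a * g⁻¹) * (g * a * g⁻¹))⁻¹ = x₂ := by
      have h1 : g⁻¹ * x * g = x := by
        rw [mul_assoc, F1 g hg]; group
      have h2 : g * x₂ * g⁻¹ = x₂ := by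
        rw [← F2 g hg]; group
      calc ((g * a * g⁻¹) * (g * a * g⁻¹)) * x * ((g * a * g⁻¹) * (g * a * g⁻¹))⁻¹
          = g * (a ^ 2 * (g⁻¹ * x * g) * (a ^ 2)⁻¹) * g⁻¹ := by rw [pow_two]; group
        _ = g * x₂ * g⁻¹ := by rw [h1]
        _ = x₂ := h2
    have G7 : QQ ρ (x⁻¹ * x₂) (g * δ * g⁻¹) := by
      intro v
      rw [dc2b_rho_mul]
      nth_rewrite 1 [← G6]
      rw [dc2b_rho_mul, dc2b_rho_mul, G4' v, dc2b_pres G5.symm, G4, ← dc2b_pres G5.symm,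
        dc2b_rho_inv]
    have G8 : (x⁻¹ * x₂) * (g * δ * g⁻¹) = (g * δ * g⁻¹) * (x⁻¹ * x₂) := by
      have h1 : x⁻¹ * (g * δ * g⁻¹) = (g * δ * g⁻¹) * x⁻¹ := by
        calc x⁻¹ * (g * δ * g⁻¹) = x⁻¹ * ((g * δ * g⁻¹) * x) * x⁻¹ := by group
          _ = x⁻¹ * (x * (g * δ * g⁻¹)) * x⁻¹ := by rw [G5]
          _ = _ := by group
      rw [mul_assoc, G5', ← mul_assoc, h1, mul_assoc]
    exact qqs G8 G7
  obtain ⟨s, hs, hsc⟩ := nr_split hp hcc hx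
  have hx₁ : a * x * a⁻¹ ∈ cj K a := dc2b_mem_cj hx
  have hle : cj K a ≤ s6aM ρ (x⁻¹ * x₂) := by
    apply t6 (qsc hK a) hx₁
    · intro hcen
      apply hxn
      intro k hk
      have h1 := hcen (a * k * a⁻¹) (dc2b_mem_cj hk)
      calc x * k = a⁻¹ * ((a * x * a⁻¹) * (a * k * a⁻¹)) * a := by group
        _ = a⁻¹ * ((a * k * a⁻¹) * (a * x * a⁻¹)) * a := by rw [h1]
        _ = k * x := by group
    · intro k hk m hm _
      have h1 : QQ ρ (k * m * k⁻¹) (k * (x⁻¹ * x₂) * k⁻¹) := qqc k hm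
      have h2 : k * (x⁻¹ * x₂) * k⁻¹ = x⁻¹ * x₂ := by
        have h3 : k * x⁻¹ = x⁻¹ * k := by
          calc k * x⁻¹ = x⁻¹ * (x * k) * x⁻¹ := by group
            _ = x⁻¹ * (k * x) * x⁻¹ := by rw [F1 k hk]
            _ = _ := by group
        calc k * (x⁻¹ * x₂) * k⁻¹ = (k * x⁻¹) * x₂ * k⁻¹ := by group
          _ = x⁻¹ * (k * x₂) * k⁻¹ := by rw [h3]; group
          _ = x⁻¹ * (x₂ * k) * k⁻¹ := by rw [F2 k hk]
          _ = _ := by group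
      rw [h2] at h1
      exact h1
    · intro g hg
      have h1 := key g hg
      have h2 := key 1 (Subgroup.one_mem _)
      have h3 : (1 * δ * 1⁻¹)⁻¹ * (g * δ * g⁻¹) ∈ s6aM ρ (x⁻¹ * x₂) :=
        Subgroup.mul_mem _ (Subgroup.inv_mem _ h2) h1
      have hw : (a * x * a⁻¹)⁻¹ * (g * (a * x * a⁻¹) * g⁻¹) ∈ cj K a :=
        Subgroup.mul_mem _ (Subgroup.inv_mem _ hx₁)
          (Subgroup.mul_mem _ (Subgroup.mul_mem _ hg hx₁) (Subgroup.inv_mem _ hg))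
      have h4 : (1 * δ * 1⁻¹)⁻¹ * (g * δ * g⁻¹)
          = (a * x * a⁻¹)⁻¹ * (g * (a * x * a⁻¹) * g⁻¹) := by
        have h5 : s * g⁻¹ = g⁻¹ * s := hsc _ (Subgroup.inv_mem _ hg)
        have h6 := hsc _ hw
        rw [hδ, hs]
        calc (1 * (a * x * a⁻¹ * s) * 1⁻¹)⁻¹ * (g * (a * x * a⁻¹ * s) * g⁻¹)
            = s⁻¹ * ((a * x * a⁻¹)⁻¹ * (g * (a * x * a⁻¹))) * (s * g⁻¹) := by group
          _ = s⁻¹ * ((a * x * a⁻¹)⁻¹ * (g * (a * x * a⁻¹))) * (g⁻¹ * s) := by rw [h5]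
          _ = s⁻¹ * (((a * x * a⁻¹)⁻¹ * (g * (a * x * a⁻¹) * g⁻¹)) * s) := by group
          _ = s⁻¹ * (s * ((a * x * a⁻¹)⁻¹ * (g * (a * x * a⁻¹) * g⁻¹))) := by rw [h6]
          _ = _ := by group
      rw [h4] at h3
      exact h3
  intro g hg
  exact hle hg

end Cfsg.Agent.Lib.Helper12.PGV
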