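import Cfsg.Agent.Lib.Helper12.PGV.S6C
import Cfsg.Agent.Lib.Helper12.PGV.T6

set_option autoImplicit false

namespace Cfsg.Agent.Lib.Helper12.PGV

variable {G V : Type*} [Group G] [Finite G] [AddCommGroup V] [Finite V] {p : ℕ} [Fact p.Prime]
  [Module (ZMod p) V] {ρ : Representation (ZMod p) G V} {A K : Subgroup G}

/-- [S6B] K₁ fixes [V,K] pointwise. -/
theorem s6b (hp : p ≠ 2) (hK : Cfsg.IsQuasisimple K) {a : G} (hap : a ^ p = 1)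
    (hcc : ∀ i : ℕ, ¬ p ∣ i → CC K (cj K (a ^ i))) {x : G} (hx : x ∈ K) (hxn : ¬ Cen K x)
    (h : ∀ g ∈ cj K a, QQ ρ g (x⁻¹ * (a ^ 2 * x * (a ^ 2)⁻¹))) :
    ∀ g ∈ cj K a, ∀ k ∈ K, QQ ρ g k := by
  have hpp : p.Prime := Fact.out
  have h1 : CC K (cj K a) := by
    have := hcc 1 (fun hd => hpp.one_lt.ne' (Nat.dvd_one.1 hd))
    rwa [pow_one] at this
  have h2 : CC K (cj K (a ^ 2)) :=
    hcc 2 (fun hd => hp ((Nat.prime_dvd_prime_iff_eq hpp Nat.prime_two).1 hd))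
  set x₂ := a ^ 2 * x * (a ^ 2)⁻¹ with hx₂
  have hx₂m : x₂ ∈ cj K (a ^ 2) := ⟨x, hx, rfl⟩
  set y := x⁻¹ * x₂ with hy
  set C := Fx ρ (cj K a : Set G) with hC
  set M := s6cM ρ C ⊤ le_top with hM
  have hyM : y ∈ M := by
    intro v _ g hg
    exact h g hg v
  have hconj : ∀ k ∈ K, ∀ m ∈ M, k * m * k⁻¹ ∈ M := by
    intro k hk m hm w _
    have h3 := hm (ρ k⁻¹ w) trivial
    have e : ρ (k * m * k⁻¹) w - w = ρ k (ρ m (ρ k⁻¹ w) - ρ k⁻¹ w) := by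
      rw [map_sub, map_mul, map_mul, Module.End.mul_apply, Module.End.mul_apply, t1_inv_apply]
    rw [e]
    intro g hg
    have hgk : ρ g * ρ k = ρ k * ρ g := by rw [← map_mul, ← map_mul, h1 k hk g hg]
    rw [← Module.End.mul_apply, hgk, Module.End.mul_apply, h3 g hg]
  have hxn' : ¬ Cen K x⁻¹ := by
    intro hc
    apply hxn
    intro k hk
    have := hc k hk
    calc x * k = x * (k * x⁻¹) * x := by group
      _ = x * (x⁻¹ * k) * x := by rw [this]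
      _ = k * x := by group
  have hKM : K ≤ M := by
    refine t6 hK (K.inv_mem hx) hxn' M (fun k hk m hm _ => hconj k hk m hm) ?_
    intro g hg
    have e : x⁻¹⁻¹ * (g * x⁻¹ * g⁻¹) = y⁻¹ * (g * y * g⁻¹) := by
      have c1 : g⁻¹ * x₂ = x₂ * g⁻¹ := h2 _ (K.inv_mem hg) _ hx₂m
      have c2 : (x * (g * x⁻¹ * g⁻¹)) * x₂ = x₂ * (x * (g * x⁻¹ * g⁻¹)) :=
        h2 _ (K.mul_mem hx (K.mul_mem (K.mul_mem hg (K.inv_mem hx)) (K.inv_mem hg))) _ hx₂m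
      calc x⁻¹⁻¹ * (g * x⁻¹ * g⁻¹) = x₂⁻¹ * (x₂ * (x * (g * x⁻¹ * g⁻¹))) := by group
        _ = x₂⁻¹ * ((x * (g * x⁻¹ * g⁻¹)) * x₂) := by rw [c2]
        _ = x₂⁻¹ * x * (g * x⁻¹ * (g⁻¹ * x₂)) := by group
        _ = x₂⁻¹ * x * (g * x⁻¹ * (x₂ * g⁻¹)) := by rw [c1]
        _ = y⁻¹ * (g * y * g⁻¹) := by rw [hy]; group
    rw [e]
    exact M.mul_mem (M.inv_mem hyM) (hconj g hg y hyM)
  intro g hg k hk v
  exact hKM hk v trivial g hg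

end Cfsg.Agent.Lib.Helper12.PGV
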