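import Cfsg.Agent.Lib.Helper12.PGV.Defs
import Cfsg.Agent.Lib.Helper76.PermSolvable

set_option autoImplicit false
set_option linter.unusedSectionVars false

namespace Cfsg.Agent.Lib.Helper12.PGV

variable {G V : Type*} [Group G] [Finite G] [AddCommGroup V] [Finite V] {p : ℕ} [Fact p.Prime]
  [Module (ZMod p) V] {ρ : Representation (ZMod p) G V} {K : Subgroup G}

/-- a homomorphism from a perfect group to a solvable group is trivial -/
theorem small_hom_trivial {H S : Type*} [Group H] [Group S] (hH : Group.IsPerfect H)
    (hS : Group.IsSolvable S) (f : H →* S) (h : H) : f h = 1 := by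
  have h1 : Group.IsPerfect f.range := Group.IsPerfect.range f
  have h2 : Group.IsSolvable f.range :=
    Group.isSolvable_of_isSolvable_injective f.range.subtype_injective
  have h3 : Subsingleton f.range := by
    by_contra hne
    rw [not_subsingleton_iff_nontrivial] at hne
    exact Group.IsPerfect.not_isSolvable f.range h2
  have h4 : (⟨f h, h, rfl⟩ : f.range) = 1 := Subsingleton.elim _ _
  exact congrArg Subtype.val h4

/-- [SMALL] -/
theorem small (hK : Cfsg.IsQuasisimple K) (U : Submodule (ZMod p) V)
    (hU : ∀ k ∈ K, ∀ u ∈ U, ρ k u ∈ U) (hcard : Nat.card V ≤ 4 * Nat.card U) :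
    ∀ k ∈ K, ∀ v : V, ρ k v - v ∈ U := by
  classical
  have hle : ∀ k : K, U ≤ U.comap (ρ (k : G)) := fun k u hu => hU k k.2 u hu
  let act : MulAction K (V ⧸ U) :=
    { smul := fun k x => U.mapQ U (ρ (k : G)) (hle k) x
      one_smul := by
        intro x
        induction x using Submodule.Quotient.induction_on with
        | H v =>
          show U.mapQ U (ρ ((1 : K) : G)) (hle 1) (Submodule.Quotient.mk v) = _
          rw [Submodule.mapQ_apply]
          simp
      mul_smul := by
        intro a b x
        induction x using Submodule.Quotient.induction_on with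
        | H v =>
          show U.mapQ U (ρ ((a * b : K) : G)) (hle _) (Submodule.Quotient.mk v) =
            U.mapQ U (ρ (a : G)) (hle a) (U.mapQ U (ρ (b : G)) (hle b) (Submodule.Quotient.mk v))
          rw [Submodule.mapQ_apply, Submodule.mapQ_apply, Submodule.mapQ_apply]
          simp }
  have hfin : Finite (V ⧸ U) := Finite.of_surjective _ (Submodule.Quotient.mk_surjective U)
  have : Fintype (V ⧸ U) := Fintype.ofFinite _
  have hc : Fintype.card (V ⧸ U) ≤ 4 := by
    rw [← Nat.card_eq_fintype_card]
    have h1 : Nat.card V = Nat.card (V ⧸ U) * Nat.card U := by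
      have := AddSubgroup.card_eq_card_quotient_mul_card_addSubgroup U.toAddSubgroup
      exact this
    have h2 : 0 < Nat.card U := Nat.card_pos
    rw [h1] at hcard
    exact Nat.le_of_mul_le_mul_right hcard h2
  have hS := Cfsg.Agent.Lib.Helper76.isSolvable_perm_of_card_le_four (V ⧸ U) hc
  intro k hk v
  have h1 := small_hom_trivial hK.1 hS (MulAction.toPermHom K (V ⧸ U)) ⟨k, hk⟩
  have h2 : (MulAction.toPermHom K (V ⧸ U) ⟨k, hk⟩) (Submodule.Quotient.mk v) =
      Submodule.Quotient.mk v := by rw [h1]; rfl
  have h3 : (MulAction.toPermHom K (V ⧸ U) ⟨k, hk⟩) (Submodule.Quotient.mk v) =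
      Submodule.Quotient.mk (ρ k v) := by
    show U.mapQ U (ρ k) (hle ⟨k, hk⟩) (Submodule.Quotient.mk v) = _
    rw [Submodule.mapQ_apply]
  rw [h3] at h2
  exact (Submodule.Quotient.eq U).1 h2

end Cfsg.Agent.Lib.Helper12.PGV
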