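import Cfsg.Agent.Lib.Helper12.PGV.Defs
import Cfsg.Agent.Lib.Helper28.Components

set_option autoImplicit false

namespace Cfsg.Agent.Lib.Helper12.PGV

variable {G V : Type*} [Group G] [Finite G] [AddCommGroup V] [Finite V] {p : ℕ} [Fact p.Prime]
  [Module (ZMod p) V] {ρ : Representation (ZMod p) G V} {A K : Subgroup G}

/-- a perfect group has no nontrivial central Sylow subgroup (Burnside transfer) -/
theorem syl_central {H : Type*} [Group H] [Finite H] (hperf : Group.IsPerfect H) (P : Sylow p H)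
    (hc : (P : Subgroup H) ≤ Subgroup.center H) : (P : Subgroup H) = ⊥ := by
  have hP : Subgroup.normalizer (P : Set H) ≤ Subgroup.centralizer (P : Set H) := by
    intro x _
    rw [Subgroup.mem_centralizer_iff]
    intro y hy
    exact (Subgroup.mem_center_iff.1 (hc hy) x).symm
  have hcompl := MonoidHom.ker_transferSylow_isComplement' P hP
  have hker : (MonoidHom.transferSylow P hP).ker = ⊤ := by
    rw [eq_top_iff, ← hperf.commutator_eq_top, commutator_def, Subgroup.commutator_le]
    intro a _ b _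
    rw [MonoidHom.mem_ker, map_commutatorElement, commutatorElement_eq_one_iff_mul_comm]
    apply Subtype.ext
    exact (Subgroup.mem_center_iff.1 (hc (MonoidHom.transferSylow P hP a).2) _).symm
  rw [hker] at hcompl
  exact Subgroup.isComplement'_top_left.1 hcompl

/-- [SYL] -/
theorem syl (hK : Cfsg.IsQuasisimple K) (nt : ∃ k ∈ K, ρ k ≠ 1) (hdvd : p ∣ Nat.card K)
    (A' : Subgroup G) (hA' : IsPGroup p A') (hn : ∀ b ∈ A', cj K b = K) :
    ∃ T : Subgroup G, T ≤ K ∧ IsPGroup p T ∧ (∀ b ∈ A', cj T b = T) ∧ ∃ t ∈ T, ρ t ≠ 1 := by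
  classical
  set H : Subgroup G := K ⊔ A' with hH
  have hKH : K ≤ H := le_sup_left
  have hAH : A' ≤ H := le_sup_right
  have hnorm : ∀ h ∈ H, ∀ k ∈ K, h * k * h⁻¹ ∈ K := by
    have hle : H ≤ Subgroup.normalizer (K : Set G) := by
      apply sup_le Subgroup.le_normalizer
      intro b hb
      rw [Subgroup.mem_normalizer_iff]
      intro k
      have h1 := hn b hb
      constructor
      · intro hk
        rw [← h1]
        exact ⟨k, hk, rfl⟩
      · intro hk
        rw [← h1] at hk
        obtain ⟨k', hk', he⟩ := hk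
        have : k' = k := by
          simpa using he
        rwa [← this]
    intro h hh k hk
    exact (Subgroup.mem_normalizer_iff.1 (hle hh) k).1 hk
  obtain ⟨S, hS⟩ := (hA'.comap_subtype (K := H)).exists_le_sylow
  set T : Subgroup G := (S : Subgroup H).map H.subtype ⊓ K with hT
  have hconj : ∀ b ∈ A', ∀ t ∈ T, b * t * b⁻¹ ∈ T := by
    intro b hb t ht
    refine ⟨?_, hnorm b (hAH hb) t ht.2⟩
    obtain ⟨s, hs, rfl⟩ := ht.1
    have hbS : (⟨b, hAH hb⟩ : H) ∈ (S : Subgroup H) := hS (by
      change b ∈ A'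
      exact hb)
    exact ⟨⟨b, hAH hb⟩ * s * ⟨b, hAH hb⟩⁻¹,
      (S : Subgroup H).mul_mem ((S : Subgroup H).mul_mem hbS hs) ((S : Subgroup H).inv_mem hbS), rfl⟩
  refine ⟨T, inf_le_right, (S.2.map _).to_le inf_le_left, ?_, ?_⟩
  · intro b hb
    apply le_antisymm
    · rintro _ ⟨t, ht, rfl⟩
      exact hconj b hb t ht
    · intro t ht
      refine ⟨b⁻¹ * t * b, ?_, ?_⟩
      · have := hconj b⁻¹ (A'.inv_mem hb) t ht
        rwa [inv_inv] at this
      · simp [mul_assoc]
  · by_contra hcon
    push Not at hcon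
    -- a Sylow subgroup of `K`
    obtain ⟨P⟩ : Nonempty (Sylow p K) := inferInstance
    have hPtriv : ∀ x : K, x ∈ (P : Subgroup K) → ρ (x : G) = 1 := by
      intro x hx
      have hP' : IsPGroup p (((P : Subgroup K).map K.subtype).comap H.subtype) :=
        (P.2.map _).comap_subtype
      obtain ⟨S', hS'⟩ := hP'.exists_le_sylow
      obtain ⟨h, hh⟩ := MulAction.exists_smul_eq H S' S
      have hxS' : (⟨x, hKH x.2⟩ : H) ∈ (S' : Subgroup H) := hS' (by
        change (x : G) ∈ (P : Subgroup K).map K.subtype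
        exact ⟨x, hx, rfl⟩)
      have hxS : h * ⟨x, hKH x.2⟩ * h⁻¹ ∈ (S : Subgroup H) := by
        rw [← hh, Sylow.coe_subgroup_smul]
        exact ⟨_, hxS', rfl⟩
      have hxT : (h : G) * x * (h : G)⁻¹ ∈ T :=
        ⟨⟨_, hxS, rfl⟩, hnorm h h.2 x x.2⟩
      have h1 := hcon _ hxT
      rw [map_mul, map_mul] at h1
      have h2 : ρ (h : G)⁻¹ * ρ (h : G) = 1 := by rw [← map_mul, inv_mul_cancel, map_one]
      calc ρ (x : G) = (ρ (h : G)⁻¹ * ρ (h : G)) * ρ (x : G) * (ρ (h : G)⁻¹ * ρ (h : G)) := by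
            rw [h2, one_mul, mul_one]
        _ = ρ (h : G)⁻¹ * (ρ (h : G) * ρ (x : G) * ρ (h : G)⁻¹) * ρ (h : G) := by
            simp only [mul_assoc]
        _ = 1 := by rw [h1, mul_one, h2]
    have hcen : (P : Subgroup K) ≤ Subgroup.center K := by
      rcases Cfsg.Agent.Lib.Helper28.IsQuasisimple.normal_eq_top_or_le_center hK
        ((ρ : G →* _).comp K.subtype).ker with h1 | h1
      · exfalso
        obtain ⟨k, hk, hk1⟩ := nt
        apply hk1
        have : (⟨k, hk⟩ : K) ∈ ((ρ : G →* _).comp K.subtype).ker := by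
          rw [h1]; exact Subgroup.mem_top _
        exact this
      · intro x hx
        exact h1 (hPtriv x hx)
    have hbot := syl_central hK.1 P hcen
    exact P.ne_bot_of_dvd_card hdvd hbot

end Cfsg.Agent.Lib.Helper12.PGV
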