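import Cfsg.Agent.Lib.Helper12.PGV.Defs
import Cfsg.Agent.S0144

set_option autoImplicit false
set_option linter.unusedSectionVars false

namespace Cfsg.Agent.Lib.Helper12.PGV

variable {G V : Type*} [Group G] [Finite G] [AddCommGroup V] [Finite V] {p : ℕ} [Fact p.Prime]
  [Module (ZMod p) V] {ρ : Representation (ZMod p) G V} {A K : Subgroup G}

/-- Burnside part: a quasisimple group has noncentral elements of prime power order for at least
three primes. -/
theorem tiny_burnside {G : Type*} [Group G] [Finite G] {K : Subgroup G}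
    (hK : Cfsg.IsQuasisimple K) (r1 r2 : ℕ) (hr1 : r1.Prime)
    (hr2 : r2.Prime)
    (h : ∀ s : ℕ, s.Prime → ∀ y ∈ K, ∀ i : ℕ, orderOf y = s ^ i → ¬ Cen K y → s = r1 ∨ s = r2) :
    False := by
  have hperf : Group.IsPerfect K := hK.1
  have hsimp : IsSimpleGroup (K ⧸ Subgroup.center K) := hK.2
  have hprime : ∀ s : ℕ, s.Prime → s ∣ Nat.card (K ⧸ Subgroup.center K) → s = r1 ∨ s = r2 := by
    intro s hs hdvd
    have : Fact s.Prime := ⟨hs⟩
    obtain ⟨q, hq⟩ := exists_prime_orderOf_dvd_card' s hdvd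
    obtain ⟨k, rfl⟩ := QuotientGroup.mk_surjective q
    have hn : orderOf k ≠ 0 := (orderOf_pos k).ne'
    obtain ⟨i, m, hsm, e1⟩ := Nat.exists_eq_pow_mul_and_not_dvd hn s hs.ne_one
    have hm0 : m ≠ 0 := by
      rintro rfl
      simp at hsm
    have ho : orderOf (k ^ m) = s ^ i := by
      rw [orderOf_pow_of_dvd hm0 ⟨s ^ i, by rw [e1]; ring⟩, e1]
      exact Nat.mul_div_cancel _ (Nat.pos_of_ne_zero hm0)
    apply h s hs ((k ^ m : K) : G) (SetLike.coe_mem _) i (by rw [Subgroup.orderOf_coe, ho])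
    intro hc
    have hz : k ^ m ∈ Subgroup.center K := by
      rw [Subgroup.mem_center_iff]
      intro g
      apply Subtype.ext
      exact (hc g g.2).symm
    have h1 : (QuotientGroup.mk k : K ⧸ Subgroup.center K) ^ m = 1 := by
      rw [← QuotientGroup.mk_pow]
      exact (QuotientGroup.eq_one_iff _).2 hz
    exact hsm (hq ▸ orderOf_dvd_of_pow_eq_one h1)
  have hN : Nat.card (K ⧸ Subgroup.center K) ≠ 0 := Nat.card_pos.ne'
  obtain ⟨i, n1, h2, e1⟩ := Nat.exists_eq_pow_mul_and_not_dvd hN r1 hr1.ne_one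
  have hn1 : n1 ≠ 0 := by
    rintro rfl
    simp at h2
  obtain ⟨j, n2, h3, e2⟩ := Nat.exists_eq_pow_mul_and_not_dvd hn1 r2 hr2.ne_one
  have h2' : ¬ r1 ∣ n2 := fun h => h2 (e2 ▸ Dvd.dvd.mul_left h _)
  have hn2 : n2 = 1 := by
    by_contra hne
    obtain ⟨s, hs, hd⟩ := Nat.exists_prime_and_dvd hne
    have : s ∣ Nat.card (K ⧸ Subgroup.center K) := by
      rw [e1, e2]
      exact Dvd.dvd.mul_left (Dvd.dvd.mul_left hd _) _
    rcases hprime s hs this with rfl | rfl
    · exact h2' hd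
    · exact h3 hd
  have hcardQ : Nat.card (K ⧸ Subgroup.center K) = r1 ^ i * r2 ^ j := by
    rw [e1, e2, hn2, mul_one]
  have hsol := Cfsg.Agent.S0144.result r1 r2 i j hr1 hr2 hcardQ
  exact Group.IsPerfect.not_isSolvable (K ⧸ Subgroup.center K) hsol

/-- an element of prime power order `s^i` without nonzero fixed vectors: `|V| ≡ 1 mod s`. -/
theorem tiny_modEq {s i : ℕ} (hs : s.Prime) {y : G} (hy : orderOf y = s ^ i)
    (hfix : Fx ρ {y} = ⊥) : Nat.card V ≡ 1 [MOD s] := by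
  have : Fact s.Prime := ⟨hs⟩
  let _ : MulAction (Subgroup.zpowers y) V :=
    { smul := fun t u => ρ (t : G) u
      one_smul := fun u => by show ρ ((1 : Subgroup.zpowers y) : G) u = u; simp
      mul_smul := fun a b u => by
        show ρ ((a * b : Subgroup.zpowers y) : G) u = ρ (a : G) (ρ (b : G) u); simp }
  have hP : IsPGroup s (Subgroup.zpowers y) := by
    apply IsPGroup.of_card (n := i)
    rw [Nat.card_zpowers, hy]
  have h1 := hP.card_modEq_card_fixedPoints V
  have h2 : Nat.card (MulAction.fixedPoints (Subgroup.zpowers y) V) = 1 := by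
    rw [Nat.card_eq_one_iff_unique]
    refine ⟨⟨?_⟩, ⟨⟨0, ?_⟩⟩⟩
    · rintro ⟨a, ha⟩ ⟨b, hb⟩
      apply Subtype.ext
      show a = b
      have key : ∀ c : V, c ∈ MulAction.fixedPoints (Subgroup.zpowers y) V → c = 0 := by
        intro c hc
        have h3 : c ∈ Fx ρ {y} := by
          intro x hx
          rw [Set.mem_singleton_iff] at hx
          subst hx
          exact hc ⟨x, Subgroup.mem_zpowers x⟩
        rw [hfix] at h3
        exact h3
      rw [key a ha, key b hb]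
    · intro t
      show ρ (t : G) (0 : V) = 0
      simp
  rwa [h2] at h1

theorem tiny_arith {s d : ℕ} (hs : s.Prime) (hd : d ≤ 4) (hd0 : d ≠ 0) (h : 2 ^ d ≡ 1 [MOD s]) :
    (d = 3 ∧ s = 7) ∨ (d ≠ 3 ∧ (s = 3 ∨ s = 5)) := by
  have h1 : s ∣ 2 ^ d - 1 := (Nat.modEq_iff_dvd' Nat.one_le_two_pow).mp h.symm
  have hle : s ≤ 2 ^ d - 1 := Nat.le_of_dvd (by
    have : 2 ^ 1 ≤ 2 ^ d := Nat.pow_le_pow_right (by norm_num) (Nat.pos_of_ne_zero hd0)
    omega) h1
  interval_cases d
  · exact absurd rfl hd0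
  · norm_num at h1
    exact absurd h1 hs.ne_one
  · right
    refine ⟨by norm_num, Or.inl ?_⟩
    exact (Nat.prime_dvd_prime_iff_eq hs Nat.prime_three).mp h1
  · left
    refine ⟨rfl, ?_⟩
    exact (Nat.prime_dvd_prime_iff_eq hs (by norm_num)).mp h1
  · right
    refine ⟨by norm_num, ?_⟩
    have h2 : s ∣ 3 * 5 := h1
    rcases (Nat.Prime.dvd_mul hs).mp h2 with h3 | h3
    · exact Or.inl ((Nat.prime_dvd_prime_iff_eq hs Nat.prime_three).mp h3)
    · exact Or.inr ((Nat.prime_dvd_prime_iff_eq hs Nat.prime_five).mp h3)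

/-- [TINY] -/
theorem tiny (hp : p = 2) (hK : Cfsg.IsQuasisimple K) (nt : ∃ k ∈ K, ρ k ≠ 1)
    (hoddK : Odd (Nat.card K))
    (hfpf : ∀ x ∈ K, Odd (orderOf x) → ¬ Cen K x → Fx ρ {x} = ⊥) (hn : Nat.card V ≤ 16) :
    False := by
  subst hp
  set d := Module.finrank (ZMod 2) V with hd
  have hcard : Nat.card V = 2 ^ d := by
    have := Module.natCard_eq_pow_finrank (K := ZMod 2) (V := V)
    rwa [Nat.card_zmod] at this
  have hd4 : d ≤ 4 := by
    by_contra hcon
    have : 2 ^ 5 ≤ 2 ^ d := Nat.pow_le_pow_right (by norm_num) (by omega)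
    omega
  have hd0 : d ≠ 0 := by
    intro h0
    rw [h0, pow_zero] at hcard
    have := (Nat.card_eq_one_iff_unique.mp hcard).1
    obtain ⟨k, _, hk1⟩ := nt
    apply hk1
    ext v
    exact Subsingleton.elim _ _
  have key : ∀ s : ℕ, s.Prime → ∀ y ∈ K, ∀ i : ℕ, orderOf y = s ^ i → ¬ Cen K y →
      (d = 3 ∧ s = 7) ∨ (d ≠ 3 ∧ (s = 3 ∨ s = 5)) := by
    intro s hs y hy i hyo hyn
    have hodd : Odd (orderOf y) := by
      have h1 : orderOf y ∣ Nat.card K := by
        have := orderOf_dvd_natCard (⟨y, hy⟩ : K)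
        rwa [← Subgroup.orderOf_coe] at this
      exact Odd.of_dvd_nat hoddK h1
    have h2 := tiny_modEq (ρ := ρ) hs hyo (hfpf y hy hodd hyn)
    rw [hcard] at h2
    exact tiny_arith hs hd4 hd0 h2
  by_cases h3 : d = 3
  · apply tiny_burnside hK 7 3 (by norm_num) Nat.prime_three
    intro s hs y hy i hyo hyn
    rcases key s hs y hy i hyo hyn with h | h
    · exact Or.inl h.2
    · exact absurd h3 h.1
  · apply tiny_burnside hK 3 5 Nat.prime_three Nat.prime_five
    intro s hs y hy i hyo hyn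
    rcases key s hs y hy i hyo hyn with h | h
    · exact absurd h.1 h3
    · exact h.2

end Cfsg.Agent.Lib.Helper12.PGV
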