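import Cfsg.Agent.Lib.Helper12.PGV.S1
import Cfsg.Agent.Lib.Helper12.PGV.L1C
import Cfsg.Agent.Lib.Helper12.PGV.QS3

set_option autoImplicit false

namespace Cfsg.Agent.Lib.Helper12.PGV

variable {G V : Type*} [Group G] [Finite G] [AddCommGroup V] [Finite V] {p : ℕ} [Fact p.Prime]
  [Module (ZMod p) V] {ρ : Representation (ZMod p) G V} {A K : Subgroup G}

/-- [TOP2] -/
theorem top2 (hp : p = 2) (d : Dat ρ A K) (hall : ∀ a ∈ A, cj K a ≠ K → Pair2 ρ K a) :
    Cm ρ (K : Set G) = ⊤ := by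
  obtain ⟨x, hx, hcop, hn⟩ := qs3 p d.qs
  have hodd : Odd (orderOf x) := by
    rw [hp] at hcop
    exact Nat.Coprime.odd_of_right hcop
  rw [eq_top_iff, ← s1 d]
  refine iSup_le fun a => ?_
  by_cases h : cj K (a : G) = K
  · rw [h]
  · exact ((l1c hp (hall a a.2 h) hx hodd hn).2.1).ge

end Cfsg.Agent.Lib.Helper12.PGV
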